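import Cfsg.Agent.Lib.Lyons.Carm
import Cfsg.Agent.Lib.Forms.AltCover
import Cfsg.Agent.Lib.Core.Syl
import Cfsg.Agent.Lib.Char.ZStar
import Cfsg.Prelude.Def_SporadicB

set_option autoImplicit false
set_option maxRecDepth 100000

/-! # Properties of an involution centraliser `2·A₁₁` -/

namespace Cfsg.Agent.Lib.Lyons

open Subgroup Equiv Cfsg.Agent.Lib.Core

variable {G : Type*} [Group G] {t : G} {x : Fin 9 → G}

/-- the projection of `C(t)` onto `A₁₁` -/
structure Prj (t : G) (π : centralizer ({t} : Set G) →* Perm (Fin 11)) : Prop where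
  t1 : t ≠ 1
  t2 : t * t = 1
  surj : ∀ σ, Perm.sign σ = 1 → ∃ c, π c = σ
  even : ∀ c, Perm.sign (π c) = 1
  ker : ∀ c, π c = 1 ↔ c.1 = 1 ∨ c.1 = t

theorem comm_t (c : centralizer ({t} : Set G)) : (c : G) * t = t * c := mem_centralizer_singleton_iff.1 c.2

theorem t_mem (t : G) : t ∈ centralizer ({t} : Set G) := mem_centralizer_singleton_iff.2 rfl

namespace Prj
variable {π : centralizer ({t} : Set G) →* Perm (Fin 11)} (h : Prj t π)
include h

theorem eq {a b : centralizer ({t} : Set G)} (e : π a = π b) : (a : G) = b ∨ (a : G) = b * t := by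
  simpa only [coe_mul, coe_inv, inv_mul_eq_iff_eq_mul, mul_one] using (h.ker (b⁻¹ * a)).1 (by simp [e])

theorem sq_eq {a b : centralizer ({t} : Set G)} (e : π a = π b) : (a : G) * a = b * b := by
  obtain e | e := h.eq e <;> rw [e]
  rw [mul_assoc, ← mul_assoc t, ← comm_t, mul_assoc, h.t2, mul_one]

theorem acov : Forms.ACov π := ⟨h.surj, h.even, fun z hz c => Subtype.ext (by
  obtain e | e := (h.ker z).1 hz <;> simp [e, comm_t]), by simp⟩

theorem range : π.range = alternatingGroup (Fin 11) := Subgroup.ext fun σ =>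
  ⟨by rintro ⟨c, rfl⟩; exact h.even c, h.surj σ⟩

theorem card : Nat.card (centralizer ({t} : Set G)) = 39916800 := by
  have : π.ker = zpowers ⟨t, t_mem t⟩ := Subgroup.ext fun c => ⟨fun hc => by
    obtain e | e := (h.ker c).1 hc
    exacts [(Subtype.ext e : c = 1) ▸ one_mem _, (Subtype.ext e : c = ⟨t, _⟩) ▸ mem_zpowers _],
    fun hc => zpowers_le.2 ((h.ker _).2 (.inr rfl)) hc⟩
  rw [← π.ker.card_mul_index, index_ker, h.range, this, Nat.card_zpowers, orderOf_eq_prime (p := 2)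
    (Subtype.ext (by simpa [pow_two] using h.t2)) (fun e => h.t1 (congrArg Subtype.val e)),
    two_mul_nat_card_alternatingGroup, Nat.card_perm]
  simp [Nat.factorial]

theorem sq22 {a b : centralizer ({t} : Set G)} (ha : π a = cy 0 * cy 1) (h1 : π b * π b = 1)
    (h2 : (π b).support.card = 4) : ∃ g : centralizer ({t} : Set G), (b : G) * b = g * (a * a) * (g : G)⁻¹ := by
  obtain ⟨τ, s, e⟩ := conj_p2 h1 h2
  obtain ⟨g, rfl⟩ := h.surj τ s
  exact ⟨g, by rw [h.sq_eq (b := g * a * g⁻¹) (by simp [ha, e])]; simp [mul_assoc]⟩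

theorem normal (K : Subgroup (centralizer ({t} : Set G))) [hK : K.Normal] :
    (∀ c ∈ K, π c = 1) ∨ ∀ σ, Perm.sign σ = 1 → ∃ c ∈ K, π c = σ := by
  let π' := π.codRestrict (alternatingGroup (Fin 11)) h.even
  have := alternatingGroup.isSimpleGroup (α := Fin 11) (by simp)
  have sj : Function.Surjective π' := fun σ => (h.surj σ σ.2).imp fun _ => Subtype.ext
  obtain e | e := (hK.map π' sj).eq_bot_or_eq_top
  · exact .inl fun c hc => congrArg Subtype.val (show π' c = 1 from mem_bot.1 (e ▸ mem_map_of_mem π' hc))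
  · refine .inr fun σ hσ => ?_
    obtain ⟨c, hc, e⟩ := e.ge (mem_top (⟨σ, hσ⟩ : alternatingGroup (Fin 11)))
    exact ⟨c, hc, congrArg Subtype.val e⟩

end Prj

theorem exists_cov (ht : orderOf t = 2)
    (hC : Cfsg.IsNonsplitDoubleCover (centralizer ({t} : Set G)) (alternatingGroup (Fin 11))) : ∃ x, Cov t x := by
  obtain ⟨h2, ⟨e⟩, hn⟩ := hC
  let π := (alternatingGroup (Fin 11)).subtype.comp (e.toMonoidHom.comp (QuotientGroup.mk' _))
  have t1 : t ≠ 1 := by rintro rfl; simp at ht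
  have t2 : t * t = 1 := by rw [← pow_two, ← ht, pow_orderOf_eq_one]
  have tz : (⟨t, t_mem t⟩ : centralizer ({t} : Set G)) ∈ center _ := mem_center_iff.2 fun c => Subtype.ext (comm_t c)
  have hz : zpowers (⟨t, t_mem t⟩ : centralizer ({t} : Set G)) = center _ := by
    have := Nat.finite_of_card_ne_zero (h2 ▸ two_ne_zero)
    exact eq_of_le_of_card_ge (zpowers_le.2 tz) (by rw [h2, Nat.card_zpowers, ← Subgroup.orderOf_coe, ht])
  have k : ∀ c, π c = 1 ↔ c ∈ center _ := fun c => by simp [π]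
  have h : Prj t π := ⟨t1, t2, fun σ hσ => (QuotientGroup.mk'_surjective _ (e.symm ⟨σ, hσ⟩)).imp fun c hc => by
    simp only [π, MonoidHom.comp_apply, hc]; simp, fun c => (e _).2, fun c => (k c).trans ⟨fun hc => by
      obtain ⟨n, rfl⟩ := hz.ge hc
      obtain ⟨m, rfl | rfl⟩ := Int.even_or_odd' n <;> simp [zpow_add, zpow_mul, sq, t2],
      by rintro (e | e); exacts [(Subtype.ext e : c = 1) ▸ one_mem _, (Subtype.ext e : c = ⟨t, _⟩) ▸ tz]⟩⟩
  choose g hg using fun i => h.surj _ (cy_spec i).1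
  have hx : ∀ i, π (g i ^ 4) = cy i := fun i => by rw [map_pow, hg, (cy_spec i).2.1]
  have h3 : ∀ i, (g i ^ 4) ^ 3 = 1 := fun i => by
    have : g i ^ 3 * g i ^ 3 = 1 := Subtype.ext
      ((h.sq_eq (a := g i ^ 3) (b := 1) (by rw [map_pow, hg, (cy_spec i).2.2.1, map_one])).trans (mul_one 1))
    calc _ = (g i ^ 3 * g i ^ 3) ^ 2 := by group
      _ = 1 := by rw [this, one_pow]
  obtain ⟨y, hx, h3⟩ : ∃ y : Fin 9 → centralizer ({t} : Set G), (∀ i, π (y i) = cy i) ∧ ∀ i, y i ^ 3 = 1 := ⟨_, hx, h3⟩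
  have sj : ∀ c, ∃ l ∈ closure (Set.range y), π l = π c := fun c => by
    have := mem_closure_cy (h.even c)
    rwa [show cy = π ∘ y from (funext hx).symm, Set.range_comp, ← MonoidHom.map_closure] at this
  have top : closure (Set.range y) = ⊤ := by
    by_cases m : ⟨t, t_mem t⟩ ∈ closure (Set.range y)
    · refine eq_top_iff.2 fun c _ => ?_
      obtain ⟨l, hl, e⟩ := sj c
      obtain e | e := h.eq e.symm
      exacts [(Subtype.ext e : c = l) ▸ hl, (Subtype.ext e : c = l * ⟨t, _⟩) ▸ mul_mem hl m]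
    · refine (hn (closure (Set.range y)) (isComplement'_of_disjoint_and_mul_eq_univ (disjoint_def.2 fun {c} h1 h2 => ?_)
        (Set.eq_univ_of_forall fun c => ?_))).elim
      · obtain e | e := (h.ker c).1 ((k c).2 h1)
        exacts [Subtype.ext e, (m ((Subtype.ext e : c = ⟨t, _⟩) ▸ h2)).elim]
      · obtain ⟨l, hl, e⟩ := sj c
        exact ⟨c * l⁻¹, (k _).1 (by simp [e]), l, hl, by simp⟩
  have q : ∀ i j, i ≠ j → ∃ g : centralizer ({t} : Set G), ((y i * y j : centralizer _) : G) * (y i * y j : centralizer _) =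
      g * ((y 0 * y 1 : centralizer _) * (y 0 * y 1 : centralizer _)) * (g : G)⁻¹ := fun i j hij =>
    h.sq22 (by rw [map_mul, hx, hx]) (by rw [map_mul, hx, hx]; exact ((cy_spec i).2.2.2.2 j hij).1)
      (by rw [map_mul, hx, hx]; exact ((cy_spec i).2.2.2.2 j hij).2)
  obtain e1 | e1 := (h.ker (y 0 * y 1 * (y 0 * y 1))).1 (by
    rw [map_mul, map_mul, hx, hx]; exact ((cy_spec 0).2.2.2.2 1 (by decide)).1)
  · have := (carm9 y (z := 1) (one_mul 1) (fun _ => Commute.one_left _) h3 fun i j hij => Subtype.ext (by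
      obtain ⟨g, hg⟩ := q i j hij
      rw [pow_two, coe_mul, hg, ← coe_mul, e1]; simp)).2
    rw [top, card_top, h.card, orderOf_one] at this
    omega
  refine ⟨fun i => y i, t1, t2, fun i => congrArg Subtype.val (h3 i), fun i j hij => ?_, ?_, π, fun i _ => hx i,
    fun c => (h.ker c).1⟩
  · obtain ⟨g, hg⟩ := q i j hij
    rw [pow_two, ← coe_mul, hg, ← coe_mul, e1, comm_t, mul_inv_cancel_right]
  · exact (centralizer {t}).range_subtype.symm.trans (by
      rw [MonoidHom.range_eq_map, ← top, MonoidHom.map_closure, ← Set.range_comp]; rfl)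

namespace Cov
variable (h : Cov t x)
include h

theorem mem (i : Fin 9) : x i ∈ centralizer ({t} : Set G) := h.cent ▸ subset_closure ⟨i, rfl⟩

theorem top : closure (Set.range fun i => (⟨x i, h.mem i⟩ : centralizer ({t} : Set G))) = ⊤ :=
  map_injective (subtype_injective _) (by
    rw [MonoidHom.map_closure, ← Set.range_comp, ← MonoidHom.range_eq_map, range_subtype]; exact h.cent.symm)

theorem prj : ∃ π, Prj t π ∧ ∀ i hi, π ⟨x i, hi⟩ = cy i := by
  obtain ⟨π, h1, h2⟩ := h.pi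
  have : π.range = closure (Set.range cy) := by
    rw [MonoidHom.range_eq_map, ← h.top, MonoidHom.map_closure, ← Set.range_comp]
    exact congrArg (fun f => Subgroup.closure (Set.range f)) (funext fun i => h1 i _)
  refine ⟨π, ⟨h.t1, h.t2, fun σ hσ => this.ge (mem_closure_cy hσ), fun c => (closure_le (alternatingGroup _)).2
    (by rintro _ ⟨i, rfl⟩; exact (cy_spec i).1) (this.le ⟨c, rfl⟩), fun c => ⟨h2 c, ?_⟩⟩, h1⟩
  rintro (e | e)
  · rw [(Subtype.ext e : c = 1), map_one]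
  · rw [show c = (⟨x 0, h.mem 0⟩ * ⟨x 1, h.mem 1⟩) ^ 2 from Subtype.ext (e.trans (h.sq 0 1 (by decide)).symm),
      map_pow, map_mul, h1, h1, pow_two, ((cy_spec 0).2.2.2.2 1 (by decide)).1]

theorem card : Nat.card (centralizer ({t} : Set G)) = 39916800 := by
  obtain ⟨π, hp, -⟩ := h.prj; exact hp.card

theorem hom {Γ : Type*} [Group Γ] (y : Fin 9 → Γ) (z : Γ) (hz : z * z = 1) (hc : ∀ i, Commute z (y i))
    (h3 : ∀ i, y i ^ 3 = 1) (h2 : ∀ i j, i ≠ j → (y i * y j) ^ 2 = z) :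
    ∃ μ : centralizer ({t} : Set G) →* Γ, ∀ i hi, μ ⟨x i, hi⟩ = y i := by
  let w : Fin 9 → centralizer ({t} : Set G) × Γ := fun i => (⟨x i, h.mem i⟩, y i)
  have e : ((⟨t, t_mem t⟩, z) : centralizer ({t} : Set G) × Γ) ^ 2 = 1 :=
    Prod.ext (Subtype.ext (by simpa [pow_two] using h.t2)) (by simpa [pow_two] using hz)
  obtain ⟨f, c⟩ := carm9 w (z := (⟨t, t_mem t⟩, z)) (by rwa [← pow_two])
    (fun i => Prod.ext (Subtype.ext (comm_t ⟨_, h.mem i⟩).symm) (hc i))
    (fun i => Prod.ext (Subtype.ext (h.cube i)) (h3 i))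
    fun i j hij => Prod.ext (Subtype.ext (h.sq i j hij)) (h2 i j hij)
  have := Nat.le_of_dvd two_pos (orderOf_dvd_of_pow_eq_one e)
  let p := (MonoidHom.fst _ _).comp (closure (Set.range w)).subtype
  have sj : Function.Surjective p := fun c => by
    have : c ∈ (closure (Set.range w)).map (MonoidHom.fst _ _) := by
      rw [MonoidHom.map_closure, ← Set.range_comp]; exact h.top.ge (mem_top c)
    obtain ⟨l, hl, e⟩ := this
    exact ⟨⟨l, hl⟩, e⟩
  have b : Function.Bijective p := sj.bijective_of_nat_card_le (by rw [h.card]; nlinarith)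
  refine ⟨((MonoidHom.snd _ _).comp (Subgroup.subtype _)).comp (MulEquiv.ofBijective p b).symm.toMonoidHom,
    fun i hi => ?_⟩
  rw [show ⟨x i, hi⟩ = MulEquiv.ofBijective p b ⟨w i, subset_closure ⟨i, rfl⟩⟩ from rfl]
  exact congrArg (fun l : closure (Set.range w) => l.1.2) ((MulEquiv.ofBijective p b).symm_apply_apply _)

theorem inv : Cov t fun i => (x i)⁻¹ := by
  obtain ⟨π, h1, h2⟩ := h.pi
  refine ⟨h.t1, h.t2, fun i => by rw [inv_pow, h.cube, inv_one], fun i j hij => by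
    rw [← mul_inv_rev, inv_pow, h.sq j i hij.symm, inv_eq_of_mul_eq_one_left h.t2], ?_,
    (MulAut.conj (swap 9 10)).toMonoidHom.comp π, fun i hi => ?_, fun c hc => h2 c ((MulAut.conj _).map_eq_one_iff.1 hc)⟩
  · rw [h.cent, ← closure_inv, Set.inv_range]
  · rw [show (⟨(x i)⁻¹, hi⟩ : centralizer ({t} : Set G)) = ⟨x i, h.mem i⟩⁻¹ from rfl, MonoidHom.comp_apply, map_inv, h1]
    exact (cy_spec i).2.2.2.1

end Cov

/-- all the facts on involutions, in terms of the projection -/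
theorem Prj.inv_facts {π : centralizer ({t} : Set G) →* Perm (Fin 11)} (h : Prj t π)
    {a : centralizer ({t} : Set G)} (ha : π a = cy 0 * cy 1) (ha2 : (a : G) * a = t) :
    ∃ u g : centralizer ({t} : Set G), π u = p4 ∧ (u : G) * u = 1 ∧ (g : G) * u * (g : G)⁻¹ = u * t ∧
      ∀ v : centralizer ({t} : Set G), (v : G) * v = 1 → (v : G) ≠ 1 → (v : G) ≠ t →
        ∃ c : centralizer ({t} : Set G), (c : G) * u * (c : G)⁻¹ = v := by
  have s : ∀ b, π b * π b = 1 → (π b).support.card = 4 → (b : G) * b = t := fun b h1 h2 => by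
    obtain ⟨g, hg⟩ := h.sq22 ha h1 h2
    rw [hg, ha2, comm_t, mul_inv_cancel_right]
  obtain ⟨b, hb⟩ := h.surj (swap 0 1 * swap 2 3) (by decide +kernel)
  obtain ⟨c, hc⟩ := h.surj (swap 4 5 * swap 6 7) (by decide +kernel)
  obtain ⟨g, hg⟩ := h.surj (swap 0 1 * swap 8 9) (by decide +kernel)
  have hu : π (b * c) = p4 := by rw [map_mul, hb, hc, p4]
  have u2 : ((b * c : centralizer _) : G) * (b * c : centralizer _) = 1 := by
    have := h.acov.commute_of_fix [0, 1, 2, 3] (by simp) (x := b) (y := c) (by rw [hb]; decide +kernel)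
      (by rw [hc]; decide +kernel)
    rw [← coe_mul, this.symm.mul_mul_mul_comm, coe_mul, coe_mul, coe_mul,
      s b (by rw [hb]; decide +kernel) (by rw [hb]; decide +kernel),
      s c (by rw [hc]; decide +kernel) (by rw [hc]; decide +kernel), h.t2]
  generalize b * c = u at hu u2
  have k : ∀ v, π v * π v = 1 → (π v).support.card = 8 → ∃ c : centralizer ({t} : Set G), π v = π (c * u * c⁻¹) :=
    fun v h1 h2 => by
      obtain ⟨τ, s, e⟩ := conj_p4 h1 h2
      obtain ⟨c, rfl⟩ := h.surj τ s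
      exact ⟨c, by simp [hu, e]⟩
  have e : (g : G) * u * (g : G)⁻¹ = u * t := by
    obtain ⟨c, hc⟩ := k (g * u) (by rw [map_mul, hg, hu]; decide +kernel) (by rw [map_mul, hg, hu]; decide +kernel)
    have e1 := h.sq_eq hc
    simp only [coe_mul, coe_inv, conj_mul, u2, mul_one, mul_inv_cancel] at e1
    have e2 := s g (by rw [hg]; decide +kernel) (by rw [hg]; decide +kernel)
    calc _ = (g : G) * u * (g * u) * (u : G)⁻¹ * ((g : G) * g)⁻¹ := by group
      _ = _ := by rw [e1, e2, inv_eq_of_mul_eq_one_left u2, inv_eq_of_mul_eq_one_left h.t2, one_mul]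
  refine ⟨u, g, hu, u2, e, fun v h2 h1 ht => ?_⟩
  have v2 : π v * π v = 1 := by rw [← map_mul, (Subtype.ext h2 : v * v = 1), map_one]
  obtain e4 | e8 := inv_cases v2 (fun e => ((h.ker v).1 e).elim h1 ht) (h.even v)
  · exact absurd ((s v v2 e4).symm.trans h2) h.t1
  obtain ⟨c, hc⟩ := k v v2 e8
  obtain e1 | e1 := h.eq hc
  · exact ⟨c, e1.symm⟩
  · exact ⟨c * g, by
      calc _ = (c : G) * (g * u * (g : G)⁻¹) * (c : G)⁻¹ := by simp [mul_assoc]
        _ = c * u * (c : G)⁻¹ * (c * t) * (c : G)⁻¹ := by rw [e]; group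
        _ = v := by rw [comm_t, e1]; simp [mul_assoc]⟩

/-- in a non-abelian finite simple group an involution commutes with another of its conjugates -/
theorem exists_conj_comm [Finite G] [IsSimpleGroup G] (t1 : t ≠ 1) (t2 : t * t = 1) {a b : G} (hab : a * b ≠ b * a) :
    ∃ g : G, g * t * g⁻¹ ≠ t ∧ g * t * g⁻¹ ∈ centralizer ({t} : Set G) := by
  by_contra! hh
  have ti : t⁻¹ = t := inv_eq_of_mul_eq_one_left t2
  obtain ⟨N, hN, ho, h⟩ := Char.zstar t2 fun g => by
    by_contra he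
    obtain ⟨k, hk⟩ := Nat.not_odd_iff_even.1 he
    have hs : t * (t * (g * t * g⁻¹)) = g * t * g⁻¹ := by rw [← mul_assoc, t2, one_mul]
    have hi := Invol.conj_mul_eq_inv t2 (show g * t * g⁻¹ * (g * t * g⁻¹) = 1 by rw [conj_mul, t2]; simp)
    generalize t * (g * t * g⁻¹) = r at hk hs hi
    have hp := orderOf_pos r
    have z1 : r ^ k ≠ 1 := fun e => by have := Nat.le_of_dvd (by omega) (orderOf_dvd_of_pow_eq_one e); omega
    have z2 : r ^ k * r ^ k = 1 := by rw [← pow_add, ← hk, pow_orderOf_eq_one]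
    have c : ∀ j : ℕ, (r ^ j)⁻¹ * t = t * r ^ j := fun j => by
      rw [← Invol.conj_pow_of_inverts hi j, ti, mul_assoc, t2, mul_one]
    have m : t * r ^ k ∈ centralizer ({t} : Set G) := mem_centralizer_singleton_iff.2 (by
      rw [mul_assoc, ← c, inv_eq_of_mul_eq_one_left z2])
    obtain ⟨g', e⟩ : ∃ g' : G, g' * t * g'⁻¹ = t * r ^ k := by
      obtain ⟨j, rfl | rfl⟩ := Nat.even_or_odd' k
      · exact ⟨(r ^ j)⁻¹, by rw [c]; group⟩
      · exact ⟨(r ^ j)⁻¹ * g, by
          rw [show (r ^ j)⁻¹ * g * t * ((r ^ j)⁻¹ * g)⁻¹ = (r ^ j)⁻¹ * (g * t * g⁻¹) * r ^ j by group, ← hs,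
            ← mul_assoc, c]; group⟩
    exact hh g' (by rw [e]; simpa using z1) (e ▸ m)
  have o2 := orderOf_eq_prime (p := 2) (by rwa [pow_two]) t1
  obtain rfl | rfl := hN.eq_bot_or_eq_top
  · obtain e | e := (inferInstance : (center G).Normal).eq_bot_or_eq_top
    · exact t1 (mem_bot.1 (e ▸ mem_center_iff.2 fun g => by
        have := mem_bot.1 (h g); rw [mul_inv_eq_one, mul_inv_eq_iff_eq_mul] at this; exact this.symm))
    · exact hab (mem_center_iff.1 (e.ge (mem_top b)) a)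
  · exact (Nat.not_even_iff_odd.2 ho) (even_iff_two_dvd.2 (o2 ▸ (⊤ : Subgroup G).orderOf_dvd_natCard (mem_top t)))

namespace Cov
variable (h : Cov t x)
include h

theorem facts : ∃ π, Prj t π ∧ ∃ u g : centralizer ({t} : Set G), π u = p4 ∧ (u : G) * u = 1 ∧
    (g : G) * u * (g : G)⁻¹ = u * t ∧ ∀ v : centralizer ({t} : Set G), (v : G) * v = 1 → (v : G) ≠ 1 → (v : G) ≠ t →
      ∃ c : centralizer ({t} : Set G), (c : G) * u * (c : G)⁻¹ = v := by
  obtain ⟨π, hp, hx⟩ := h.prj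
  exact ⟨π, hp, hp.inv_facts (a := ⟨x 0, h.mem 0⟩ * ⟨x 1, h.mem 1⟩) (by rw [map_mul, hx, hx])
    ((pow_two _).symm.trans (h.sq 0 1 (by decide)))⟩

theorem conj_inv {u v : G} (hu : u ∈ centralizer ({t} : Set G)) (u2 : u * u = 1) (u1 : u ≠ 1) (ut : u ≠ t)
    (hv : v ∈ centralizer ({t} : Set G)) (v2 : v * v = 1) (v1 : v ≠ 1) (vt : v ≠ t) :
    ∃ c ∈ centralizer ({t} : Set G), c * u * c⁻¹ = v := by
  obtain ⟨π, -, w, -, -, -, -, k⟩ := h.facts
  obtain ⟨a, ha⟩ := k ⟨u, hu⟩ u2 u1 ut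
  obtain ⟨b, hb⟩ := k ⟨v, hv⟩ v2 v1 vt
  exact ⟨b * (a : G)⁻¹, mul_mem b.2 (inv_mem a.2), by rw [show u = _ from ha.symm, show v = _ from hb.symm]; group⟩

theorem exists_inv : ∃ u ∈ centralizer ({t} : Set G), u * u = 1 ∧ u ≠ 1 ∧ u ≠ t := by
  obtain ⟨π, hp, u, -, hu, u2, -⟩ := h.facts
  exact ⟨u, u.2, u2, not_or.1 fun e => absurd (hu ▸ (hp.ker u).2 e) (by decide +kernel)⟩

theorem swap [Finite G] [IsSimpleGroup G] {u : G} (hu : u ∈ centralizer ({t} : Set G)) (u2 : u * u = 1) (u1 : u ≠ 1)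
    (ut : u ≠ t) : ∃ g : G, g * t * g⁻¹ = u ∧ g * u * g⁻¹ = t := by
  obtain ⟨g, h1, h2⟩ := exists_conj_comm h.t1 h.t2 (a := x 0) (b := x 1) fun e => h.t1 (by
    have e2 := h.sq 0 1 (by decide)
    have e3 : (x 0 * x 1) ^ 3 = 1 := by rw [Commute.mul_pow e, h.cube, h.cube, one_mul]
    calc t = t * t * t := by rw [h.t2, one_mul]
      _ = ((x 0 * x 1) ^ 3) ^ 2 := by rw [← e2]; group
      _ = 1 := by rw [e3, one_pow])
  obtain ⟨c, hc, e⟩ := h.conj_inv h2 (by rw [conj_mul, h.t2]; simp) (by simpa using h.t1) h1 hu u2 u1 ut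
  obtain ⟨g, e⟩ : ∃ g : G, g * t * g⁻¹ = u := ⟨c * g, by rw [← e]; group⟩
  obtain ⟨c, hc, e'⟩ := h.conj_inv hu u2 u1 ut (v := g⁻¹ * t * g) (mem_centralizer_singleton_iff.2 (by
    calc _ = g⁻¹ * (t * (g * t * g⁻¹)) * g := by group
      _ = g⁻¹ * (g * t * g⁻¹ * t) * g := by rw [e, mem_centralizer_singleton_iff.1 hu]
      _ = _ := by group)) (by simp [mul_assoc, ← mul_assoc t t, h.t2]) (by simpa [mul_assoc, inv_mul_eq_one] using h.t1)
    fun e2 => ut (by rw [← e]; nth_rewrite 1 [← e2]; group)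
  refine ⟨g * c, ?_, ?_⟩
  · rw [← e, mul_assoc g, mem_centralizer_singleton_iff.1 hc]; group
  · calc _ = g * (c * u * c⁻¹) * g⁻¹ := by group
      _ = t := by rw [e']; group

theorem card_cent {u : G} (hu : u ∈ centralizer ({t} : Set G)) (u2 : u * u = 1) (u1 : u ≠ 1) (ut : u ≠ t) :
    Nat.card (centralizer ({t} : Set G) ⊓ centralizer {u} : Subgroup G) = 1152 := by
  obtain ⟨π, hp, w, g, hw, w2, hg, k⟩ := h.facts
  have : Finite (centralizer ({t} : Set G)) := Nat.finite_of_card_ne_zero (by rw [h.card]; norm_num)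
  obtain ⟨c, hc⟩ := k ⟨u, hu⟩ u2 u1 ut
  have e1 : centralizer {t} ⊓ centralizer {u} = (centralizer {⟨u, hu⟩}).map (centralizer ({t} : Set G)).subtype :=
    Subgroup.ext fun a => ⟨fun ha => ⟨⟨a, ha.1⟩, mem_centralizer_singleton_iff.2
      (Subtype.ext (mem_centralizer_singleton_iff.1 ha.2)), rfl⟩, by
      rintro ⟨a, ha, rfl⟩
      exact ⟨a.2, mem_centralizer_singleton_iff.2 (congrArg Subtype.val (mem_centralizer_singleton_iff.1 ha))⟩⟩
  rw [e1, card_map_of_injective (subtype_injective _),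
    ← Invol.card_centralizer_eq_of_isConj (isConj_iff.2 ⟨c, (Subtype.ext hc : c * w * c⁻¹ = _)⟩)]
  have i1 : (centralizer {w}).relIndex ((centralizer {p4}).comap π) = 2 := by
    have f : ∀ b ∈ (centralizer {p4}).comap π, (b : G) * w * (b : G)⁻¹ = w ∨ (b : G) * w * (b : G)⁻¹ = w * t :=
      fun b hb => hp.eq (a := b * w * b⁻¹) (by
        rw [map_mul, map_mul, hw, mem_centralizer_singleton_iff.1 hb, map_inv, mul_inv_cancel_right])
    have m : ∀ b : centralizer ({t} : Set G), b ∈ centralizer {w} ↔ (b : G) * w * (b : G)⁻¹ = w := fun b => by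
      rw [mem_centralizer_singleton_iff, mul_inv_eq_iff_eq_mul, Subtype.ext_iff]; rfl
    refine relIndex_eq_two_iff.2 ⟨g, mem_centralizer_singleton_iff.2 ?_, fun b hb => ?_⟩
    · rw [← hw, ← map_mul, show g * w = w * ⟨t, t_mem t⟩ * g from Subtype.ext (mul_inv_eq_iff_eq_mul.1 hg),
        map_mul, map_mul, (hp.ker ⟨t, _⟩).2 (.inr rfl), mul_one]
    · have : ((b * g : centralizer _) : G) * w * ((b * g : centralizer _) : G)⁻¹ = b * w * (b : G)⁻¹ * t := by
        calc _ = (b : G) * (g * w * (g : G)⁻¹) * (b : G)⁻¹ := by simp [mul_assoc]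
          _ = b * w * (b : G)⁻¹ * (b * t) * (b : G)⁻¹ := by rw [hg]; group
          _ = _ := by rw [comm_t]; simp [mul_assoc]
      rw [m, m, this]
      obtain e | e := f b hb <;> simp [e, mul_assoc, h.t2, h.t1]
  have i2 : (centralizer ({p4} : Set (Perm (Fin 11)))).index = 17325 := by
    have := (centralizer ({p4} : Set (Perm (Fin 11)))).card_mul_index
    rw [card_cent_p4, Nat.card_perm] at this
    simp [Nat.factorial] at this; omega
  have i3 : (alternatingGroup (Fin 11)).relIndex (centralizer {p4}) = 2 :=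
    relIndex_eq_two_iff.2 ⟨Equiv.swap 0 1, mem_centralizer_singleton_iff.2 (by decide +kernel), fun b _ => by
      obtain e | e := Int.units_eq_one_or (Perm.sign b) <;> simp [e]⟩
  have i4 := relIndex_inf_mul_relIndex (centralizer {p4}) (alternatingGroup (Fin 11)) ⊤
  have i5 := relIndex_inf_mul_relIndex (alternatingGroup (Fin 11)) (centralizer {p4}) ⊤
  simp only [inf_top_eq, relIndex_top_right, alternatingGroup.index_eq_two, i2, i3] at i4 i5
  have i6 := relIndex_mul_index (H := centralizer {w}) (K := (centralizer {p4}).comap π) fun b hb =>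
    mem_centralizer_singleton_iff.2 (by rw [← hw, ← map_mul, mem_centralizer_singleton_iff.1 hb, map_mul])
  have i7 := (centralizer ({w} : Set (centralizer ({t} : Set G)))).card_mul_index
  rw [index_comap, hp.range, i1] at i6
  rw [inf_comm] at i5
  rw [h.card, ← i6, show (centralizer {p4}).relIndex (alternatingGroup (Fin 11)) = 17325 by omega] at i7
  omega

theorem odd_normal (N : Subgroup G) (h1 : N ≤ centralizer {t}) (h2 : centralizer {t} ≤ normalizer (N : Set G))
    (ho : Odd (Nat.card N)) : N = ⊥ := by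
  obtain ⟨π, hp, -⟩ := h.prj
  have := (normal_subgroupOf_iff_le_normalizer h1).2 h2
  have od : ∀ a ∈ N, Odd (orderOf a) := fun a ha => ho.of_dvd_nat (N.orderOf_dvd_natCard ha)
  obtain e | e := hp.normal (N.subgroupOf (centralizer {t}))
  · refine eq_bot_iff.2 fun a ha => ((hp.ker ⟨a, h1 ha⟩).1 (e _ ha)).elim id fun e => ?_
    have := od a ha
    rw [show a = t from e, orderOf_eq_prime (p := 2) (by rw [pow_two, h.t2]) h.t1] at this
    exact absurd this (by decide)
  · obtain ⟨c, hc, e⟩ := e p4 (by decide +kernel)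
    have := (od c hc).of_dvd_nat ((orderOf_map_dvd π c).trans (Subgroup.orderOf_coe c).symm.dvd)
    rw [e, orderOf_eq_prime (p := 2) (by decide +kernel) (by decide +kernel)] at this
    exact absurd this (by decide)

theorem gen_inv (N : Subgroup G) (hN : ∀ j ∈ centralizer ({t} : Set G), j * j = 1 → j ∈ N) : centralizer {t} ≤ N := by
  obtain ⟨π, hp, u, -, hu, u2, -⟩ := h.facts
  let K := normalClosure {j : centralizer ({t} : Set G) | j * j = 1}
  have l : K ≤ N.subgroupOf _ := (closure_le _).2 fun j hj => by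
    obtain ⟨a, ha, e⟩ := Group.mem_conjugatesOfSet_iff.1 hj
    obtain ⟨c, rfl⟩ := isConj_iff.1 e
    exact hN _ (c * a * c⁻¹).2 (congrArg Subtype.val (show c * a * c⁻¹ * (c * a * c⁻¹) = 1 by
      rw [conj_mul, show a * a = 1 from ha, mul_one, mul_inv_cancel]))
  obtain e | e := hp.normal K
  · exact absurd (hu ▸ e u (subset_normalClosure (Subtype.ext u2))) (by decide +kernel)
  intro c hc
  obtain ⟨d, hd, e⟩ := e _ (hp.even ⟨c, hc⟩)
  obtain e | e := hp.eq e.symm
  exacts [(show c = d from e) ▸ l hd, (show c = d * t from e) ▸ mul_mem (l hd) (hN t (t_mem t) h.t2)]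

end Cov

end Cfsg.Agent.Lib.Lyons
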