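import Cfsg.Agent.Lib.Lyons.Spin
import Cfsg.Agent.Lib.Lyons.Cov2

/-! The alphabet: letters `0..8` = `x i`, `9..14` = `a i` (lift of `(i 6 7)`), `15` = `w` (lift of
`(2 4)(3 5)(6 7)(9 10)`), `16` = `s` (lift of `(0 8)(1 9)(2 10)(3 4)`), `17` = `g`.
Code `2j` is the letter `j`, code `2j+1` its inverse.  `chkC` decides equations in `2·A₁₁`. -/

set_option autoImplicit false
set_option maxRecDepth 100000

namespace Cfsg.Agent.Lib.Lyons

open Cfsg.Agent.PG Cfsg.Agent.Spor Subgroup Equiv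

/-- the letters `9..16` as words in the `x i` -/
def defW : List (List ℕ) := [[0,15,13,0,12], [2,15,13,2,12], [4,15,13,4,12], [6,15,13,6,12], [8,15,13,8,12], [10,15,13,10,12], [12,15,12,6,11,5,8,6,4], [5,0,17,6,9,6,2,0]]

/-- lift of `()` -/
def tW : List ℕ := [18,20,18,20]

/-- lift of `(0 1)(2 3)(4 5)(6 7)` -/
def uW : List ℕ := [18,21,18,22,25,22,27,28,27]

/-- lift of `(0 2 4)(1 3 5)` -/
def yW : List ℕ := [18,20,26,23,29,19,25,20]

/-- lift of `(0 6)(1 7)(2 4)(3 5)` -/
def aW : List ℕ := [18,20,22,24,26,28,22,24]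

/-- lift of `(0 7)(1 6)(2 4)(3 5)` -/
def bW : List ℕ := [19,21,22,24,26,28,22,24]

/-- lift of `(0 2)(1 3)(4 7)(5 6)` -/
def sbW : List ℕ := [18,20,22,19,25,20,28,26]

/-- lift of `(0 1)(2 5)(3 4)(6 7)` -/
def p0W : List ℕ := [18,21,18,22,24,27,29,25,23]

/-- lift of `(0 3)(1 2)(4 5)(6 7)` -/
def p3W : List ℕ := [18,20,23,20,24,19,27,28,27]

/-- lift of `(0 2)(1 7)(3 5)(4 6)` -/
def p5aW : List ℕ := [18,20,22,19,25,27,29,24]

/-- lift of `(0 7)(1 4)(2 5)(3 6)` -/
def p5bW : List ℕ := [19,20,22,26,28,20,22,25]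

/-- lift of `(0 6)(1 5)(2 4)(3 7)` -/
def p5cW : List ℕ := [18,20,22,27,22,28,21,24]

variable {G : Type*} [Group G] {t : G} {x : Fin 9 → G}

/-- the generators as letters -/
def xs (x : Fin 9 → G) (j : ℕ) : G := if h : j < 9 then x ⟨j, h⟩ else 1

/-- the alphabet -/
noncomputable def al (x : Fin 9 → G) (g : G) (j : ℕ) : G :=
  if j < 9 then xs x j else if j < 17 then ew (xs x) (defW.getD (j - 9) []) else if j = 17 then g else 1

theorem al_x (x : Fin 9 → G) (g : G) (i : Fin 9) : al x g i = x i := by simp [al, xs, i.2]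

theorem al_g (x : Fin 9 → G) (g : G) : al x g 17 = g := rfl

theorem al_8 (x : Fin 9 → G) (g : G) : al x g 8 = x 8 := rfl

theorem map_al {Γ : Type*} [Group Γ] (f : G →* Γ) (x : Fin 9 → G) (g : G) (j : ℕ) :
    f (al x g j) = al (fun i => f (x i)) (f g) j := by
  have : ∀ j, f (xs x j) = xs (fun i => f (x i)) j := fun j => by unfold xs; split_ifs <;> simp
  unfold al
  split_ifs
  · exact this j
  · rw [map_ew]; simp only [this]
  · rfl
  · simp

/-- image of a point under a letter -/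
noncomputable def apc (c p : ℕ) : ℕ := Nat.land (Nat.shiftRight (nthD 0 ptab c) (Nat.mul 4 p)) 15

/-- image of a point under a word -/
noncomputable def pw (l : List ℕ) (p : ℕ) : ℕ :=
  List.rec (motive := fun _ => ℕ) p (fun c _ ih => force ih (apc c)) l

/-- only letters of `C(t)` -/
noncomputable def inC (l : List ℕ) : Bool := allL l fun c => Nat.blt c 34

theorem apc_spec : ∀ c < 34, ∀ p : Fin 11, (Spor.lpG (al cy 1) c p : ℕ) = apc c p := by decide +kernel

theorem pw_spec {l : List ℕ} (h : inC l = true) (p : Fin 11) : (ew (al cy 1) l p : ℕ) = pw l p := by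
  induction l with
  | nil => rfl
  | cons c l ih =>
    have h' : andB (Nat.blt c 34) (inC l) = true := h
    rw [andB_eq, Bool.and_eq_true, Nat.blt_eq] at h'
    have : pw (c :: l) p = apc c (pw l p) := force_eq _ _
    rw [this, ew_cons, Perm.mul_apply, apc_spec c h'.1, ih h'.2]

/-- test of equations in `2·A₁₁` -/
noncomputable def chkC (E : List Eqn) : Bool :=
  andB (allL E fun c => andB (inC c.1) (andB (inC c.2) (allN 11 fun p => Nat.beq (pw c.1 p) (pw c.2 p))))
    (rowB P32 L32 0 1 E)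

/-- defining relations in the spin model -/
def spinE : List Eqn :=
  ([0,2,0,2,0,2,0,2], []) :: ((List.range 9).map (fun i => ([0,2,0,2,2*i], [2*i,0,2,0,2])) ++
  (List.range 9).map (fun i => ([2*i,2*i,2*i], [])) ++
  (List.range 8).map (fun i => ([2*(9+i)], defW.getD i [])) ++
  (List.range 9).flatMap (fun i => ((List.range 9).filter (· ≠ i)).map
    (fun j => ([2*i,2*j,2*i,2*j], [0,2,0,2]))))

theorem spin_ok : ∀ c ∈ spinE, Sat (gam P32 L32) c := matB_spec good32 (by decide +kernel)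

theorem spin_ne : rowN P32 L32 (⟨0, by decide⟩ : Fin P32.n) 0 [0,2,0,2] = true := by decide +kernel

theorem ew_al_coe (y : Fin 9 → centralizer ({t} : Set G)) (g : G) {l : List ℕ} (hl : inC l = true) :
    ((ew (al y 1) l : centralizer ({t} : Set G)) : G) = ew (al (fun i => (y i : G)) g) l := by
  refine (map_ew (centralizer ({t} : Set G)).subtype _ l).trans (ew_congr fun c hc => ?_)
  have h1 : c < 34 := by simpa [Nat.blt_eq] using allL_spec hl c hc
  rw [map_al]
  unfold al
  rw [if_pos (show c / 2 < 17 by omega), if_pos (show c / 2 < 17 by omega)]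
  rfl

namespace Cov

variable (h : Cov t x)
include h

theorem ew_mem (g : G) {l : List ℕ} (hl : inC l = true) : ew (al x g) l ∈ centralizer ({t} : Set G) := by
  rw [← ew_al_coe (fun i => ⟨x i, h.mem i⟩) g hl]; exact Subtype.coe_prop _

/-- the projection to `A₁₁` of a word is computed by `pw` -/
theorem prj_ew : ∃ π, Prj t π ∧ (∀ i hi, π ⟨x i, hi⟩ = cy i) ∧ ∀ (g : G) (l : List ℕ) (hl : inC l = true)
    (p : Fin 11), (π ⟨ew (al x g) l, h.ew_mem g hl⟩ p : ℕ) = pw l p := by
  obtain ⟨π, h1, h2⟩ := h.prj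
  refine ⟨π, h1, h2, fun g l hl p => ?_⟩
  have e : (⟨ew (al x g) l, h.ew_mem g hl⟩ : centralizer ({t} : Set G)) =
    ew (al (fun i => ⟨x i, h.mem i⟩) 1) l := Subtype.ext (ew_al_coe (fun i => ⟨x i, h.mem i⟩) g hl).symm
  rw [e, map_ew, ← pw_spec hl]
  simp only [map_al, h2, map_one]

theorem ne (g : G) {l l' : List ℕ} (hl : inC l = true) (hl' : inC l' = true) {p : ℕ} (hp : p < 11)
    (hn : pw l p ≠ pw l' p) : ew (al x g) l ≠ ew (al x g) l' := fun e => by
  obtain ⟨π, -, -, h3⟩ := h.prj_ew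
  apply hn
  rw [← h3 g l hl ⟨p, hp⟩, ← h3 g l' hl' ⟨p, hp⟩]
  simp only [e]

theorem sat (g : G) {E : List Eqn} (hE : chkC E = true) : ∀ c ∈ E, Sat (al x g) c := by
  intro c hc
  unfold chkC at hE
  rw [andB_eq, Bool.and_eq_true] at hE
  have h0 := allL_spec hE.1 c hc
  simp only [andB_eq, Bool.and_eq_true] at h0
  obtain ⟨a1, a2, a3⟩ := h0
  obtain ⟨π, h1, -, h3⟩ := h.prj_ew
  have e : π ⟨_, h.ew_mem g a1⟩ = π ⟨_, h.ew_mem g a2⟩ := by
    ext p
    rw [h3 g _ a1, h3 g _ a2]
    exact Nat.eq_of_beq_eq_true (allN_spec a3 p p.2)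
  rcases h1.eq e with e1 | e1
  · exact e1
  exfalso
  have s0 : ∀ i : ℕ, Spor.lpG (gam P32 L32) (2 * i) = gam P32 L32 i := lpG_even _
  obtain ⟨μ, hμ⟩ := h.hom (fun i => gam P32 L32 i) (ew (gam P32 L32) [0,2,0,2])
    (by have := spin_ok _ List.mem_cons_self
        unfold Sat at this
        rw [← ew_append]; exact this)
    (fun i => by
      have := spin_ok ([0,2,0,2,2*i], [2*i,0,2,0,2]) (by revert i; decide +kernel)
      unfold Sat at this
      rw [show [0,2,0,2,2*(i:ℕ)] = [0,2,0,2] ++ [2*(i:ℕ)] from rfl, ew_append, ew_cons _ (2*(i:ℕ)),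
        ew_cons _ (2*(i:ℕ)), s0, ew_nil, mul_one] at this
      exact this)
    (fun i => by
      have := spin_ok ([2*i,2*i,2*i], []) (by revert i; decide +kernel)
      simp only [Sat, ew_cons, s0, ew_nil, mul_one] at this
      rw [pow_three]; exact this)
    (fun i j hij => by
      have := spin_ok ([2*i,2*j,2*i,2*j], [0,2,0,2]) (by revert i j; decide +kernel)
      unfold Sat at this
      rw [← this]
      simp only [ew_cons, s0, ew_nil, mul_one, pow_two, mul_assoc])
  have hx : ∀ j, j < 9 → xs (fun i : Fin 9 => gam P32 L32 i) j = gam P32 L32 j := fun j hj => dif_pos hj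
  have hd : ∀ i < 8, ∀ c ∈ defW.getD i [], c / 2 < 9 := by decide +kernel
  have ha : ∀ j < 17, al (fun i : Fin 9 => gam P32 L32 i) 1 j = gam P32 L32 j := by
    intro j hj
    unfold al
    split_ifs with b1
    · exact hx j b1
    · have := spin_ok ([2*(9+(j-9))], defW.getD (j-9) []) (by
        have : ∀ i < 8, (([2*(9+i)], defW.getD i []) : Eqn) ∈ spinE := by decide +kernel
        exact this _ (by omega))
      simp only [Sat, ew_cons, s0, ew_nil, mul_one] at this
      rw [show 9 + (j - 9) = j by omega] at this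
      rw [this]
      exact ew_congr fun c hc => hx _ (hd _ (by omega) c hc)
  have key : ∀ l (hl : inC l = true), μ ⟨_, h.ew_mem g hl⟩ = ew (gam P32 L32) l := by
    intro l hl
    have e : (⟨ew (al x g) l, h.ew_mem g hl⟩ : centralizer ({t} : Set G)) =
      ew (al (fun i => ⟨x i, h.mem i⟩) 1) l := Subtype.ext (ew_al_coe (fun i => ⟨x i, h.mem i⟩) g hl).symm
    rw [e, map_ew]
    simp only [map_al, hμ, map_one]
    refine ew_congr fun c hc => ha _ ?_
    have h1 : c < 34 := by simpa [Nat.blt_eq] using allL_spec hl c hc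
    omega
  have ht : ew (al x g) [0,2,0,2] = t := by
    rw [← h.sq 0 1 (by decide)]
    show x 0 * (x 1 * (x 0 * (x 1 * 1))) = _
    simp [pow_two, mul_assoc]
  have b0 : inC [0,2,0,2] = true := by decide +kernel
  have e2 : (⟨_, h.ew_mem g a1⟩ : centralizer ({t} : Set G)) = ⟨_, h.ew_mem g b0⟩ * ⟨_, h.ew_mem g a2⟩ := by
    apply Subtype.ext
    show ew (al x g) c.1 = ew (al x g) [0,2,0,2] * ew (al x g) c.2
    rw [ht]
    exact e1.trans (comm_t ⟨_, h.ew_mem g a2⟩)
  have e3 := congrArg μ e2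
  rw [map_mul, key _ a1, key _ b0, key _ a2] at e3
  have e4 := rowB_spec good32 hE.2 c hc ⟨0, by decide⟩ le_rfl (by decide)
  rw [e3] at e4
  exact rowN_spec good32 spin_ne (row_cancel e4)

theorem tW_eq (g : G) : ew (al x g) tW = t := by
  have := h.sat g (E := [(tW, [0,2,0,2])]) (by decide +kernel) _ List.mem_cons_self
  rw [← h.sq 0 1 (by decide)]
  refine this.trans ?_
  show x 0 * (x 1 * (x 0 * (x 1 * 1))) = _
  simp [pow_two, mul_assoc]

end Cov

/-- the relations that involve `g` -/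
noncomputable def relG (i : ℕ) : List Eqn :=
  [([34, 34], []), (34 :: aW ++ [34], aW), (34 :: bW ++ [34], sbW), ([34, 16, 34], [16]),
   (34 :: yW ++ [34], wpow [16] i ++ wi yW), ([34, 30, 34], 30 :: yW ++ wpow [16] i),
   (34 :: tW ++ [34], uW), (wpow (34 :: p3W) 3, []), (wpow (34 :: p5aW) 5, []),
   (wpow (34 :: p5bW) 5, []), (wpow (34 :: p5cW) 5, [])]

/-- a presentation of `N_C(⟨x⟩) = 3 : 2·S₈` on the letters `8, …, 15` -/
def relN : List Eqn :=
  [(tW ++ tW, []), ([16, 16, 16], []), ([30, 30], []), ([30, 16, 30], [17]), ([30, 18, 30], [19]),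
   ([30, 20, 30], [21]), ([30, 22, 30], [27]), ([30, 24, 30], [29]), ([30, 26, 30], [23]),
   ([30, 28, 30], [25])] ++
  (List.range' 9 6).map (fun i => (tW ++ [2*i], 2*i :: tW)) ++
  (List.range' 9 6).map (fun i => ([2*i,2*i,2*i], [])) ++
  (List.range' 9 6).map (fun i => ([16, 2*i], [2*i, 16])) ++
  (List.range' 9 6).flatMap (fun i => ((List.range' 9 6).filter (· ≠ i)).map
    (fun j => ([2*i,2*j,2*i,2*j], tW)))

theorem Cov.relN (h : Cov t x) (g : G) : ∀ c ∈ relN, Sat (al x g) c := h.sat g (by decide +kernel)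

/-- the relations of `3·McL:2` (parameter `i`) on the letters `8, …, 15, 17` -/
def Pres (α : ℕ → G) (i : ℕ) : Prop := (∀ c ∈ relN, Sat α c) ∧ ∀ c ∈ relG i, Sat α c

/-- the subgroup generated by some letters -/
def gen (α : ℕ → G) (J : List ℕ) : Subgroup G := closure {y | ∃ j ∈ J, α j = y}

end Cfsg.Agent.Lib.Lyons
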