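import Cfsg.Agent.Lib.Lyons.BG
import Cfsg.Agent.Lib.Lyons.Words

set_option autoImplicit false
set_option maxRecDepth 100000

/-! # The relations of `3·McL:2` hold -/

namespace Cfsg.Agent.Lib.Lyons

open Cfsg.Agent.PG Cfsg.Agent.Spor Subgroup Equiv BB

variable {G : Type*} [Group G] {t : G} {x : Fin 9 → G}

namespace BB

/-- the code of the permutation of a word -/
noncomputable def pcw (l : List ℕ) : ℕ := (List.finRange 11).foldr (fun i r => Lyons.pw l i.val + 16 * r) 0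

/-- lift of `(0 2)(1 3)` -/
def jW : List ℕ := [32, 8, 16, 32]

/-- words for the elements of `⟨t, u, a, y⁻¹ a y⟩` -/
noncomputable def eW (n : ℕ) : List ℕ :=
  wpow tW (n % 2) ++ (wpow uW (n / 2 % 2) ++ wpow aW (n / 4 % 2) ++ wpow (wi yW ++ aW ++ yW) (n / 8 % 2))

/-- their images under `g` -/
noncomputable def gW (n : ℕ) : List ℕ :=
  wpow uW (n % 2) ++ (wpow tW (n / 2 % 2) ++ wpow aW (n / 4 % 2) ++ wpow (yW ++ aW ++ wi yW) (n / 8 % 2))

def sg (n : ℕ) : ℕ := [0, 2, 1, 3, 4, 6, 5, 7, 12, 14, 13, 15, 8, 10, 9, 11].getD n 0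

theorem lp16 (x : Fin 9 → G) (g : G) : Spor.lpG (al x g) 16 = x 8 := lpG_even _ 8
theorem lp17 (x : Fin 9 → G) (g : G) : Spor.lpG (al x g) 17 = (x 8)⁻¹ := lpG_odd _ 8
theorem lp30 (x : Fin 9 → G) (g : G) : Spor.lpG (al x g) 30 = al x g 15 := lpG_even _ 15
theorem lp31 (x : Fin 9 → G) (g : G) : Spor.lpG (al x g) 31 = (al x g 15)⁻¹ := lpG_odd _ 15
theorem lp34 (x : Fin 9 → G) (g : G) : Spor.lpG (al x g) 34 = g := lpG_even _ 17

theorem dd (h : Cov t x) (g : G) : ∃ π, DD t π (ew (al x g) uW) (x 8) (ew (al x g) yW)⁻¹ (ew (al x g) aW)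
    (al x g 15 * (ew (al x g) yW)⁻¹) (ew (al x g) jW) := by
  obtain ⟨π, h1, -, h3⟩ := h.prj_ew
  have P : ∀ l, inC l = true → PP π (ew (al x g) l) = pcw l := fun l hl => by
    rw [PP_eq π (h.ew_mem g hl), pc, pcw]; simp only [h3 g l hl]
  have s := h.sat g (E := [(uW ++ uW, []), ([16] ++ uW, uW ++ [16]), (wi yW ++ uW, uW ++ wi yW),
    (aW ++ uW, uW ++ aW), ([30] ++ wi yW ++ uW, uW ++ ([30] ++ wi yW)), ([16] ++ [16] ++ [16], []),
    (wi yW ++ wi yW ++ wi yW, []), (aW ++ aW, []), ([30] ++ wi yW ++ ([30] ++ wi yW), []),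
    ([16] ++ wi yW, wi yW ++ [16]), ([16] ++ aW, aW ++ [16]),
    ([30] ++ wi yW ++ [16] ++ wi ([30] ++ wi yW), [17]),
    ([30] ++ wi yW ++ wi yW ++ wi ([30] ++ wi yW), wi (wi yW)),
    (aW ++ (wi yW ++ aW ++ wi (wi yW)) ++ (wi (wi yW) ++ aW ++ wi yW), []),
    (wpow (aW ++ ([30] ++ wi yW)) 4, uW ++ tW), (wpow (wi yW ++ aW ++ wi (wi yW) ++ ([30] ++ wi yW)) 4, tW),
    (wpow (wi (wi yW) ++ aW ++ wi yW ++ ([30] ++ wi yW)) 4, uW), (jW ++ tW ++ wi jW, tW),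
    (jW ++ uW ++ wi jW, uW ++ tW), (jW ++ [16] ++ wi jW, [16]), (jW ++ wi yW ++ wi jW, wi (wi yW))])
    (by decide +kernel)
  simp only [List.forall_mem_cons, Sat, ew_append, ew_wi, ew_wpow, ew_nil, ew_cons, mul_one, h.tW_eq, lp16,
    lp17, lp30] at s
  obtain ⟨s1, s2, s3, s4, s5, s6, s7, s8, s9, s10, s11, s12, s13, s14, s15, s16, s17, s18, s19, s20, s21, -⟩ := s
  have mu := h.ew_mem g (l := uW) (by decide +kernel)
  have e1 : x 8 = ew (al x g) [16] := by simp [lp16]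
  have e2 : al x g 15 * (ew (al x g) yW)⁻¹ = ew (al x g) (30 :: wi yW) := by simp [lp30]
  have pu : PP π (ew (al x g) uW) = cu := (P _ (by decide +kernel)).trans (by decide +kernel)
  refine ⟨π, h1, h.card_cent mu s1 (fun e => ?_) (fun e => ?_), ⟨mu, mc'.2 rfl⟩, ⟨h.mem 8, mc'.2 s2⟩,
    ⟨(CC t).inv_mem (h.ew_mem g (by decide +kernel)), mc'.2 s3⟩, ⟨h.ew_mem g (by decide +kernel), mc'.2 s4⟩,
    ⟨e2 ▸ h.ew_mem g (by decide +kernel), mc'.2 s5⟩, pu,
    e1 ▸ (P _ (by decide +kernel)).trans (by decide +kernel),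
    ew_wi (al x g) yW ▸ (P _ (by decide +kernel)).trans (by decide +kernel),
    (P _ (by decide +kernel)).trans (by decide +kernel), e2 ▸ (P _ (by decide +kernel)).trans (by decide +kernel),
    s1, s6, s7, s8, s9, s10, s11, s12, s13, s14, s15, s16, s17, s18, s19, s20, s21⟩
  · exact h.ne g (l := uW) (l' := []) (by decide +kernel) (by decide +kernel) (p := 0) (by norm_num)
      (by decide +kernel) e
  · exact h.ne g (l := uW) (l' := tW) (by decide +kernel) (by decide +kernel) (p := 0) (by norm_num)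
      (by decide +kernel) (e.trans (h.tW_eq g).symm)

theorem ew_eW (h : Cov t x) (g : G) (n : ℕ) : ew (al x g) (eW n) =
    DD.ee t (ew (al x g) uW) (ew (al x g) yW)⁻¹ (ew (al x g) aW) n := by
  simp only [eW, DD.ee, ew_append, ew_wi, ew_wpow, h.tW_eq, inv_inv]

/-- test of the action of `p` -/
noncomputable def okP (p τ : List ℕ) (k : ℕ) : Prop :=
  chkC ((p ++ p, []) :: (p ++ [16] ++ wi p, [16]) ::
    (List.range 16).map fun n => (p ++ eW n ++ wi p, eW (τ.getD n 0))) = true ∧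
  ∀ n < 16, τ.getD n 0 < 16 ∧ sg (τ.getD n 0) < 16 ∧ (fun n => sg (τ.getD n 0))^[k] n = n ∧
    (sg (τ.getD n 0) = n → n = 0)

theorem ok3 : okP p3W [0, 1, 3, 2, 12, 13, 15, 14, 8, 9, 11, 10, 4, 5, 7, 6] 3 :=
  ⟨by decide +kernel, by decide +kernel⟩
theorem ok5a : okP p5aW [0, 1, 15, 14, 5, 4, 10, 11, 9, 8, 6, 7, 12, 13, 3, 2] 5 :=
  ⟨by decide +kernel, by decide +kernel⟩
theorem ok5b : okP p5bW [0, 1, 10, 11, 13, 12, 7, 6, 8, 9, 2, 3, 5, 4, 15, 14] 5 :=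
  ⟨by decide +kernel, by decide +kernel⟩
theorem ok5c : okP p5cW [0, 1, 11, 10, 5, 4, 14, 15, 8, 9, 3, 2, 13, 12, 6, 7] 5 :=
  ⟨by decide +kernel, by decide +kernel⟩
theorem okg : chkC ((bW, [30] ++ aW ++ [31]) :: (sbW, [30] ++ yW ++ aW ++ wi ([30] ++ yW)) ::
    (List.range 16).map fun n => (gW n, eW (sg n))) = true := by decide +kernel

theorem pres_of [Finite G] (h : Cov t x) {g : G} {i : ℕ} (gg : g * g = 1)
    (g1 : g * t * g⁻¹ = ew (al x g) uW) (g2 : g * ew (al x g) uW * g⁻¹ = t) (g3 : g * x 8 * g⁻¹ = x 8)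
    (g4 : g * ew (al x g) aW * g⁻¹ = ew (al x g) aW)
    (g5 : g * ew (al x g) yW * g⁻¹ = x 8 ^ i * (ew (al x g) yW)⁻¹)
    (g6 : g * (al x g 15 * (ew (al x g) yW)⁻¹) * g⁻¹ = al x g 15 * (ew (al x g) yW)⁻¹) :
    Pres (al x g) i := by
  obtain ⟨π, D⟩ := dd h g
  have gi : g⁻¹ = g := inv_eq_of_mul_eq_one_left gg
  have s := h.sat g okg
  simp only [List.forall_mem_cons, Sat, ew_append, ew_wi, ew_nil, ew_cons, mul_one, lp30, lp31] at s
  obtain ⟨s1, s2, s3⟩ := s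
  have ca : Commute (x 8 ^ i) (ew (al x g) aW) := Commute.pow_left D.Xa i
  have cy : Commute (x 8 ^ i) (ew (al x g) yW)⁻¹ := Commute.pow_left D.Xv i
  have hσ : ∀ n < 16, g * DD.ee t (ew (al x g) uW) (ew (al x g) yW)⁻¹ (ew (al x g) aW) n * g⁻¹ =
      DD.ee t (ew (al x g) uW) (ew (al x g) yW)⁻¹ (ew (al x g) aW) (sg n) := fun n hn => by
    rw [← ew_eW h g (sg n), ← s3 _ (List.mem_map.2 ⟨n, List.mem_range.2 hn, rfl⟩)]
    have e : g * ((ew (al x g) yW)⁻¹ * ew (al x g) aW * (ew (al x g) yW)⁻¹⁻¹) * g⁻¹ =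
        ew (al x g) yW * ew (al x g) aW * (ew (al x g) yW)⁻¹ := by
      rw [← conj_mul, ← conj_mul, inv_inv, ← conj_inv, g4, g5, mul_inv_rev, inv_inv, mul_assoc (ew _ _),
        ca.inv_left.eq]
      group
    rw [DD.ee, ← conj_mul, ← conj_mul, ← conj_mul, ← conj_pow, ← conj_pow, ← conj_pow, ← conj_pow, g1, g2, g4, e]
    simp only [gW, ew_append, ew_wi, ew_wpow, h.tW_eq]
  have hp : ∀ {p τ k}, okP p τ k → (g * ew (al x g) p) ^ k = 1 := fun {p τ k} o => by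
    have s := h.sat g o.1
    simp only [List.forall_mem_cons, Sat, ew_append, ew_wi, ew_nil, ew_cons, mul_one, lp16] at s
    refine D.gp_pow gg s.1 g3 s.2.1 hσ (fun n hn => ?_) o.2
    have := s.2.2 _ (List.mem_map.2 ⟨n, List.mem_range.2 hn, rfl⟩)
    simpa only [ew_append, ew_wi, ew_eW h] using this
  have gw : g * al x g 15 * g⁻¹ = al x g 15 * ew (al x g) yW * x 8 ^ i := by
    calc _ = g * (al x g 15 * (ew (al x g) yW)⁻¹) * g⁻¹ * (g * ew (al x g) yW * g⁻¹) := by group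
      _ = al x g 15 * ((ew (al x g) yW)⁻¹ * (ew (al x g) yW)⁻¹) * x 8 ^ i := by rw [g6, g5, cy.eq]; group
      _ = _ := by rw [← D.mi, inv_inv]
  have gb : g * ew (al x g) bW * g⁻¹ = ew (al x g) sbW := by
    rw [s1, s2, ← conj_mul, ← conj_mul, ← conj_inv, g4, gw, mul_assoc _ (x 8 ^ i), ca.eq]; group
  refine ⟨h.relN g, ?_⟩
  simp only [relG, List.forall_mem_cons, Sat, ew_append, ew_wi, ew_wpow, ew_nil, ew_cons, mul_one, lp16, lp30,
    lp34, h.tW_eq, ← mul_assoc]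
  rw [gi] at g1 g3 g4 g5 gw gb
  exact ⟨gg, g4, gb, g3, g5, gw, g1, hp ok3, hp ok5a, hp ok5b, hp ok5c, by simp⟩

theorem ew_g (x : Fin 9 → G) (g g' : G) {l : List ℕ} (hl : ∀ c ∈ l, c < 34) : ew (al x g) l = ew (al x g') l :=
  ew_congr fun c hc => by
    have := hl c hc
    unfold al
    rw [if_pos (show c / 2 < 17 by omega), if_pos (show c / 2 < 17 by omega)]

theorem ew_inv (x : Fin 9 → G) (g : G) {l : List ℕ} (hl : ∀ c ∈ l, Nat.xor c 1 / 2 < 9) :
    ew (xs fun i => (x i)⁻¹) l = ew (al x g) (l.map (Nat.xor · 1)) := by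
  induction l with
  | nil => rfl
  | cons c l ih =>
    rw [List.map_cons, ew_cons, ew_cons, ih fun d hd => hl d (List.mem_cons_of_mem _ hd)]
    congr 1
    have e : Spor.lpG (al x g) (Nat.xor c 1) = Spor.lpG (xs x) (Nat.xor c 1) := by
      unfold Spor.lpG al; rw [if_pos (hl c List.mem_cons_self)]
    have e2 : ∀ j, xs (fun i => (x i)⁻¹) j = (xs x j)⁻¹ := fun j => by unfold xs; split_ifs <;> simp
    rw [e, show Spor.lpG (xs x) (Nat.xor c 1) = _ from lpG_xor_one _ c]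
    unfold Spor.lpG; split_ifs <;> rw [e2]

theorem al_inv (h : Cov t x) (g : G) : (∀ l : List ℕ, (∀ c ∈ l, 9 ≤ c / 2 ∧ c / 2 < 15) →
    ew (al (fun i => (x i)⁻¹) g) l = ew (al x g) l) ∧ al (fun i => (x i)⁻¹) g 15 = al x g 15 * t := by
  have s := h.sat g (E := ((defW.getD 6 []).map (Nat.xor · 1), [30] ++ tW) ::
    (List.range 6).map fun j => ((defW.getD j []).map (Nat.xor · 1), [2 * (9 + j)])) (by decide +kernel)
  have k : ∀ j < 7, al (fun i => (x i)⁻¹) g (9 + j) = ew (al x g) ((defW.getD j []).map (Nat.xor · 1)) :=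
    fun j hj => by
      rw [← ew_inv x g ((by decide +kernel : ∀ j < 7, ∀ c ∈ defW.getD j [], Nat.xor c 1 / 2 < 9) j hj), al,
        if_neg (by omega), if_pos (by omega), Nat.add_sub_cancel_left]
  refine ⟨fun l hl => ew_congr fun c hc => ?_, ?_⟩
  · obtain ⟨j, e⟩ := Nat.exists_eq_add_of_le (hl c hc).1
    have hj : j < 6 := by have := (hl c hc).2; omega
    have := s _ (List.mem_cons_of_mem _ (List.mem_map.2 ⟨j, List.mem_range.2 hj, rfl⟩))
    rw [e, k j (by omega)]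
    simpa only [Sat, ew_cons, ew_nil, lpG_even, mul_one] using this
  · have := s _ List.mem_cons_self
    rw [k 6 (by norm_num)]
    simpa only [Sat, ew_append, ew_cons, ew_nil, lp30, mul_one, h.tW_eq] using this

end BB

theorem exists_pres [Finite G] [IsSimpleGroup G] {x0 : Fin 9 → G} (h : Cov t x0) :
    ∃ x g i, Cov t x ∧ i < 3 ∧ Pres (al x g) i := by
  obtain ⟨π, D⟩ := dd h 1
  obtain ⟨g, g1, g2⟩ := h.swap D.mu.1 D.u2 (fun e => by
    have := D.pu; rw [e, DD.P_one] at this; exact absurd this (by decide)) (fun e => by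
    have := D.pu; rw [e, D.pt] at this; exact absurd this (by decide))
  obtain ⟨g, k, -, gg, g1, g2, g3, g4, g5, g6⟩ := D.exists_g g1 g2
  have X3 := h.cube 8
  have cy : Commute (x0 8) (ew (al x0 1) yW)⁻¹ := D.Xv
  rw [conj_inv.symm, inv_eq_iff_eq_inv, inv_inv, mul_inv_rev, ← inv_pow] at g5
  have e15 : al x0 1 15 = al x0 g 15 := rfl
  rw [ew_g x0 1 g (l := uW) (by decide)] at g1 g2
  rw [ew_g x0 1 g (l := aW) (by decide)] at g4
  rw [ew_g x0 1 g (l := yW) (by decide)] at g5 g6 cy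
  rw [e15] at g6
  rcases g6 with g6 | g6
  · refine ⟨x0, g, 2 * k % 3, h, Nat.mod_lt _ (by norm_num), pres_of h gg g1 g2 g3 g4 ?_ g6⟩
    rw [g5, ← pow_eq_pow_mod _ X3, inv3 D.X3, ← pow_two, ← pow_mul]
  · obtain ⟨a1, a2⟩ := al_inv h g
    refine ⟨_, g, k % 3, h.inv, Nat.mod_lt _ (by norm_num), pres_of h.inv gg ?_ ?_ ?_ ?_ ?_ ?_⟩
    · rwa [a1 _ (by decide)]
    · rwa [a1 _ (by decide)]
    · rw [← conj_inv, g3]
    · rwa [a1 _ (by decide)]
    · rw [a1 _ (by decide), g5, ← pow_eq_pow_mod _ (by rw [inv_pow, X3, inv_one])]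
    · rwa [a1 _ (by decide), a2, mul_assoc _ t, ← mc'.1 ((CC t).inv_mem (h.ew_mem g (l := yW) (by decide +kernel))),
        ← mul_assoc (al x0 g 15)]

end Cfsg.Agent.Lib.Lyons
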