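import Cfsg.Agent.Lib.Lyons.BF
import Cfsg.Agent.Lib.Lyons.Cov2
import Cfsg.Agent.Lib.Jk.Cnt

set_option autoImplicit false
set_option maxRecDepth 100000

/-! # An involution interchanging `t` and `u` -/

namespace Cfsg.Agent.Lib.Lyons.BB

open Subgroup Equiv
open Cfsg.Agent.Lib.Root.J1 (conj_comm' comm_of_conj comm_conj card_eq_ncard)
open Cfsg.Agent.Lib.Jk (conj_inj)

variable {G : Type*} [Group G]

abbrev CC (t : G) : Subgroup G := centralizer {t}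

open Classical in
/-- the code of the permutation induced by an element -/
noncomputable def PP {t : G} (π : CC t →* Perm (Fin 11)) (y : G) : ℕ :=
  if h : y ∈ CC t then pc (π ⟨y, h⟩) else 0

theorem PP_eq {t : G} (π : CC t →* Perm (Fin 11)) {y : G} (h : y ∈ CC t) : PP π y = pc (π ⟨y, h⟩) :=
  dif_pos h

/-- generators of `C(t, u)` -/
structure DD (t : G) (π : CC t →* Perm (Fin 11)) (u X v a d j : G) : Prop extends Prj t π where
  card : Nat.card (CC t ⊓ CC u : Subgroup G) = 1152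
  mu : u ∈ CC t ⊓ CC u
  mX : X ∈ CC t ⊓ CC u
  mv : v ∈ CC t ⊓ CC u
  ma : a ∈ CC t ⊓ CC u
  md : d ∈ CC t ⊓ CC u
  pu : PP π u = cu
  pX : PP π X = cX
  pv : PP π v = cv
  pa : PP π a = ca
  pd : PP π d = cd
  u2 : u * u = 1
  X3 : X * X * X = 1
  v3 : v * v * v = 1
  a2 : a * a = 1
  d2 : d * d = 1
  Xv : X * v = v * X
  Xa : X * a = a * X
  dX : d * X * d⁻¹ = X⁻¹
  dv : d * v * d⁻¹ = v⁻¹
  nm : a * (v * a * v⁻¹) * (v⁻¹ * a * v) = 1
  r0 : (a * d) ^ 4 = u * t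
  r1 : (v * a * v⁻¹ * d) ^ 4 = t
  r2 : (v⁻¹ * a * v * d) ^ 4 = u
  jt : j * t * j⁻¹ = t
  ju : j * u * j⁻¹ = u * t
  jX : j * X * j⁻¹ = X
  jv : j * v * j⁻¹ = v⁻¹

theorem mc' {y t : G} : y ∈ CC t ↔ y * t = t * y := mem_centralizer_singleton_iff

theorem inv3 {y : G} (h : y * y * y = 1) : y⁻¹ = y * y := inv_eq_of_mul_eq_one_left h

namespace DD
variable {t : G} {π : CC t →* Perm (Fin 11)} {u X v a d j : G} (h : DD t π u X v a d j)

omit h in
theorem P_mul {y w : G} (hy : y ∈ CC t ⊓ CC u) (hw : w ∈ CC t ⊓ CC u) :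
    PP π (y * w) = PP π y ⋆ PP π w := by
  rw [PP_eq π hy.1, PP_eq π hw.1, PP_eq π ((CC t).mul_mem hy.1 hw.1), ← pc_mul, ← map_mul]; rfl

omit h in
theorem P_one : PP π (1 : G) = c1 := by rw [PP_eq π (one_mem _), ← pc_one, ← map_one π]; rfl

omit h in
theorem P_pow {y : G} (hy : y ∈ CC t ⊓ CC u) (n : ℕ) : PP π (y ^ n) = pw (PP π y) n := by
  induction n with
  | zero => rw [pow_zero, P_one]; rfl
  | succ n ih => rw [pow_succ, P_mul (pow_mem hy n) hy, ih]; rfl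

include h

theorem mt : t ∈ CC t ⊓ CC u := ⟨mc'.2 rfl, mc'.2 (mc'.1 h.mu.1).symm⟩

theorem pt : PP π t = c1 := by rw [PP_eq π h.mt.1, (h.ker _).2 (.inr rfl), pc_one]

theorem P_eq {y w : G} (hy : y ∈ CC t ⊓ CC u) (hw : w ∈ CC t ⊓ CC u) (e : PP π y = PP π w) :
    y = w ∨ y = w * t := by
  rw [PP_eq π hy.1, PP_eq π hw.1] at e
  exact h.eq (pc_inj e)

theorem odd_eq {y w : G} (hy : y ∈ CC t ⊓ CC u) (hw : w ∈ CC t ⊓ CC u) (e : PP π y = PP π w)
    (y3 : y * y * y = 1) (w3 : w * w * w = 1) : y = w := by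
  refine (h.P_eq hy hw e).resolve_right ?_
  rintro rfl
  have c : Commute w t := mc'.1 hw.1
  rw [← pow_three', c.mul_pow, pow_three', pow_three', w3, h.t2, one_mul, one_mul] at y3
  exact h.t1 y3

theorem conj_eq {s y w : G} (hs : s ∈ CC t ⊓ CC u) (hy : y ∈ CC t ⊓ CC u) (hw : w ∈ CC t ⊓ CC u)
    (e : PP π s ⋆ PP π y = PP π w ⋆ PP π s) : s * y * s⁻¹ = w ∨ s * y * s⁻¹ = w * t := by
  rw [← P_mul hs hy, ← P_mul hw hs] at e
  refine (h.P_eq (mul_mem hs hy) (mul_mem hw hs) e).imp (fun e => by rw [e]; group) fun e => ?_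
  rw [e, mul_assoc w, mc'.1 hs.1]; group

theorem conj_odd {s y w : G} (hs : s ∈ CC t ⊓ CC u) (hy : y ∈ CC t ⊓ CC u) (hw : w ∈ CC t ⊓ CC u)
    (e : PP π s ⋆ PP π y = PP π w ⋆ PP π s) (y3 : y * y * y = 1) (w3 : w * w * w = 1) :
    s * y * s⁻¹ = w := by
  have m := mul_mem (mul_mem hs hy) (inv_mem hs)
  refine h.odd_eq m hw ?_ (by rw [conj_mul, conj_mul, y3]; simp) w3
  rcases h.conj_eq hs hy hw e with e | e <;> rw [e]
  rw [P_mul hw h.mt, h.pt, PP_eq π hw.1, ← pc_one, ← pc_mul, mul_one]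

theorem mi : v⁻¹ = v * v := inv3 h.v3

theorem exD {c : ℕ} (hc : c ∈ DL) : ∃ y ∈ CC t ⊓ CC u, PP π y = c := by
  rw [← DL_eq, List.mem_map] at hc
  obtain ⟨n, -, rfl⟩ := hc
  have := h.mu; have := h.mX; have := h.mv; have := h.ma; have := h.md
  refine ⟨X ^ n.1.val * v ^ n.2.1.val * d ^ n.2.2.1.val * a ^ n.2.2.2.1.val *
    (v * a * (v * v)) ^ n.2.2.2.2.1.val * (d * a * d) ^ n.2.2.2.2.2.1.val *
    (d * (v * a * (v * v)) * d) ^ n.2.2.2.2.2.2.1.val * u ^ n.2.2.2.2.2.2.2.val,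
    by apply_rules [mul_mem, pow_mem], ?_⟩
  simp (disch := apply_rules [mul_mem, pow_mem]) only [P_mul (u := u), P_pow (u := u), h.pu, h.pX, h.pv,
    h.pa, h.pd]

theorem memD [Finite G] {y : G} (hy : y ∈ CC t ⊓ CC u) : PP π y ∈ DL := by
  classical
  by_contra e
  have := Fintype.ofFinite G
  have k := Finset.mul_card_image_le_card (f := PP π) (Finset.univ.filter (· ∈ CC t ⊓ CC u)) 2 (by
    intro b hb
    obtain ⟨w, hw, rfl⟩ := Finset.mem_image.1 hb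
    have hw := (Finset.mem_filter.1 hw).2
    refine Finset.one_lt_card.2 ⟨w, by simpa using hw, w * t, ?_, by simpa using h.t1⟩
    simp only [Finset.mem_filter, Finset.mem_univ, true_and]
    exact ⟨mul_mem hw h.mt, by rw [P_mul hw h.mt, h.pt, PP_eq π hw.1, ← pc_one, ← pc_mul, mul_one]⟩)
  have k2 := Finset.card_le_card (s := insert (PP π y) DL.toFinset)
    (t := (Finset.univ.filter (· ∈ CC t ⊓ CC u)).image (PP π)) (by
    intro c hc
    rcases Finset.mem_insert.1 hc with rfl | hc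
    · exact Finset.mem_image.2 ⟨y, by simpa using hy, rfl⟩
    · obtain ⟨w, hw, e⟩ := h.exD (List.mem_toFinset.1 hc)
      exact Finset.mem_image.2 ⟨w, by simpa using hw, e⟩)
  rw [Finset.card_insert_of_notMem (by simpa using e), List.toFinset_card_of_nodup DL_nodup.1,
    DL_nodup.2.1] at k2
  have k3 := h.card
  rw [Nat.card_eq_fintype_card, Fintype.card_subtype] at k3
  omega

theorem cD {g y : G} (g1 : g * t * g⁻¹ = u) (g2 : g * u * g⁻¹ = t) (hy : y ∈ CC t ⊓ CC u) :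
    g * y * g⁻¹ ∈ CC t ⊓ CC u :=
  ⟨mc'.2 (g2 ▸ comm_conj g (mc'.1 hy.2)), mc'.2 (g1 ▸ comm_conj g (mc'.1 hy.1))⟩

omit h in
theorem sw_mul {g s : G} (g1 : g * t * g⁻¹ = u) (g2 : g * u * g⁻¹ = t) (hs : s ∈ CC t ⊓ CC u) :
    s * g * t * (s * g)⁻¹ = u ∧ s * g * u * (s * g)⁻¹ = t :=
  ⟨by rw [← conj_comm' (mc'.1 hs.2).symm, ← g1]; group, by
    rw [← conj_comm' (mc'.1 hs.1).symm, ← g2]; group⟩

variable [Finite G]

theorem step1 {g : G} (g1 : g * t * g⁻¹ = u) (g2 : g * u * g⁻¹ = t) :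
    ∃ g, g * t * g⁻¹ = u ∧ g * u * g⁻¹ = t ∧ g * X * g⁻¹ = X := by
  have XX := mul_mem h.mX h.mX
  have X6 : X * X * (X * X) * (X * X) = 1 := by rw [← inv3 h.X3, ← mul_inv_rev, ← mul_inv_rev, ← mul_assoc, h.X3, inv_one]
  have m := h.cD g1 g2 h.mX
  have y3 : g * X * g⁻¹ * (g * X * g⁻¹) * (g * X * g⁻¹) = 1 := by rw [conj_mul, conj_mul, h.X3]; simp
  have k : ∀ s ∈ CC t ⊓ CC u, PP π s ⋆ PP π (g * X * g⁻¹) = PP π (g * X * g⁻¹) ⋆ PP π s ∨
      PP π s ⋆ PP π (g * X * g⁻¹) = PP π (g * X * g⁻¹) ⋆ PP π (g * X * g⁻¹) ⋆ PP π s := fun s hs => by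
    have m1 := h.cD (g := g⁻¹) (by rw [← g2]; group) (by rw [← g1]; group) hs
    rw [← P_mul hs m, ← P_mul m hs, ← P_mul m m, ← P_mul (mul_mem m m) hs]
    have := f1 _ (h.memD m1)
    rw [← h.pX, ← P_mul h.mX h.mX] at this
    refine this.imp (fun e => congrArg _ ?_) fun e => congrArg _ ?_
    · have := h.conj_odd m1 h.mX h.mX e h.X3 h.X3
      nth_rewrite 2 [← this]; group
    · rw [conj_mul, ← h.conj_odd m1 h.mX XX e h.X3 X6]; group
  have := f2 _ (h.memD m) (by rw [← P_mul m m, ← P_mul (mul_mem m m) m, y3, P_one]) (by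
    simp only [List.mem_cons, List.not_mem_nil, or_false, forall_eq_or_imp, forall_eq]
    rw [← h.pa, ← h.pd, ← P_mul h.md h.ma, ← P_mul (mul_mem h.md h.ma) h.md]
    exact ⟨k _ h.ma, k _ (mul_mem (mul_mem h.md h.ma) h.md)⟩)
  rcases this with e | e | e
  · have e1 := h.odd_eq m (one_mem _) (e.trans P_one.symm) y3 (by simp)
    have := h.pX
    rw [conj_eq_one_iff.1 e1, P_one] at this
    exact absurd this (by decide)
  · exact ⟨g, g1, g2, h.odd_eq m h.mX (e.trans h.pX.symm) y3 h.X3⟩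
  · refine ⟨d * g, (sw_mul g1 g2 h.md).1, (sw_mul g1 g2 h.md).2, ?_⟩
    have := h.odd_eq m XX (by rw [e, P_mul h.mX h.mX, h.pX]) y3 X6
    calc _ = d * (g * X * g⁻¹) * d⁻¹ := by group
      _ = X := by rw [this, ← inv3 h.X3, ← conj_inv, h.dX, inv_inv]

theorem cube_vX (k : ℕ) : v * X ^ k * (v * X ^ k) * (v * X ^ k) = 1 ∧
    v * v * X ^ k * (v * v * X ^ k) * (v * v * X ^ k) = 1 := by
  have c : Commute v (X ^ k) := (Commute.symm h.Xv).pow_right k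
  have e : (X ^ k) ^ 3 = 1 := by rw [← pow_mul, mul_comm, pow_mul, pow_three', h.X3, one_pow]
  rw [← pow_three', ← pow_three', c.mul_pow, (c.mul_left c).mul_pow, e, ← h.mi, inv_pow, pow_three', h.v3]
  simp

theorem step2 {g : G} (g1 : g * t * g⁻¹ = u) (g2 : g * u * g⁻¹ = t) (g3 : g * X * g⁻¹ = X) :
    ∃ g k, k < 3 ∧ g * t * g⁻¹ = u ∧ g * u * g⁻¹ = t ∧ g * X * g⁻¹ = X ∧ g * v * g⁻¹ = v⁻¹ * X ^ k := by
  have m := h.cD g1 g2 h.mv
  have y3 : g * v * g⁻¹ * (g * v * g⁻¹) * (g * v * g⁻¹) = 1 := by rw [conj_mul, conj_mul, h.v3]; simp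
  have mk := fun k => pow_mem h.mX k
  rcases f3 _ (h.memD m) (by rw [← P_mul m m, ← P_mul (mul_mem m m) m, y3, P_one]) (by
    rw [← h.pX, ← P_mul m h.mX, ← P_mul h.mX m, ← g3, conj_mul, conj_mul, h.Xv]) with
    ⟨k, hk, e⟩ | ⟨q, hq, k, hk, e⟩
  · have := h.odd_eq m (mk k) (by rw [e, P_pow h.mX, h.pX]) y3 (by
      rw [← pow_three', ← pow_mul, mul_comm, pow_mul, pow_three', h.X3, one_pow])
    rw [← g3, conj_pow, conj_inj] at this
    have e := h.pv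
    rw [this, P_pow h.mX, h.pX] at e
    exact (by decide +kernel : ∀ k < 3, pw cX k ≠ cv) k hk e |>.elim
  obtain ⟨s, hs, rfl⟩ := h.exD (DL_nodup.2.2 q hq).1
  obtain ⟨s1, s2⟩ := sw_mul g1 g2 hs
  have s3 : s * g * X * (s * g)⁻¹ = X := by
    rw [show s * g * X * (s * g)⁻¹ = s * (g * X * g⁻¹) * s⁻¹ by group, g3,
      h.conj_odd hs h.mX h.mX (h.pX ▸ (DL_nodup.2.2 _ hq).2) h.X3 h.X3]
  have s4 : s * g * v * (s * g)⁻¹ = s * (g * v * g⁻¹) * s⁻¹ := by group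
  rcases e with e | e
  · exfalso
    rw [h.conj_odd hs m (mul_mem h.mv (mk k)) (by rwa [P_mul h.mv (mk k), P_pow h.mX, h.pv, h.pX]) y3
      (h.cube_vX k).1] at s4
    generalize s * g = g at *
    have c : Commute v (X ^ k) := (Commute.symm h.Xv).pow_right k
    have ut := mc'.1 h.mu.1
    have a0 : ∀ y, g * j * y * (g * j)⁻¹ = g * (j * y * j⁻¹) * g⁻¹ := fun y => by group
    have a1 : g * j * t * (g * j)⁻¹ = u := by rw [a0, h.jt, s1]
    have a2 : g * j * u * (g * j)⁻¹ = t * u := by rw [a0, h.ju, ← conj_mul, s1, s2]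
    have a3 : g * j * X * (g * j)⁻¹ = X := by rw [a0, h.jX, s3]
    have a4 : g * j * v * (g * j)⁻¹ = (v * X ^ k)⁻¹ := by rw [a0, h.jv, ← conj_inv, s4]
    generalize g * j = r at *
    have a5 : r * (t * u) * r⁻¹ = t := by
      rw [← conj_mul, a1, a2, ← mul_assoc, ut, mul_assoc, h.u2, mul_one]
    have a6 : r * (v * X ^ k)⁻¹ * r⁻¹ = v := by
      rw [← conj_inv, ← conj_mul, a4, ← conj_pow, a3, mul_inv_rev, inv_inv, ← mul_assoc, ← c.inv_right.eq]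
      simp
    have b : ∀ {y y1 y2 y3 : G}, r * y * r⁻¹ = y1 → r * y1 * r⁻¹ = y2 → r * y2 * r⁻¹ = y3 →
        r * r * r * y = y3 * (r * r * r) := fun e1 e2 e3 => by rw [← e3, ← e2, ← e1]; group
    have m3 : r * r * r ∈ CC t ⊓ CC u := ⟨mc'.2 (b a1 a2 a5), mc'.2 (b a2 a5 a1)⟩
    refine f4 _ (h.memD m3) (by rw [← h.pX, ← P_mul m3 h.mX, ← P_mul h.mX m3, b a3 a3 a3]) ((2 * k) % 3)
      (Nat.mod_lt _ (by norm_num)) ?_
    rw [← h.pv, ← h.pX, ← P_pow h.mX, ← P_mul h.mv h.mv, ← P_mul (mul_mem h.mv h.mv) (mk _),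
      ← P_mul m3 (mul_mem (mul_mem h.mv h.mv) (mk _)), ← P_mul h.mv m3, ← b a6 a4 a6, mul_inv_rev,
      ← c.inv_inv.eq, h.mi, ← pow_eq_pow_mod _ (by rw [pow_three', h.X3]), ← inv_pow, inv3 h.X3, ← pow_two X,
      ← pow_mul]
  · refine ⟨s * g, k, hk, s1, s2, s3, ?_⟩
    rw [s4, h.mi]
    exact h.conj_odd hs m (mul_mem (mul_mem h.mv h.mv) (mk k)) (by
      rwa [P_mul (mul_mem h.mv h.mv) (mk k), P_mul h.mv h.mv, P_pow h.mX, h.pv, h.pX]) y3 (h.cube_vX k).2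

theorem step3 {g : G} {k : ℕ} (g1 : g * t * g⁻¹ = u) (g2 : g * u * g⁻¹ = t) (g3 : g * X * g⁻¹ = X)
    (g4 : g * v * g⁻¹ = v⁻¹ * X ^ k) : ∃ g z, g * t * g⁻¹ = u ∧ g * u * g⁻¹ = t ∧ g * X * g⁻¹ = X ∧
    g * v * g⁻¹ = v⁻¹ * X ^ k ∧ g * d * g⁻¹ = d * z ∧ (z = 1 ∨ z = t ∨ z = u ∨ z = u * t) := by
  have m := h.cD g1 g2 h.md
  have c : Commute v X := Commute.symm h.Xv
  have e1 : g * d * g⁻¹ * X * (g * d * g⁻¹)⁻¹ = X⁻¹ := by
    rw [← g3, conj_inv, conj_mul, conj_mul, h.dX, conj_inv]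
  have e2 : g * d * g⁻¹ * (v⁻¹ * X ^ k) * (g * d * g⁻¹)⁻¹ = (v⁻¹ * X ^ k)⁻¹ := by
    rw [← g4, conj_inv, conj_mul, conj_mul, h.dv, conj_inv]
  rw [← conj_mul, ← conj_pow, e1, mul_inv_rev v⁻¹, inv_inv, ← inv_pow, (c.inv_right.pow_right k).symm.eq,
    mul_left_inj, ← conj_inv, inv_eq_iff_eq_inv] at e2
  obtain ⟨i, -, l, -, e⟩ := f5 _ (h.memD m)
    (by rw [← h.pX, ← P_mul m h.mX, ← P_mul h.mX h.mX, ← P_mul (mul_mem h.mX h.mX) m, ← inv3 h.X3, ← e1, inv_mul_cancel_right])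
    (by rw [← h.pv, ← P_mul m h.mv, ← P_mul h.mv h.mv, ← P_mul (mul_mem h.mv h.mv) m, ← h.mi, ← e2, inv_mul_cancel_right])
  have hs := mul_mem (pow_mem h.mX i) (pow_mem h.mv l)
  rw [← h.pX, ← h.pv, ← P_pow h.mX, ← P_pow h.mv, ← P_mul (pow_mem h.mX i) (pow_mem h.mv l), ← h.pd,
    ← h.pu, ← P_mul h.md h.mu] at e
  have cX : Commute X (X ^ i * v ^ l) := ((Commute.refl X).pow_right i).mul_right (c.symm.pow_right l)
  have cv : Commute v (X ^ i * v ^ l) := (c.pow_right i).mul_right ((Commute.refl v).pow_right l)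
  generalize X ^ i * v ^ l = s at *
  have s4 : ∀ y, s * g * y * (s * g)⁻¹ = s * (g * y * g⁻¹) * s⁻¹ := fun y => by group
  have : ∀ z, s * (g * d * g⁻¹) * s⁻¹ = d * z → (z = 1 ∨ z = t ∨ z = u ∨ z = u * t) → _ := fun z e hz =>
    (⟨s * g, z, (sw_mul g1 g2 hs).1, (sw_mul g1 g2 hs).2, by rw [s4, g3, conj_comm' cX],
      by rw [s4, g4, conj_comm' (cv.inv_left.mul_left (cX.pow_left k))], by rw [s4, e], hz⟩ :
      ∃ g z, g * t * g⁻¹ = u ∧ g * u * g⁻¹ = t ∧ g * X * g⁻¹ = X ∧ g * v * g⁻¹ = v⁻¹ * X ^ k ∧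
        g * d * g⁻¹ = d * z ∧ (z = 1 ∨ z = t ∨ z = u ∨ z = u * t))
  rcases e with e | e
  · rcases h.conj_eq hs m h.md e with e | e
    exacts [this 1 (by rwa [mul_one]) (.inl rfl), this t e (.inr (.inl rfl))]
  · rcases h.conj_eq hs m (mul_mem h.md h.mu) e with e | e
    exacts [this u e (.inr (.inr (.inl rfl))), this (u * t) (e.trans (mul_assoc _ _ _)) (.inr (.inr (.inr rfl)))]

theorem step4 {g z : G} {k : ℕ} (g1 : g * t * g⁻¹ = u) (g2 : g * u * g⁻¹ = t) (g3 : g * X * g⁻¹ = X)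
    (g4 : g * v * g⁻¹ = v⁻¹ * X ^ k) (g5 : g * d * g⁻¹ = d * z)
    (hz : z = 1 ∨ z = t ∨ z = u ∨ z = u * t) : g * a * g⁻¹ = a := by
  have m := h.cD g1 g2 h.ma
  have zc : z * z = 1 ∧ ∀ y ∈ CC t ⊓ CC u, Commute y z := by
    have ut := mc'.1 h.mu.1
    rcases hz with rfl | rfl | rfl | rfl
    · simp
    · exact ⟨h.t2, fun y hy => mc'.1 hy.1⟩
    · exact ⟨h.u2, fun y hy => mc'.1 hy.2⟩
    · exact ⟨by rw [mul_assoc, ← mul_assoc t, ← ut, mul_assoc, h.t2, mul_one, h.u2],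
        fun y hy => Commute.mul_right (mc'.1 hy.2) (mc'.1 hy.1)⟩
  have p4 : ∀ y ∈ CC t ⊓ CC u, (y * (d * z)) ^ 4 = (y * d) ^ 4 := fun y hy => by
    rw [← mul_assoc, (zc.2 _ (mul_mem hy h.md)).mul_pow, show 4 = 2 * 2 from rfl, pow_mul z, pow_two z,
      zc.1]; simp
  have cX : Commute X (g * a * g⁻¹) := g3 ▸ comm_conj g h.Xa
  have c : Commute v (X ^ k) := (Commute.symm h.Xv).pow_right k
  have e1 : g * (v * a * v⁻¹) * g⁻¹ = v⁻¹ * (g * a * g⁻¹) * v := by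
    rw [← conj_mul, ← conj_mul, ← conj_inv, g4, mul_assoc v⁻¹, (cX.pow_left k).eq]; group
  have e2 : g * (v⁻¹ * a * v) * g⁻¹ = v * (g * a * g⁻¹) * v⁻¹ := by
    rw [← conj_mul, ← conj_mul, ← conj_inv, g4, c.inv_left.eq, mul_inv_rev, inv_inv, mul_assoc v,
      (cX.pow_left k).inv_left.eq]; group
  have n1 := congrArg (fun y => g * y * g⁻¹) h.nm
  have n2 := congrArg (fun y => g * y * g⁻¹) h.r0
  have n3 := congrArg (fun y => g * y * g⁻¹) h.r2
  have n4 := congrArg (fun y => g * y * g⁻¹) h.a2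
  simp only [← conj_mul (b := g), ← conj_pow (a := g), mul_one, mul_inv_cancel] at n2 n4
  simp only [mul_one, mul_inv_cancel] at n1 n3
  rw [← conj_mul, ← conj_mul, e1, e2] at n1
  rw [← conj_pow, ← conj_mul, e2, g5, g2, p4 _ (mul_mem (mul_mem h.mv m) (inv_mem h.mv))] at n3
  rw [g5, g1, g2, p4 _ m] at n2
  generalize g * a * g⁻¹ = y at *
  have := h.mu; have := h.mX; have := h.mv; have := h.ma; have := h.md; have := h.mt
  have n5 : y * (v * y * v⁻¹) * (v⁻¹ * y * v) = 1 := by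
    have y1 : y⁻¹ = y := inv_eq_of_mul_eq_one_right n4
    have := congrArg (fun w => y * w⁻¹ * y) n1
    simpa [mul_assoc, y1, n4, ← mul_assoc y y] using this
  have P := fun {a b : G} (e : a = b) => congrArg (PP π) e
  have q1 := P n4; have q2 := P cX.symm.eq; have q3 := P n5; have q4 := P n2; have q5 := P n3
  simp (disch := apply_rules [mul_mem, pow_mem]) only [h.mi, P_mul (u := u), P_pow (u := u), h.pu, h.pX,
    h.pv, h.pd, h.pt, P_one] at q1 q2 q3 q4 q5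
  have ct : ∀ w ∈ CC t ⊓ CC u, Commute w t := fun w hw => mc'.1 hw.1
  rcases f6 _ (h.memD m) q1 q2 q3 (q4.trans (by decide +kernel)) q5 with e | e
  · refine (h.P_eq m h.ma (e.trans h.pa.symm)).resolve_right ?_
    rintro rfl
    refine h.t1 ?_
    have c1 := (ct _ h.mv).eq; have c2 := (ct _ h.ma).eq; have c3 := (ct _ (inv_mem h.mv)).eq
    have c4 := (ct _ (mul_mem (mul_mem h.mv h.ma) (inv_mem h.mv))).eq
    have c5 := (ct _ (mul_mem (mul_mem (inv_mem h.mv) h.ma) h.mv)).eq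
    rw [show v * (a * t) * v⁻¹ = v * a * v⁻¹ * t by rw [mul_assoc _ v⁻¹, c3]; group,
      show v⁻¹ * (a * t) * v = v⁻¹ * a * v * t by rw [mul_assoc _ v, c1]; group] at n5
    have := h.nm
    generalize v * a * v⁻¹ = a1 at *
    generalize v⁻¹ * a * v = a2 at *
    rw [c4, mul_assoc a, ← mul_assoc t, h.t2, one_mul, ← mul_assoc, this, one_mul] at n5
    exact n5
  · exfalso
    have m2 : d * (v⁻¹ * a * v) * d ∈ CC t ⊓ CC u := by apply_rules [mul_mem, inv_mem]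
    have e3 : (d * (v⁻¹ * a * v) * d * d) ^ 4 = u := by
      rw [show d * (v⁻¹ * a * v) * d * d = d * (v⁻¹ * a * v * d) * d⁻¹ by
        rw [inv_eq_of_mul_eq_one_right h.d2]; group, conj_pow, h.r2, conj_comm' (mc'.1 h.md.2).symm]
    rcases h.P_eq m m2 (e.trans (by
      simp (disch := apply_rules [mul_mem, pow_mem]) only [h.mi, P_mul (u := u), h.pv, h.pd, h.pa])) with
      e | e
    · rw [e, e3] at n2; exact h.t1 (by simpa using n2)
    · rw [e, mul_assoc _ t, ← (ct _ h.md).eq, ← mul_assoc, (ct _ (mul_mem m2 h.md)).mul_pow, e3,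
        show 4 = 2 * 2 from rfl, pow_mul t, pow_two t, h.t2] at n2
      exact h.t1 (by simpa using n2)

theorem exists_g {g : G} (g1 : g * t * g⁻¹ = u) (g2 : g * u * g⁻¹ = t) : ∃ g, ∃ k < 3, g * g = 1 ∧
    g * t * g⁻¹ = u ∧ g * u * g⁻¹ = t ∧ g * X * g⁻¹ = X ∧ g * a * g⁻¹ = a ∧ g * v * g⁻¹ = v⁻¹ * X ^ k ∧
    (g * d * g⁻¹ = d ∨ g * (d * t) * g⁻¹ = d * t) := by
  obtain ⟨g, g1, g2, g3⟩ := h.step1 g1 g2
  obtain ⟨g, k, hk, g1, g2, g3, g4⟩ := h.step2 g1 g2 g3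
  obtain ⟨g, z, g1, g2, g3, g4, g5, hz⟩ := h.step3 g1 g2 g3 g4
  have g6 := h.step4 g1 g2 g3 g4 g5 hz
  have ut := mc'.1 h.mu.1
  have c : Commute v (X ^ k) := (Commute.symm h.Xv).pow_right k
  have b : ∀ {y y1 y2 : G}, g * y * g⁻¹ = y1 → g * y1 * g⁻¹ = y2 → g * g * y = y2 * (g * g) :=
    fun e1 e2 => by rw [← e2, ← e1]; group
  have m : g * g ∈ CC t ⊓ CC u := ⟨mc'.2 (b g1 g2), mc'.2 (b g2 g1)⟩
  have g7 : g * (v⁻¹ * X ^ k) * g⁻¹ = v := by
    rw [← conj_mul, ← conj_inv, ← conj_pow, g3, g4, c.inv_left.eq]; group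
  have g8 : g * (d * z) * g⁻¹ = d * (z * (g * z * g⁻¹)) := by rw [← conj_mul, g5, mul_assoc]
  have gut : g * (u * t) * g⁻¹ = u * t := by rw [← conj_mul, g1, g2, ut]
  have utut : u * t * (u * t) = 1 := by rw [mul_assoc, ← mul_assoc t, ← ut, mul_assoc, h.t2, mul_one, h.u2]
  have hw : z * (g * z * g⁻¹) = 1 ∨ z * (g * z * g⁻¹) = u * t := by
    rcases hz with rfl | rfl | rfl | rfl
    exacts [.inl (by simp), .inr (by rw [g1, ut]), .inr (by rw [g2]), .inl (by rw [gut, utut])]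
  have nu : ∀ w, w = u ∨ w = u * t → w ≠ 1 ∧ w ≠ t := by
    have := h.pu
    rintro w (rfl | rfl)
    · exact ⟨fun e => by rw [e, P_one] at this; exact absurd this (by decide),
        fun e => by rw [e, h.pt] at this; exact absurd this (by decide)⟩
    · refine ⟨fun e => ?_, fun e => ?_⟩
      · rw [eq_inv_of_mul_eq_one_left e, inv_eq_of_mul_eq_one_right h.t2, h.pt] at this
        exact absurd this (by decide)
      · rw [mul_eq_right.1 e, P_one] at this; exact absurd this (by decide)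
  have := f7 _ (h.memD m) (by rw [← h.pX, ← P_mul m h.mX, ← P_mul h.mX m, b g3 g3])
    (by rw [← h.pv, ← P_mul m h.mv, ← P_mul h.mv m, b g4 g7]) (by
      rw [← h.pd, ← h.pu, ← P_mul m h.md, b g5 g8, ← P_mul h.md m, ← P_mul h.md h.mu]
      refine hw.imp (fun e => by rw [e, mul_one]) fun e => ?_
      rw [e, ← mul_assoc d, P_mul (mul_mem (mul_mem h.md h.mu) h.mt) m, P_mul (mul_mem h.md h.mu) h.mt,
        h.pt, PP_eq π (mul_mem h.md h.mu).1, ← pc_one, ← pc_mul, mul_one])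
  have gg : g * (g * g) * g⁻¹ = g * g := by group
  have e : g * g = 1 ∨ g * g = u * t := by
    rcases this with e | e
    · refine (h.P_eq m (one_mem _) (e.trans P_one.symm)).imp_right fun e => ?_
      rw [e, one_mul, g1] at gg; exact absurd gg (nu u (.inl rfl)).2
    · refine .inr ((h.P_eq m h.mu (e.trans h.pu.symm)).resolve_left fun e => ?_)
      rw [e, g2] at gg; exact absurd gg.symm (nu u (.inl rfl)).2
  have cd : g * g * d = d * (g * g) := by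
    rcases e with e | e <;> rw [e]
    exacts [by simp, (Commute.mul_right (mc'.1 h.md.2) (mc'.1 h.md.1)).symm]
  rw [b g5 g8, mul_left_inj, mul_eq_left] at cd
  have hd : g * d * g⁻¹ = d ∨ g * (d * t) * g⁻¹ = d * t := by
    rcases hz with rfl | rfl | rfl | rfl
    · exact .inl (by rwa [mul_one] at g5)
    · rw [g1, ← ut] at cd; exact absurd cd (nu _ (.inr rfl)).1
    · rw [g2] at cd; exact absurd cd (nu _ (.inr rfl)).1
    · exact .inr (by rw [← conj_mul, g5, g1, mul_assoc, mul_assoc, ← ut, ← mul_assoc u, h.u2, one_mul])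
  rcases e with e | e
  · exact ⟨g, k, hk, e, g1, g2, g3, g6, g4, hd⟩
  · have s : ∀ y ∈ CC t ⊓ CC u, g * t * y * (g * t)⁻¹ = g * y * g⁻¹ := fun y hy => by
      rw [mul_assoc g, ← mc'.1 hy.1]; group
    refine ⟨g * t, k, hk, ?_, by rwa [s _ h.mt], by rwa [s _ h.mu], by rwa [s _ h.mX], by rwa [s _ h.ma],
      by rwa [s _ h.mv], by rwa [s _ h.md, s _ (mul_mem h.md h.mt)]⟩
    calc _ = g * t * g⁻¹ * (g * g) * t := by group
      _ = 1 := by rw [g1, e, ← mul_assoc, h.u2, one_mul, h.t2]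

omit h [Finite G] in
/-- the elements of `⟨t, u, a, v a v⁻¹⟩` -/
def ee (t u v a : G) (n : ℕ) : G :=
  t ^ (n % 2) * (u ^ (n / 2 % 2) * a ^ (n / 4 % 2) * (v * a * v⁻¹) ^ (n / 8 % 2))

omit [Finite G] in
theorem ee_mem (n : ℕ) : ee t u v a n ∈ CC t ⊓ CC u := by
  have := h.mu; have := h.mv; have := h.ma; have := h.mt
  unfold ee; apply_rules [mul_mem, pow_mem, inv_mem]

omit [Finite G] in
theorem P_ee (n : ℕ) : PP π (ee t u v a n) = ce n := by
  have := h.mu; have := h.mv; have := h.ma; have := h.mt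
  have e : ∀ y ∈ CC t ⊓ CC u, PP π (t ^ (n % 2) * y) = PP π y := fun y hy => by
    rcases Nat.mod_two_eq_zero_or_one n with e | e <;> rw [e]
    · rw [pow_zero, one_mul]
    · rw [pow_one, P_mul h.mt hy, h.pt, PP_eq π hy.1, ← pc_one, ← pc_mul, one_mul]
  rw [ee, e _ (by apply_rules [mul_mem, pow_mem, inv_mem]), ce]
  simp (disch := apply_rules [mul_mem, pow_mem]) only [h.mi, P_mul (u := u), P_pow (u := u), h.pu, h.pv, h.pa]

omit [Finite G] in
theorem ee_inj {n m : ℕ} (hn : n < 16) (hm : m < 16) (e : ee t u v a n = ee t u v a m) : n = m := by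
  have k := f9 n hn m hm (by rw [← h.P_ee, e, h.P_ee])
  rw [ee, ee, k, show n / 4 = m / 4 by omega, show n / 8 = m / 8 by omega, mul_left_inj] at e
  have := h.t1
  rcases Nat.mod_two_eq_zero_or_one n with e1 | e1 <;> rcases Nat.mod_two_eq_zero_or_one m with e2 | e2 <;>
    rw [e1, e2] at e
  · omega
  · exact absurd (by simpa using e.symm) this
  · exact absurd (by simpa using e) this
  · omega

theorem cA {z : G} (hz : ∀ n < 16, z * ee t u v a n = ee t u v a n * z) (hX : z * X = X * z) :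
    ∃ m, ∃ n < 16, z = X ^ m * ee t u v a n := by
  have m : z ∈ CC t ⊓ CC u := ⟨mc'.2 (by simpa [ee] using hz 1 (by norm_num)),
    mc'.2 (by simpa [ee] using hz 2 (by norm_num))⟩
  have k : ∀ n < 16, PP π z ⋆ ce n = ce n ⋆ PP π z := fun n hn => by
    rw [← h.P_ee, ← P_mul m (h.ee_mem n), hz n hn, P_mul (h.ee_mem n) m]
  obtain ⟨i, -, n, hn, e⟩ := f8 _ (h.memD m) (by rw [← h.pX, ← P_mul m h.mX, hX, P_mul h.mX m])
    (k 4 (by norm_num)) (k 8 (by norm_num))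
  rw [← h.P_ee, ← h.pX, ← P_pow h.mX, ← P_mul (pow_mem h.mX i) (h.ee_mem _)] at e
  rcases h.P_eq m (mul_mem (pow_mem h.mX i) (h.ee_mem _)) e with e | e
  · exact ⟨i, 2 * n, by omega, e⟩
  · refine ⟨i, 2 * n + 1, by omega, ?_⟩
    rw [e, mul_assoc, mc'.1 (h.ee_mem _).1, ee, ee, show (2 * n + 1) / 2 = 2 * n / 2 by omega,
      show (2 * n + 1) / 4 = 2 * n / 4 by omega, show (2 * n + 1) / 8 = 2 * n / 8 by omega,
      show (2 * n + 1) % 2 = 1 by omega, show 2 * n % 2 = 0 by omega]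
    simp

theorem gp_pow {g p : G} {σ τ : ℕ → ℕ} {k : ℕ} (g2 : g * g = 1) (p2 : p * p = 1) (gX : g * X * g⁻¹ = X)
    (pX : p * X * p⁻¹ = X) (hσ : ∀ n < 16, g * ee t u v a n * g⁻¹ = ee t u v a (σ n))
    (hτ : ∀ n < 16, p * ee t u v a n * p⁻¹ = ee t u v a (τ n))
    (hd : ∀ n < 16, τ n < 16 ∧ σ (τ n) < 16 ∧ (fun n => σ (τ n))^[k] n = n ∧ (σ (τ n) = n → n = 0)) :
    (g * p) ^ k = 1 := by
  have r0 : ∀ y, g * p * y * (g * p)⁻¹ = g * (p * y * p⁻¹) * g⁻¹ := fun y => by group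
  have r1 : ∀ n < 16, g * p * ee t u v a n * (g * p)⁻¹ = ee t u v a (σ (τ n)) := fun n hn => by
    rw [r0, hτ n hn, hσ _ (hd n hn).1]
  have rX : g * p * X * (g * p)⁻¹ = X := by rw [r0, pX, gX]
  have ri : g * (g * p) * g⁻¹ = (g * p)⁻¹ := by
    rw [← mul_assoc, g2, mul_inv_rev, inv_eq_of_mul_eq_one_left p2, one_mul]
  generalize g * p = r at *
  have rk : ∀ k, ∀ n < 16, r ^ k * ee t u v a n * (r ^ k)⁻¹ = ee t u v a ((fun n => σ (τ n))^[k] n) := by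
    intro k
    induction k with
    | zero => simp
    | succ k ih =>
      intro n hn
      rw [Function.iterate_succ_apply, ← ih _ (hd n hn).2.1, ← r1 n hn, pow_succ]; group
  obtain ⟨m, n, hn, e⟩ := h.cA (z := r ^ k) (fun n hn => by
    have := rk k n hn
    rwa [(hd n hn).2.2.1, mul_inv_eq_iff_eq_mul] at this)
    (Commute.pow_left (mul_inv_eq_iff_eq_mul.1 rX) k)
  have e1 : r * r ^ k * r⁻¹ = r ^ k := by group
  rw [e, ← conj_mul, ← conj_pow, rX, r1 n hn, mul_right_inj] at e1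
  rw [(hd n hn).2.2.2 (h.ee_inj (hd n hn).2.1 hn e1), show ee t u v a 0 = 1 by simp [ee], mul_one] at e
  have e2 : g * r ^ k * g⁻¹ = (r ^ k)⁻¹ := by rw [← conj_pow, ri, inv_pow]
  have e3 : (X ^ m) ^ 3 = 1 := by rw [← pow_mul, mul_comm, pow_mul, pow_three', h.X3, one_pow]
  rw [e, ← conj_pow, gX] at e2
  rwa [pow_three', mul_eq_one_iff_eq_inv.2 e2, one_mul, ← e] at e3

end DD

end Cfsg.Agent.Lib.Lyons.BB
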