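import Cfsg.Agent.Lib.Lyons.Cov

set_option autoImplicit false
set_option maxRecDepth 100000

/-! # Carmichael's presentation of (covers of) the alternating groups; permutation facts -/

namespace Cfsg.Agent.Lib.Lyons

open Subgroup Equiv

section
variable {Γ : Type*} [Group Γ] {y : ℕ → Γ} {z : Γ} {N : ℕ}

theorem carm_step (hz : z * z = 1) (hc : ∀ i < N, Commute z (y i)) (h3 : ∀ i < N, y i ^ 3 = 1)
    (h2 : ∀ i < N, ∀ j < N, i ≠ j → (y i * y j) ^ 2 = z) {n : ℕ} (hn : n < N) {w : Γ}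
    (hw : w ∈ closure (insert z (y '' {i | i < n + 1}))) : ∃ h ∈ closure (insert z (y '' {i | i < n})),
      ∃ k < n + 3, w = h * (if k < n then (y n)⁻¹ * y k else y n ^ (k - n)) := by
  set H := closure (insert z (y '' {i | i < n}))
  have zH : z ∈ H := subset_closure (Set.mem_insert _ _)
  have yH : ∀ i < n, y i ∈ H := fun i hi => subset_closure (Set.mem_insert_of_mem _ ⟨i, hi, rfl⟩)
  have sq : ∀ i < N, y i * y i = (y i)⁻¹ := fun i hi => eq_inv_of_mul_eq_one_left (by rw [← h3 i hi, pow_three'])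
  have e : ∀ i < N, ∀ j < N, i ≠ j → y i * y j = z * (y j)⁻¹ * (y i)⁻¹ := fun i hi j hj h => by
    rw [← h2 i hi j hj h, pow_two]; group
  let P := fun w => ∃ h ∈ H, w = h ∨ w = h * y n ∨ w = h * (y n)⁻¹ ∨ ∃ k < n, w = h * ((y n)⁻¹ * y k)
  have key : ∀ w g, g ∈ insert z (y '' {i | i < n + 1}) → P w → P (w * g) := by
    clear hw
    rintro w g hg ⟨h, hh, hw⟩
    obtain hg | ⟨j, hj, rfl⟩ := hg
    · rw [hg]
      refine ⟨h * z, mul_mem hh zH, ?_⟩
      obtain rfl | rfl | rfl | ⟨k, hk, rfl⟩ := hw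
      · exact .inl rfl
      · exact .inr (.inl (by rw [mul_assoc, ← hc n hn, mul_assoc]))
      · exact .inr (.inr (.inl (by rw [mul_assoc, ← (hc n hn).inv_right, mul_assoc])))
      · exact .inr (.inr (.inr ⟨k, hk, by rw [mul_assoc, ← (hc n hn).inv_right.mul_right (hc k (by omega)), mul_assoc]⟩))
    have a : ∀ k < n, y n * (y k)⁻¹ = z * (y k)⁻¹ * ((y n)⁻¹ * y k) := fun k hk => by
      rw [← sq k (by omega), ← mul_assoc, e n hn k (by omega) (by omega), sq k (by omega)]; group
    have b : ∀ k < n, (y n)⁻¹ * (y k)⁻¹ = z * y k * y n := fun k hk => by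
      rw [mul_assoc, e k (by omega) n hn (by omega), ← mul_assoc, ← mul_assoc, hz, one_mul]
    obtain hj | rfl := Nat.lt_succ_iff_lt_or_eq.1 hj
    · obtain rfl | rfl | rfl | ⟨k, hk, rfl⟩ := hw
      · exact ⟨_, mul_mem hh (yH j hj), .inl rfl⟩
      · exact ⟨h * (z * (y j)⁻¹), mul_mem hh (mul_mem zH (inv_mem (yH j hj))), .inr (.inr (.inl (by
          rw [mul_assoc, e n hn j (by omega) (by omega), ← mul_assoc])))⟩
      · exact ⟨h, hh, .inr (.inr (.inr ⟨j, hj, mul_assoc _ _ _⟩))⟩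
      · obtain rfl | hkj := eq_or_ne k j
        · exact ⟨h * (z * y k), mul_mem hh (mul_mem zH (yH k hk)), .inr (.inl (by
            rw [mul_assoc, mul_assoc, sq k (by omega), b k hk, ← mul_assoc]))⟩
        · refine ⟨h * (z * z * y j * (z * (y k)⁻¹)), mul_mem hh (mul_mem (mul_mem (mul_mem zH zH) (yH j hj))
            (mul_mem zH (inv_mem (yH k hk)))), .inr (.inr (.inr ⟨k, hk, ?_⟩))⟩
          rw [mul_assoc, mul_assoc, e k (by omega) j (by omega) hkj, mul_assoc h, mul_assoc (z * z * y j), ← a k hk,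
            ← mul_assoc (z * z * y j), mul_assoc z z, mul_assoc z (z * y j), ← b j hj, ← mul_assoc z,
            (hc n hn).inv_right]
          group
    · obtain rfl | rfl | rfl | ⟨k, hk, rfl⟩ := hw
      · exact ⟨_, hh, .inr (.inl rfl)⟩
      · exact ⟨_, hh, .inr (.inr (.inl (by rw [mul_assoc, sq j hn])))⟩
      · exact ⟨_, hh, .inl (by simp)⟩
      · refine ⟨h * (z * (z * (y k)⁻¹)), mul_mem hh (mul_mem zH (mul_mem zH (inv_mem (yH k hk)))),
          .inr (.inr (.inr ⟨k, hk, ?_⟩))⟩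
        rw [mul_assoc, mul_assoc, e k (by omega) j hn (by omega), mul_assoc h, mul_assoc z (z * _), ← a k hk,
          (hc j hn).inv_right, ← mul_assoc (y j)⁻¹, ← mul_assoc (y j)⁻¹, ← mul_inv_rev, sq j hn, inv_inv, ← hc j hn,
          mul_assoc z]
  have : P w := by
    induction hw using closure_induction_right with
    | one => exact ⟨1, one_mem _, .inl rfl⟩
    | mul_right x _ g hg h => exact key x g hg h
    | mul_inv_cancel x _ g hg h =>
      have hg' := hg
      obtain rfl | ⟨j, hj, rfl⟩ := hg'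
      · rw [inv_eq_of_mul_eq_one_left hz]; exact key _ _ hg h
      · rw [← sq j (lt_of_lt_of_le hj hn), ← mul_assoc]; exact key _ _ hg (key _ _ hg h)
  obtain ⟨h, hh, rfl | rfl | rfl | ⟨k, hk, rfl⟩⟩ := this
  · exact ⟨_, hh, n, by omega, by simp⟩
  · exact ⟨_, hh, n + 1, by omega, by simp⟩
  · exact ⟨_, hh, n + 2, by omega, by simp [pow_two, sq n hn]⟩
  · exact ⟨_, hh, k, by omega, by simp [hk]⟩

theorem carm_card (hz : z * z = 1) (hc : ∀ i < N, Commute z (y i)) (h3 : ∀ i < N, y i ^ 3 = 1)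
    (h2 : ∀ i < N, ∀ j < N, i ≠ j → (y i * y j) ^ 2 = z) {n : ℕ} (hn : n ≤ N) :
    Finite (closure (insert z (y '' {i | i < n}))) ∧
      2 * Nat.card (closure (insert z (y '' {i | i < n}))) ≤ orderOf z * (n + 2).factorial := by
  induction n with
  | zero =>
    have : closure (insert z (y '' {i | i < 0})) = zpowers z := by simp [zpowers_eq_closure]
    rw [this, Nat.card_zpowers]
    exact ⟨finite_zpowers.2 (isOfFinOrder_iff_pow_eq_one.2 ⟨2, two_pos, by rwa [pow_two]⟩), by simp [mul_comm]⟩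
  | succ n ih =>
    obtain ⟨h1, ih⟩ := ih (by omega)
    have m : ∀ i < n + 1, y i ∈ closure (insert z (y '' {i | i < n + 1})) := fun i hi =>
      subset_closure (Set.mem_insert_of_mem _ ⟨i, hi, rfl⟩)
    let f : Fin (n + 3) × closure (insert z (y '' {i | i < n})) → closure (insert z (y '' {i | i < n + 1})) :=
      fun p => ⟨p.2.1 * (if p.1.1 < n then (y n)⁻¹ * y p.1.1 else y n ^ (p.1.1 - n)), mul_mem
        (closure_mono (Set.insert_subset_insert (Set.image_mono fun i hi => by simp at *; omega)) p.2.2) (by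
          split_ifs with h
          exacts [mul_mem (inv_mem (m n (by omega))) (m _ (by omega)), pow_mem (m n (by omega)) _])⟩
    have hf : Function.Surjective f := by
      rintro ⟨w, hw⟩
      obtain ⟨h, hh, k, hk, rfl⟩ := carm_step hz hc h3 h2 hn hw
      exact ⟨(⟨k, hk⟩, ⟨h, hh⟩), rfl⟩
    refine ⟨Finite.of_surjective f hf, ?_⟩
    have := Nat.card_le_card_of_surjective f hf
    rw [Nat.card_prod, Nat.card_eq_fintype_card (α := Fin _), Fintype.card_fin] at this
    rw [Nat.factorial_succ (n + 2)]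
    nlinarith

end

theorem carm9 {Γ : Type*} [Group Γ] (y : Fin 9 → Γ) {z : Γ} (hz : z * z = 1) (hc : ∀ i, Commute z (y i))
    (h3 : ∀ i, y i ^ 3 = 1) (h2 : ∀ i j, i ≠ j → (y i * y j) ^ 2 = z) :
    Finite (closure (Set.range y)) ∧ 2 * Nat.card (closure (Set.range y)) ≤ orderOf z * 39916800 := by
  obtain ⟨h, h'⟩ := carm_card (y := fun n => y (Fin.ofNat 9 n)) (N := 9) hz (fun _ _ => hc _) (fun _ _ => h3 _)
    (fun i hi j hj e => h2 _ _ fun e' => e (by simpa [Fin.ext_iff, Nat.mod_eq_of_lt, hi, hj] using e')) le_rfl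
  have l : closure (Set.range y) ≤ closure (insert z ((fun n => y (Fin.ofNat 9 n)) '' {i | i < 9})) :=
    closure_mono (by rintro _ ⟨i, rfl⟩; exact .inr ⟨i, i.2, by simp⟩)
  exact ⟨Finite.of_injective _ (inclusion_injective l), (Nat.mul_le_mul_left 2 (card_le_of_le l)).trans h'⟩

theorem cy_spec : ∀ i, Perm.sign (cy i) = 1 ∧ cy i ^ 4 = cy i ∧ cy i ^ 3 = 1 ∧
    swap 9 10 * (cy i)⁻¹ * (swap 9 10)⁻¹ = cy i ∧ ∀ j, i ≠ j → cy i * cy j * (cy i * cy j) = 1 ∧
      (cy i * cy j).support.card = 4 := by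
  decide +kernel

theorem mem_closure_cy {σ : Perm (Fin 11)} (h : Perm.sign σ = 1) : σ ∈ closure (Set.range cy) := by
  have m : ∀ i, cy i ∈ closure (Set.range cy) := fun i => subset_closure ⟨i, rfl⟩
  have k : ∀ a b : Fin 11, a ≠ b → swap 9 10 * swap a b ∈ closure (Set.range cy) := fun a b hab => by
    obtain e | ⟨i, e | e | ⟨j, e⟩⟩ := (by decide +kernel : ∀ a b : Fin 11, a ≠ b → swap 9 10 * swap a b = 1 ∨ ∃ i,
      swap 9 10 * swap a b = cy i ∨ swap 9 10 * swap a b = (cy i)⁻¹ ∨ ∃ j, swap 9 10 * swap a b =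
        cy i * (cy j)⁻¹ * cy i) a b hab <;> rw [e]
    exacts [one_mem _, m i, inv_mem (m i), mul_mem (mul_mem (m i) (inv_mem (m j))) (m i)]
  have : σ ∈ closure (Set.range cy) ∨ swap 9 10 * σ ∈ closure (Set.range cy) := by
    clear h
    induction σ using Perm.swap_induction_on with
    | one => exact .inl (one_mem _)
    | swap_mul f a b hab ih =>
      obtain ih | ih := ih
      · exact .inr (by rw [← mul_assoc]; exact mul_mem (k a b hab) ih)
      · exact .inl (by simpa [mul_assoc] using mul_mem (inv_mem (k a b hab)) ih)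
  refine this.resolve_right fun e => ?_
  have := (closure_le (alternatingGroup (Fin 11))).2 (by rintro _ ⟨i, rfl⟩; exact (cy_spec i).1) e
  simp [h] at this

/-- the standard involution with four transpositions -/
def p4 : Perm (Fin 11) := swap 0 1 * swap 2 3 * (swap 4 5 * swap 6 7)

theorem cycleType_inv {σ : Perm (Fin 11)} (h : σ * σ = 1) : σ.cycleType = Multiset.replicate (σ.support.card / 2) 2 := by
  have e := Perm.cycleType_of_pow_prime_eq_one (p := 2) (by rwa [pow_two])
  rw [← Perm.sum_cycleType, e]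
  simp

theorem conj_inv_perm {σ p s : Perm (Fin 11)} (h : σ * σ = 1) (hp : p * p = 1) (s1 : Perm.sign s = -1)
    (s2 : s * p * s⁻¹ = p) (e : p.support.card = σ.support.card) :
    ∃ τ : Perm (Fin 11), Perm.sign τ = 1 ∧ τ * p * τ⁻¹ = σ := by
  obtain ⟨τ, rfl⟩ := isConj_iff.1 ((Perm.isConj_iff_cycleType_eq (σ := p) (τ := σ)).2
    (by rw [cycleType_inv hp, cycleType_inv h, e]))
  obtain e | e := Int.units_eq_one_or (Perm.sign τ)
  · exact ⟨τ, e, rfl⟩
  · exact ⟨τ * s, by simp [e, s1], by rw [mul_inv_rev, ← mul_assoc, mul_assoc τ, mul_assoc τ, s2]⟩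

theorem conj_p2 {σ : Perm (Fin 11)} (h : σ * σ = 1) (e : σ.support.card = 4) :
    ∃ τ : Perm (Fin 11), Perm.sign τ = 1 ∧ τ * (cy 0 * cy 1) * τ⁻¹ = σ :=
  conj_inv_perm (s := swap 0 9) h (by decide +kernel) (by decide +kernel) (by decide +kernel) (e ▸ by decide +kernel)

theorem conj_p4 {σ : Perm (Fin 11)} (h : σ * σ = 1) (e : σ.support.card = 8) :
    ∃ τ : Perm (Fin 11), Perm.sign τ = 1 ∧ τ * p4 * τ⁻¹ = σ :=
  conj_inv_perm (s := swap 0 1) h (by decide +kernel) (by decide +kernel) (by decide +kernel) (e ▸ by decide +kernel)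

theorem inv_cases {σ : Perm (Fin 11)} (h : σ * σ = 1) (h1 : σ ≠ 1) (hs : Perm.sign σ = 1) :
    σ.support.card = 4 ∨ σ.support.card = 8 := by
  have e := cycleType_inv h
  have l := Finset.card_le_univ σ.support
  have h0 : σ.support.card / 2 ≠ 0 := fun e0 => h1 (Perm.cycleType_eq_zero.1 (by rw [e, e0]; rfl))
  have e2 := Perm.sum_cycleType σ
  rw [Perm.sign_of_cycleType, e2] at hs
  rw [e] at hs e2
  simp only [Multiset.sum_replicate, smul_eq_mul, Multiset.card_replicate, Fintype.card_fin] at hs e2 l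
  generalize σ.support.card = n at *
  interval_cases n <;> first | omega | exact absurd hs (by decide)

theorem card_cent_p4 : Nat.card (centralizer ({p4} : Set (Perm (Fin 11)))) = 2304 := by
  rw [Perm.nat_card_centralizer, cycleType_inv (by decide +kernel), show p4.support.card = 8 by decide +kernel]
  decide +kernel

end Cfsg.Agent.Lib.Lyons
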