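import Cfsg.Agent.Lib.Lyons.Carm

set_option autoImplicit false

namespace Cfsg.Agent.Lib.Lyons

open Subgroup

/-- Carmichael's bound for any number of generators -/
theorem carm_fin {Γ : Type*} [Group Γ] {n : ℕ} (y : Fin n → Γ) (z : Γ) (hz : z * z = 1) (hc : ∀ i, Commute z (y i))
    (h3 : ∀ i, y i ^ 3 = 1) (h2 : ∀ i j, i ≠ j → (y i * y j) ^ 2 = z) :
    Finite (closure (insert z (Set.range y))) ∧ Nat.card (closure (insert z (Set.range y))) ≤ (n + 2).factorial := by
  obtain ⟨h, h'⟩ := carm_card (y := fun k => if h : k < n then y ⟨k, h⟩ else 1) (N := n) hz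
    (fun _ h => by simpa [h] using hc _) (fun _ h => by simpa [h] using h3 _)
    (fun i hi j hj e => by simpa [hi, hj] using h2 _ _ (by simpa using e)) le_rfl
  have e : (fun k => if h : k < n then y ⟨k, h⟩ else 1) '' {i | i < n} = Set.range y :=
    Set.ext fun a => ⟨by rintro ⟨i, hi, rfl⟩; exact ⟨⟨i, hi⟩, by simp [show i < n from hi]⟩,
      by rintro ⟨i, rfl⟩; exact ⟨i, i.2, by simp⟩⟩
  rw [e] at h h'
  have := Nat.le_of_dvd two_pos (orderOf_dvd_of_pow_eq_one (show z ^ 2 = 1 by rwa [pow_two]))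
  exact ⟨h, by nlinarith [Nat.factorial_pos (n + 2)]⟩

end Cfsg.Agent.Lib.Lyons
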