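import Mathlib

set_option autoImplicit false

/-! # Carmichael generators of an involution centraliser `2·A₁₁` -/

namespace Cfsg.Agent.Lib.Lyons

open Subgroup Equiv

/-- the 3-cycle `(i 9 10)` -/
def cy (i : Fin 9) : Perm (Fin 11) := List.formPerm [i.castLE (by decide), 9, 10]

/-- `C(t) = ⟨x₀, …, x₈⟩` is the non-split double cover of `A₁₁`, `x i` lifting `cy i` -/
structure Cov {G : Type*} [Group G] (t : G) (x : Fin 9 → G) : Prop where
  t1 : t ≠ 1
  t2 : t * t = 1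
  cube : ∀ i, x i ^ 3 = 1
  sq : ∀ i j, i ≠ j → (x i * x j) ^ 2 = t
  cent : centralizer {t} = closure (Set.range x)
  pi : ∃ π : centralizer ({t} : Set G) →* Perm (Fin 11), (∀ i h, π ⟨x i, h⟩ = cy i) ∧
    ∀ c, π c = 1 → c.1 = 1 ∨ c.1 = t

end Cfsg.Agent.Lib.Lyons
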