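import Cfsg.Agent.Lib.Lyons.W2

/-! The twisting relations of the second double coset enumeration. -/

set_option autoImplicit false
set_option maxRecDepth 100000

namespace Cfsg.Agent.Lib.Lyons

open Cfsg.Agent.PG Cfsg.Agent.Spor Subgroup

variable {G : Type*} [Group G]

theorem exact3 {t X a b : G} (h3 : X ^ 3 = 1) (tX : Commute t X) (Xb : Commute X b)
    (ta : t * a * t⁻¹ = a⁻¹) (tb : t * b * t⁻¹ = b⁻¹) (h : ∃ e : ℕ, a = X ^ e * b) : a = b := by
  obtain ⟨e, rfl⟩ := h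
  have h1 : X ^ e * b⁻¹ = (X ^ e)⁻¹ * b⁻¹ := by
    calc _ = t * (X ^ e * b) * t⁻¹ := by rw [← tb, ← mul_assoc, ← mul_assoc, ← (tX.pow_right e).eq]; group
      _ = _ := by rw [ta, (Xb.pow_left e).eq, mul_inv_rev]
  have h2 : X ^ e * X ^ e = 1 := mul_eq_one_iff_eq_inv.2 (mul_right_cancel h1)
  have h4 : X ^ e * (X ^ e * X ^ e) = 1 := by rw [← pow_three, ← pow_mul, mul_comm, pow_mul, h3, one_pow]
  rw [h2, mul_one] at h4
  rw [h4, one_mul]

/-- the plane over `𝔽₃` -/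
abbrev V3 : Type := ZMod 3 × ZMod 3

/-- `r ^ a * r₂ ^ b` -/
def fr (r r2 : G) (v : V3) : G := r ^ v.1.val * r2 ^ v.2.val

/-- the linear map with given columns -/
def lin3 (p q v : V3) : V3 := v.1.val • p + v.2.val • q

/-- conjugation acts by `M` -/
def Acts (r r2 c : G) (M : V3 → V3) : Prop := ∀ v, c * fr r r2 v * c⁻¹ = fr r r2 (M v)

theorem Acts.mul {r r2 c d : G} {M N : V3 → V3} (h : Acts r r2 c M) (h' : Acts r r2 d N) :
    Acts r r2 (c * d) (M ∘ N) := fun v => by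
  rw [Function.comp_apply, ← h, ← h']; group

/-- the homomorphism from the plane -/
def frH {r r2 : G} (c : Commute r r2) (h : r ^ 3 = 1) (h2 : r2 ^ 3 = 1) : Multiplicative V3 →* G :=
  MonoidHom.mk' (fun v => fr r r2 v.toAdd) fun v w => by
    simp only [fr, toAdd_mul, Prod.fst_add, Prod.snd_add, ZMod.val_add]
    rw [← pow_eq_pow_mod _ h, ← pow_eq_pow_mod _ h2, pow_add, pow_add]
    exact ((c.pow_pow _ _).symm.mul_mul_mul_comm _ _).symm

theorem acts_lin {r r2 a : G} (c : Commute r r2) (h : r ^ 3 = 1) (h2 : r2 ^ 3 = 1) {p q : V3}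
    (hp : a * r * a⁻¹ = fr r r2 p) (hq : a * r2 * a⁻¹ = fr r r2 q) : Acts r r2 a (lin3 p q) := fun v => by
  have : fr r r2 (lin3 p q v) = frH c h h2 (.ofAdd p ^ v.1.val * .ofAdd q ^ v.2.val) := rfl
  rw [this, map_mul, map_pow, map_pow]
  show _ = fr r r2 p ^ _ * fr r r2 q ^ _
  rw [← hp, ← hq, conj_pow, conj_pow, conj_mul]; rfl

theorem lin_dec : ∀ p q : V3, (∀ v, lin3 p q (lin3 (2, 1) (1, 1) v) = lin3 (2, 2) (2, 1) (lin3 p q v)) →
    (∀ v, lin3 (0, 2) (1, 0) (lin3 p q (lin3 (0, 2) (1, 0) v)) = lin3 p q v) →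
    (∀ v, (lin3 p q ∘ lin3 (1, 2) (0, 2)) ((lin3 p q ∘ lin3 (1, 2) (0, 2)) ((lin3 p q ∘ lin3 (1, 2) (0, 2)) v)) = v) →
    p = (1, 0) := by decide +kernel

theorem core {t X X' X'' c1 c2 c3 s s2 r r2 : G} (hr2 : r2 = c1 * c2 * r * (c1 * c2)⁻¹) (X3 : X ^ 3 = 1)
    (tX : Commute t X) (tX' : Commute t X') (tX'' : Commute t X'') (t1 : Commute t c1) (t2 : Commute t c2)
    (t3 : Commute t c3) (ts : Commute t s) (ts2 : Commute t s2) (tr : t * r * t⁻¹ = r⁻¹) (Xr : Commute X r)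
    (X1 : c1⁻¹ * X * c1 = X⁻¹) (X2 : Commute X c2) (XX' : Commute X X') (XX'' : Commute X X'')
    (Xs2 : Commute X s2) (ss : s * s = 1) (sX : s * X * s = X') (sX' : s * X' * s = X) (sX'' : s * X'' * s = X'')
    (s1 : s * c1 * s = c2) (s2' : s * c2 * s = c1) (s3 : c3 * s * c3 = s) (sss : (s * s2) ^ 3 = 1)
    (q1 : ∃ k : ℤ, (c1 * c2)⁻¹ * X' * (c1 * c2) = X' ^ k) (q2 : ∃ k : ℤ, (c1 * c2)⁻¹ * X'' * (c1 * c2) = X'' ^ k)
    (E1 : ∃ e : ℕ, r ^ 3 = X ^ e * 1) (E2 : ∃ e : ℕ, r * X' = X ^ e * (X' * r))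
    (E3 : ∃ e : ℕ, r * X'' = X ^ e * (X'' * r)) (E4 : ∃ e : ℕ, r * r2 = X ^ e * (r2 * r))
    (E5 : ∃ e : ℕ, c1 * r * c1⁻¹ = X ^ e * fr r r2 (2, 1)) (E6 : ∃ e : ℕ, c1 * r2 * c1⁻¹ = X ^ e * fr r r2 (1, 1))
    (E7 : ∃ e : ℕ, c2 * r * c2⁻¹ = X ^ e * fr r r2 (2, 2)) (E8 : ∃ e : ℕ, c2 * r2 * c2⁻¹ = X ^ e * fr r r2 (2, 1))
    (E9 : ∃ e : ℕ, c3 * r * c3⁻¹ = X ^ e * fr r r2 (0, 2)) (E10 : ∃ e : ℕ, c3 * r2 * c3⁻¹ = X ^ e * fr r r2 (1, 0))
    (E11 : ∃ e : ℕ, s2 * r * s2⁻¹ = X ^ e * fr r r2 (1, 2)) (E12 : ∃ e : ℕ, s2 * r2 * s2⁻¹ = X ^ e * fr r r2 (0, 2))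
    (I3 : ∀ v, v ≠ 0 → fr r r2 v ≠ 1)
    (I2 : ∀ y, Commute y X → Commute y X' → Commute y X'' → y ∈ closure {X, X', X'', c1, c2, c3, r}) :
    s * r * s = r := by
  have si : s⁻¹ = s := inv_eq_of_mul_eq_one_right ss
  have cj : ∀ {a b : G}, Commute t a → t * b * t⁻¹ = b⁻¹ → t * (a * b * a⁻¹) * t⁻¹ = (a * b * a⁻¹)⁻¹ := by
    intro a b h1 h2
    calc _ = (t * a) * b * (t * a)⁻¹ := by group
      _ = a * (t * b * t⁻¹) * a⁻¹ := by rw [h1.eq]; group
      _ = _ := by rw [h2]; group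
  have tr2 : t * r2 * t⁻¹ = r2⁻¹ := hr2 ▸ cj (t1.mul_right t2) tr
  have cq : ∀ {Y : G}, Commute Y r → (∃ k : ℤ, (c1 * c2)⁻¹ * Y * (c1 * c2) = Y ^ k) → Commute Y r2 := by
    rintro Y h ⟨k, hk⟩
    rw [hr2]
    show _ = _
    calc _ = c1 * c2 * ((c1 * c2)⁻¹ * Y * (c1 * c2) * r) * (c1 * c2)⁻¹ := by group
      _ = c1 * c2 * (r * ((c1 * c2)⁻¹ * Y * (c1 * c2))) * (c1 * c2)⁻¹ := by rw [hk, (h.zpow_left k).eq]
      _ = _ := by group
  have Xr2 : Commute X r2 := cq Xr ⟨-1, by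
    calc _ = c2⁻¹ * (c1⁻¹ * X * c1) * c2 := by group
      _ = _ := by rw [X1, mul_assoc, X2.inv_left.eq]; group⟩
  have r3 : r ^ 3 = 1 := exact3 X3 tX (Commute.one_right _) (by rw [← conj_pow, tr, inv_pow]) (by simp) E1
  have r23 : r2 ^ 3 = 1 := by rw [hr2, conj_pow, r3]; simp
  have cm : ∀ {Y : G}, Commute t Y → Commute X Y → (∃ e : ℕ, r * Y = X ^ e * (Y * r)) → Commute Y r := by
    rintro Y h1 h2 ⟨e, he⟩
    have := exact3 X3 tX Xr (cj h1.inv_right tr) tr ⟨e, by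
      rw [inv_inv, mul_assoc, he, ← mul_assoc (X ^ e), (h2.pow_left e).eq]; group⟩
    rw [inv_inv, mul_assoc, inv_mul_eq_iff_eq_mul] at this
    exact this.symm
  have X'r := cm tX' XX' E2
  have X''r := cm tX'' XX'' E3
  have rr : Commute r r2 := by
    obtain ⟨e, he⟩ := E4
    obtain ⟨a, ha⟩ := E11
    obtain ⟨b, hb⟩ := E12
    have v1 : fr r r2 (1, 2) = r * (r2 * r2) := by
      show r ^ 1 * r2 ^ 2 = _
      rw [pow_one, pow_two]
    have v2 : fr r r2 (0, 2) = r2 * r2 := by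
      show r ^ 0 * r2 ^ 2 = _
      rw [pow_zero, pow_two, one_mul]
    rw [v1] at ha
    rw [v2] at hb
    have h1 : s2 * r * s2⁻¹ * (s2 * r2 * s2⁻¹) = X ^ e * (s2 * r2 * s2⁻¹ * (s2 * r * s2⁻¹)) := by
      rw [conj_mul, conj_mul, he, ← mul_assoc s2, ← (Xs2.pow_left e).eq]; group
    have k : ∀ n : ℕ, ∀ y, r * (X ^ n * y) = X ^ n * (r * y) := fun n y => ((Xr.pow_left n).left_comm y).symm
    have k2 : ∀ n : ℕ, ∀ y, r2 * (X ^ n * y) = X ^ n * (r2 * y) := fun n y => ((Xr2.pow_left n).left_comm y).symm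
    have k3 : ∀ y, r * (r2 * y) = X ^ e * (r2 * (r * y)) := fun y => by
      rw [← mul_assoc, he]; group
    rw [ha, hb] at h1
    simp only [mul_assoc, k, k2] at h1
    rw [k3, k3] at h1
    simp only [k2, ← mul_assoc, ← pow_add, mul_left_inj] at h1
    have h2 : X ^ (a + b + e) * X ^ e = X ^ (a + b + e) * 1 := by
      rw [← pow_add, mul_one, show a + b + e + e = a + (b + (e + e)) by ring, h1]; congr 1; ring
    rw [mul_left_cancel h2, one_mul] at he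
    exact he
  have tf : ∀ v, t * fr r r2 v * t⁻¹ = (fr r r2 v)⁻¹ := fun v => by
    unfold fr
    rw [← conj_mul, ← conj_pow, ← conj_pow, tr, tr2, (rr.pow_pow _ _).eq, mul_inv_rev, inv_pow, inv_pow]
  have Xf : ∀ v, Commute X (fr r r2 v) := fun v => (Xr.pow_right _).mul_right (Xr2.pow_right _)
  have ac : ∀ {c : G} {p q : V3}, Commute t c → (∃ e : ℕ, c * r * c⁻¹ = X ^ e * fr r r2 p) →
      (∃ e : ℕ, c * r2 * c⁻¹ = X ^ e * fr r r2 q) → Acts r r2 c (lin3 p q) := fun h1 h2 h3 =>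
    acts_lin rr r3 r23 (exact3 X3 tX (Xf _) (cj h1 tr) (tf _) h2) (exact3 X3 tX (Xf _) (cj h1 tr2) (tf _) h3)
  have A1 := ac t1 E5 E6
  have A2 := ac t2 E7 E8
  have A3 := ac t3 E9 E10
  have A4 := ac ts2 E11 E12
  set R := (frH rr r3 r23).range
  have fin : Finite (R : Set G) := Finite.of_surjective _ (frH rr r3 r23).rangeRestrict_surjective
  have nm : ∀ {c : G} {M : V3 → V3}, Acts r r2 c M → c ∈ normalizer (R : Set G) := fun {c M} h =>
    mem_normalizer_fintype (by rintro _ ⟨v, rfl⟩; exact ⟨.ofAdd (M v.toAdd), (h _).symm⟩)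
  have nc : ∀ {c : G}, Commute c r → Commute c r2 → c ∈ normalizer (R : Set G) := fun {c} h1 h2 =>
    nm (M := id) fun v => mul_inv_eq_iff_eq_mul.2 ((h1.pow_right _).mul_right (h2.pow_right _)).eq
  have rR : r ∈ R := ⟨.ofAdd (1, 0), by show r ^ 1 * r2 ^ 0 = r; simp⟩
  have cs : ∀ {Y Z : G}, s * Y * s = Z → Commute Y r → Commute (s * r * s) Z := by
    rintro Y _ rfl h
    nth_rewrite 2 [← si]
    nth_rewrite 4 [← si]
    show _ = _
    rw [conj_mul, conj_mul, h.eq]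
  have eR : s * r * s ∈ R := by
    have le : closure {X, X', X'', c1, c2, c3, r} ≤ R ⊔ (centralizer {t} ⊓ normalizer (R : Set G)) := by
      have m : ∀ {c : G}, Commute t c → c ∈ normalizer (R : Set G) →
          c ∈ R ⊔ (centralizer {t} ⊓ normalizer (R : Set G)) := fun h1 h2 =>
        mem_sup_right ⟨mem_centralizer_singleton_iff.2 h1.symm.eq, h2⟩
      rw [closure_le]
      rintro y (rfl | rfl | rfl | rfl | rfl | rfl | rfl)
      exacts [m tX (nc Xr Xr2), m tX' (nc X'r (cq X'r q1)), m tX'' (nc X''r (cq X''r q2)), m t1 (nm A1),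
        m t2 (nm A2), m t3 (nm A3), mem_sup_left rR]
    have h1 := le (I2 _ (cs sX' X'r) (cs sX Xr) (cs sX'' X''r))
    rw [← SetLike.mem_coe, coe_mul_of_right_le_normalizer_left _ _ inf_le_right] at h1
    obtain ⟨_, ⟨v, rfl⟩, c, ⟨hc1, hc2⟩, he⟩ := h1
    have he : fr r r2 v.toAdd * c = s * r * s := he
    have hv : fr r r2 v.toAdd ∈ R := ⟨v, rfl⟩
    have h2 := tf v.toAdd
    generalize fr r r2 v.toAdd = ρ at he hv h2
    have h3 : t * (s * r * s) * t⁻¹ = (s * r * s)⁻¹ := by have := cj ts tr; rwa [si] at this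
    have h4 : (s * r * s) ^ 3 = 1 := by
      nth_rewrite 2 [← si]
      rw [conj_pow, r3]; simp
    rw [← he] at h3 h4 ⊢
    have h5 : ρ⁻¹ * c = (ρ * c)⁻¹ := by
      rw [← h3, ← h2, mul_assoc, mul_assoc t (ρ * c), mul_assoc ρ,
        (show Commute c t from mem_centralizer_singleton_iff.1 hc1).inv_right.eq]; group
    have h6 : ρ * c * (ρ * c) = ρ * (c * ρ * c⁻¹) * (c * ρ * c⁻¹) * ρ⁻¹ := by
      calc _ = ρ * (c * ρ * c⁻¹) * (c * ρ) * (ρ⁻¹ * c) := by group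
        _ = _ := by rw [h5]; group
    have h7 := (mem_normalizer_iff.1 hc2 ρ).1 hv
    rw [pow_three, mul_eq_one_iff_eq_inv] at h4
    rw [h4, h6]
    exact inv_mem (mul_mem (mul_mem (mul_mem hv h7) h7) (inv_mem hv))
  have e2R : s * r2 * s⁻¹ ∈ R := by
    have : s * r2 * s⁻¹ = c2 * c1 * (s * r * s) * (c2 * c1)⁻¹ := by
      rw [hr2]
      calc _ = (s * c1 * s⁻¹) * (s * c2 * s⁻¹) * (s * r * s⁻¹) * ((s * c1 * s⁻¹) * (s * c2 * s⁻¹))⁻¹ := by group
        _ = _ := by rw [si, s1, s2']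
    rw [this]
    exact (mem_normalizer_iff.1 (nm (A2.mul A1)) _).1 eR
  obtain ⟨p, hp⟩ := eR
  obtain ⟨q, hq⟩ := e2R
  have A5 : Acts r r2 s (lin3 p.toAdd q.toAdd) := acts_lin rr r3 r23 (by rw [si]; exact hp.symm) hq.symm
  have inj : ∀ {v w}, fr r r2 v = fr r r2 w → v = w := fun {v w} h =>
    (injective_iff_map_eq_one (frH rr r3 r23)).2 (fun a ha => by_contra fun h0 => I3 a.toAdd h0 ha)
      (a₁ := .ofAdd v) (a₂ := .ofAdd w) h
  have un : ∀ {c : G} {M N : V3 → V3}, Acts r r2 c M → Acts r r2 c N → ∀ v, M v = N v := fun h h' v =>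
    inj ((h v).symm.trans (h' v))
  have := lin_dec p.toAdd q.toAdd
    (un (A5.mul A1) (by have := A2.mul A5; rwa [← s1, mul_assoc, ss, mul_one] at this))
    (un (A3.mul (A5.mul A3)) (by rwa [← mul_assoc, s3]))
    (un ((A5.mul A4).mul ((A5.mul A4).mul (A5.mul A4))) (N := id) (by rw [← pow_three, sss]; intro v; simp))
  rw [← hp]
  show fr r r2 p.toAdd = r
  rw [this]
  show r ^ 1 * r2 ^ 0 = r
  simp

/-- the second alphabet together with `s` -/
noncomputable def l3 (α : ℕ → G) (j : ℕ) : G := if j = 16 then α 16 else l2 α j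

/-- substitution of one letter -/
noncomputable def sb1 (c : ℕ) : List ℕ :=
  if c / 2 = 16 ∨ c / 2 ∈ JH then [c] else if 18 ≤ c / 2 then
    (if c % 2 = 1 then wi (def2.getD (c / 2 - 18) []) else def2.getD (c / 2 - 18) []) else []

/-- substitution -/
noncomputable def sb (l : List ℕ) : List ℕ :=
  List.rec (motive := fun _ => List ℕ) [] (fun c _ ih => sb1 c ++ ih) l

theorem ew_sb (α : ℕ → G) (l : List ℕ) : ew α (sb l) = ew (l3 α) l := by
  induction l with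
  | nil => rfl
  | cons c l ih =>
    rw [show sb (c :: l) = sb1 c ++ sb l from rfl, ew_append, ih, ew_cons]
    congr 1
    unfold sb1 Spor.lpG l3 l2
    split_ifs <;> simp_all [Spor.lpG]

theorem ew_l3 (α : ℕ → G) {l : List ℕ} (h : ∀ c ∈ l, c / 2 ≠ 16) : ew (l3 α) l = ew (l2 α) l :=
  ew_congr fun c hc => if_neg (h c hc)

variable {t : G} {x : Fin 9 → G}

theorem Cov.sat2 (h : Cov t x) (g : G) {E : List Eqn} (hE : chkC (E.map fun c => (sb c.1, sb c.2)) = true) :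
    ∀ c ∈ E, Sat (l3 (al x g)) c := fun c hc => by
  have := h.sat g hE _ (List.mem_map_of_mem hc)
  simpa only [Sat, ew_sb] using this

theorem twist {g : G} {i : ℕ} (h : Cov t x) (hp : Pres (al x g) i) (hi : i < 3)
    (I1 : ∀ c ∈ eqF, ∃ e : ℕ, ew (l2 (al x g)) c.1 = x 8 ^ e * ew (l2 (al x g)) c.2)
    (I3 : ∀ l ∈ neF, ew (l2 (al x g)) l ∉ zpowers (x 8))
    (I2 : ∀ y : G, Commute y (x 8) → Commute y (l2 (al x g) 20) → Commute y (l2 (al x g) 24) →
      y ∈ closure {z | ∃ l ∈ genF, ew (l2 (al x g)) l = z}) :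
    i = 1 ∧ al x g 16 * al x g 16 = 1 ∧
      (∀ j < af2.length, al x g 16 * l2 (al x g) (19 + j) * al x g 16 = Spor.lpG (l2 (al x g)) (af2.getD j 0)) ∧
      pt (l2 (al x g)) (al x g 16) [[36], [36], [36]] = 1 := by
  have ht : ew (l3 (al x g)) tW = t := by
    rw [← h.tW_eq g, ← ew_sb]; exact congrArg _ (by decide +kernel)
  have S := h.sat2 g (E := [([38], [16]), (tW ++ [16], 16 :: tW), (tW ++ [40], 40 :: tW), (tW ++ [48], 48 :: tW),
    (tW ++ [42], 42 :: tW), (tW ++ [44], 44 :: tW), (tW ++ c3W, c3W ++ tW), (tW ++ [32], 32 :: tW),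
    (tW ++ [36], 36 :: tW), ([43, 16, 42], [17]), ([16, 44], [44, 16]), ([16, 40], [40, 16]), ([16, 48], [48, 16]),
    ([16, 36], [36, 16]), ([32, 32], []), ([32, 16, 32], [40]), ([32, 40, 32], [16]), ([32, 48, 32], [48]),
    ([32, 42, 32], [44]), ([32, 44, 32], [42]), (c3W ++ [32] ++ c3W, [32]), (wpow [32, 36] 3, []),
    ([45, 43, 40, 42, 44], [41]), ([45, 43, 48, 42, 44], [48]), ([32, 46, 32], [47]),
    (p0W ++ yW ++ wi p0W, wi yW), (16 :: yW, yW ++ [16]), (16 :: p0W, p0W ++ [16])]) (by decide +kernel)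
  have e3 : ew (l3 (al x g)) c3W = ew (l2 (al x g)) c3W := ew_l3 _ (by decide)
  have ey : ew (l3 (al x g)) yW = ew (l2 (al x g)) yW := ew_l3 _ (by decide)
  have ep : ew (l3 (al x g)) p0W = ew (l2 (al x g)) p0W := ew_l3 _ (by decide)
  have ey' : ew (al x g) yW = ew (l2 (al x g)) yW := by
    rw [← ey, ← ew_sb]; exact congrArg _ (by decide +kernel)
  have e8 : l2 (al x g) 8 = x 8 := rfl
  have e17 : l2 (al x g) 17 = g := rfl
  have lp : ∀ (γ : ℕ → G) (c : ℕ), Spor.lpG γ c = if c % 2 = 1 then (γ (c / 2))⁻¹ else γ (c / 2) := fun _ _ => rfl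
  simp only [List.forall_mem_cons, Sat, ew_append, ew_cons, ew_nil, ew_wpow, ew_wi, ht, e3, ey, ep, lp, l3,
    Nat.reduceMod, Nat.reduceDiv, Nat.reduceEqDiff, reduceIte, mul_one, e8, ← mul_assoc, zero_ne_one] at S
  obtain ⟨e19, tX, tX', tX'', t1, t2, t3, ts, ts2, X1, X2, XX', XX'', Xs2, ss, sX, sX', sX'', s1, s2, s3, sss,
    q1, q2, sd, py, Xy, Xp, -⟩ := S
  have s1g := hp.2 ([34, 34], []) (by simp [relG])
  have s2g := hp.2 ([34, 16, 34], [16]) (by simp [relG])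
  have s3g := hp.2 (34 :: yW ++ [34], wpow [16] i ++ wi yW) (by simp [relG])
  simp only [Sat, ew_append, ew_cons, ew_nil, ew_wpow, ew_wi, lp, Nat.reduceMod, Nat.reduceDiv, reduceIte, mul_one,
    zero_ne_one, al_g, al_8, ey'] at s1g s2g s3g
  have gi : g⁻¹ = g := inv_eq_of_mul_eq_one_right s1g
  have Xg : Commute (x 8) g := by
    show _ = _
    calc x 8 * g = g * (g * (x 8 * g)) := by rw [← mul_assoc g g, s1g, one_mul]
      _ = _ := by rw [s2g]
  have XA : ∀ l : List ℕ, (∀ c ∈ l, c / 2 ∈ [9, 10, 11, 12, 13, 14, 17]) → Commute (x 8) (ew (al x g) l) := by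
    intro l hl
    refine (mem_centralizer_singleton_iff.1 (ew_mem (Q := centralizer {x 8}) fun c hc => ?_)).symm
    have := hl c hc
    generalize c / 2 = j at this
    by_cases e : j = 17
    · rw [e]; exact mem_centralizer_singleton_iff.2 Xg.symm
    have := hp.1 ([16, 2 * j], [2 * j, 16]) (by revert j; decide +kernel)
    simp only [Sat, ew_cons, lpG_even, ew_nil, mul_one, show Spor.lpG (al x g) 16 = x 8 from rfl] at this
    exact mem_centralizer_singleton_iff.2 this.symm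
  have e25 : l2 (al x g) 25 = ew (al x g) rhoW * t * (ew (al x g) rhoW)⁻¹ * t := by
    rw [← h.tW_eq g, ← ew_wi, ← ew_append, ← ew_append, ← ew_append]; rfl
  have ti : t⁻¹ = t := inv_eq_of_mul_eq_one_right h.t2
  have Xr : Commute (x 8) (l2 (al x g) 25) := by
    have := XA rhoW (by decide)
    rw [e25]
    exact ((this.mul_right (Commute.symm tX)).mul_right this.inv_right).mul_right (Commute.symm tX)
  have tr : t * l2 (al x g) 25 * t⁻¹ = (l2 (al x g) 25)⁻¹ := by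
    rw [e25]; simp [mul_assoc, ti, h.t2]
  have er2 : ew (l2 (al x g)) r2W = l2 (al x g) 21 * l2 (al x g) 22 * l2 (al x g) 25 *
      (l2 (al x g) 21 * l2 (al x g) 22)⁻¹ := by
    simp [r2W, lp, mul_assoc]
  have erW : ∀ a b : ZMod 3, ew (l2 (al x g)) (rW a.val b.val) = fr (l2 (al x g) 25) (ew (l2 (al x g)) r2W) (a, b) := by
    intro a b
    simp [rW, fr, lp]
  have w21 := erW 2 1
  have w11 := erW 1 1
  have w22 := erW 2 2
  have w02 := erW 0 2
  have w10 := erW 1 0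
  have w12 := erW 1 2
  change ew _ (rW 2 1) = _ at w21
  change ew _ (rW 1 1) = _ at w11
  change ew _ (rW 2 2) = _ at w22
  change ew _ (rW 0 2) = _ at w02
  change ew _ (rW 1 0) = _ at w10
  change ew _ (rW 1 2) = _ at w12
  simp only [eqF, List.forall_mem_cons, cjW, cmW, ew_append, ew_cons, ew_nil, ew_wi, lp, Nat.reduceMod, Nat.reduceDiv,
    reduceIte, mul_one, zero_ne_one, w21, w11, w22, w02, w10, w12, e17] at I1
  obtain ⟨E1, E2, E3, E4, E5, E6, E7, E8, E9, E10, E11, E12, ⟨a, E13⟩, ⟨b, E14⟩, ⟨e, E15⟩, -⟩ := I1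
  have sr := core er2 (h.cube 8) tX tX' tX'' t1 t2 t3 ts ts2 tr Xr X1 X2 XX' XX'' Xs2 ss sX sX' sX'' s1 s2 s3 sss
    ⟨-1, by simpa [mul_assoc] using q1⟩ ⟨1, by simpa [mul_assoc] using q2⟩ (by simpa [pow_three] using E1)
    E2 E3 E4 E5 E6 E7 E8 E9 E10 E11 E12
    (fun v hv e => I3 (rW v.1.val v.2.val) (by clear e; revert v; decide) (by rw [erW, e]; exact one_mem _))
    fun y h1 h2 h3 => closure_mono (by
      rintro _ ⟨l, hl, rfl⟩
      simp only [genF, List.mem_cons, List.not_mem_nil, or_false] at hl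
      rcases hl with rfl | rfl | rfl | rfl | rfl | rfl | rfl <;> simp [lp, e19]) (I2 y h1 h2 h3)
  have tw' : ∀ j < af2.length, al x g 16 * l2 (al x g) (19 + j) * al x g 16 =
      Spor.lpG (l2 (al x g)) (af2.getD j 0) := by
    intro j hj
    change j < 7 at hj
    interval_cases j
    exacts [e19 ▸ sX, sX'.trans e19.symm, s1, s2, sd, sX'', sr]
  refine ⟨?_, ss, tw', by simpa [lp, pow_three, mul_assoc] using sss⟩
  have T : Tw (l2 (al x g)) (al x g 16) (fun _ _ => false) 19 af2 := ⟨ss, tw', fun _ _ e => absurd e (by simp)⟩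
  rw [T.ew_tw (by decide +kernel), T.ew_tw (by decide +kernel)] at E15
  have Xh : Commute (x 8) (ew (l2 (al x g)) hW) := by
    rw [← ew_l3 _ (by decide), ← ew_sb]; exact XA _ (by decide +kernel)
  generalize ew (l2 (al x g)) hW = k at *
  generalize ew (l2 (al x g)) k1W = k1 at *
  generalize ew (l2 (al x g)) k2W = k2 at *
  generalize ew (l2 (al x g)) p0W = p at *
  generalize ew (l2 (al x g)) yW = y at *
  have c1 : g * p * y * (g * p)⁻¹ * y⁻¹ = (x 8 ^ i)⁻¹ := by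
    calc _ = (g * (p * y * p⁻¹)⁻¹ * g⁻¹)⁻¹ * y⁻¹ := by group
      _ = _ := by rw [py, inv_inv, gi, s3g, ((show Commute (x 8) y from Xy).pow_left i).inv_right.eq]; group
  have X2' : Commute (x 8) (x 8 ^ b * k2) := E14 ▸ (Xh.mul_right Xy).mul_right Xh.inv_right
  have X1'' : Commute (x 8) (x 8 ^ a * k1) := E13 ▸ (Xh.mul_right (Xg.mul_right Xp)).mul_right Xh.inv_right
  have c2 : k1 * k2 * k1⁻¹ * k2⁻¹ = (x 8 ^ i)⁻¹ := by
    have h1 : x 8 ^ a * k1 * (x 8 ^ b * k2) * (x 8 ^ a * k1)⁻¹ * (x 8 ^ b * k2)⁻¹ = (x 8 ^ i)⁻¹ := by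
      rw [← E13, ← E14]
      calc _ = k * (g * p * y * (g * p)⁻¹ * y⁻¹) * k⁻¹ := by group
        _ = _ := by rw [c1, ← (Xh.pow_left i).inv_left.eq]; group
    have y1 : Commute (x 8) k1 := by simpa using ((Commute.refl (x 8)).pow_right a).inv_right.mul_right X1''
    have y2 : Commute (x 8) k2 := by simpa using ((Commute.refl (x 8)).pow_right b).inv_right.mul_right X2'
    rw [← h1, (y1.pow_left a).eq, (y2.pow_left b).eq]
    calc _ = k1 * (k2 * k1⁻¹ * x 8 ^ b) * (k2 * x 8 ^ b)⁻¹ := by group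
      _ = k1 * (x 8 ^ a * k2 * (x 8 ^ a)⁻¹ * (x 8 ^ b * k1⁻¹)) * (k2 * x 8 ^ b)⁻¹ := by
        rw [(y2.pow_left a).eq, (y1.pow_left b).inv_right.eq]; group
      _ = _ := by group
  have si : (al x g 16)⁻¹ = al x g 16 := inv_eq_of_mul_eq_one_right ss
  have c3 : (l2 (al x g) 20 ^ i)⁻¹ = x 8 ^ (e % 3) * (l2 (al x g) 20 * l2 (al x g) 20) := by
    rw [← pow_eq_pow_mod e (h.cube 8), ← E15, ← sX]
    generalize al x g 16 = s at *
    nth_rewrite 2 4 6 8 10 [← si]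
    rw [conj_pow, ← inv_inv (x 8 ^ i), ← c2]; group
  have : e % 3 < 3 := Nat.mod_lt _ (by norm_num)
  generalize e % 3 = m at c3 this
  by_contra hn
  have d : ∀ i < 3, i ≠ 1 → ∀ m < 3, inC (sb (wi (wpow [40] i))) = true ∧ inC (sb (wpow [16] m ++ [40, 40])) = true ∧
      pw (sb (wi (wpow [40] i))) 0 ≠ pw (sb (wpow [16] m ++ [40, 40])) 0 := by decide +kernel
  obtain ⟨d1, d2, d3⟩ := d i hi hn m this
  refine h.ne g d1 d2 (by decide) d3 ?_
  simpa [ew_sb, lp, l3, e8] using c3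

end Cfsg.Agent.Lib.Lyons
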