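import Cfsg.Agent.Lib.Lyons.L2a
import Cfsg.Agent.Lib.Lyons.F

/-! `N(⟨x⟩) / ⟨x⟩` is `McL:2`; the relations that involve `s`. -/

set_option autoImplicit false
set_option maxRecDepth 100000
set_option Elab.async false

namespace Cfsg.Agent.Lib.Lyons

open Cfsg.Agent.PG Cfsg.Agent.Spor Subgroup Equiv

/-- substitution of words for tokens -/
noncomputable def ex (W : List (List ℕ)) (tok : List ℕ) : List ℕ :=
  List.rec (motive := fun _ => List ℕ) [] (fun c _ ih =>
    app (iteB (Nat.beq (Nat.mod c 2) 1) (wi (nthD [] W (Nat.div c 2))) (nthD [] W (Nat.div c 2))) ih) tok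

theorem ex_mem {Γ : Type*} [Group Γ] {γ : ℕ → Γ} {Q : Subgroup Γ} {W : List (List ℕ)}
    (h : ∀ l ∈ W, ew γ l ∈ Q) (tok : List ℕ) : ew γ (ex W tok) ∈ Q := by
  induction tok with
  | nil => exact Q.one_mem
  | cons c tok ih =>
    have e : ex W (c :: tok) = app (iteB (Nat.beq (Nat.mod c 2) 1) (wi (nthD [] W (Nat.div c 2)))
      (nthD [] W (Nat.div c 2))) (ex W tok) := rfl
    have m : ew γ (nthD [] W (Nat.div c 2)) ∈ Q := by
      rcases nthD_mem_or [] W (Nat.div c 2) with e | e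
      · rw [e]; exact Q.one_mem
      · exact h _ e
    rw [e, app_eq, ew_append]
    refine Q.mul_mem ?_ ih
    cases Nat.beq (Nat.mod c 2) 1
    · exact m
    · rw [iteB_true, ew_wi]; exact Q.inv_mem m

theorem ne_of_lapp1 {N : ℕ} {A : List Net} (hA : okA N A = true) {a b : List ℕ} {v : ℕ}
    (h : Nat.beq (lapp1 A a v) (lapp1 A b v) = false) : ew (gp A) a ≠ ew (gp A) b := fun e =>
  Nat.ne_of_beq_eq_false h (Nat.eq_of_testBit_eq fun i => by rw [testBit_lapp1 hA, testBit_lapp1 hA, e])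

theorem pm_map {Γ Δ : Type*} [Group Γ] [Group Δ] (f : Γ →* Δ) {x g : Γ} (h : g ∈ pm x) : f g ∈ pm (f x) := by
  rcases h with h | h
  · exact Or.inl (by rw [← map_inv, ← map_mul, ← map_mul, h])
  · exact Or.inr (by rw [← map_inv, ← map_mul, ← map_mul, h, map_inv])

theorem pm_of_comm {Γ : Type*} [Group Γ] {x g : Γ} (h : Commute g x) : g ∈ pm x :=
  Or.inl (by rw [h.eq, mul_inv_cancel_right])

namespace M2

/-- the letters as members of the permutation group -/
noncomputable def kd (j : ℕ) : K A 0 := ⟨gp A j, gp_mem_K A (Nat.zero_le j)⟩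

theorem kd_ew (l : List ℕ) : ((ew kd l : K A 0) : Perm ℕ) = ew (gp A) l := map_ew (K A 0).subtype kd l

theorem kd_sat {c : Eqn} (h : Sat (gp A) c) : Sat kd c := Subtype.ext (by rw [kd_ew, kd_ew]; exact h)

theorem kd_top : closure (Set.range kd) = ⊤ := by
  apply map_injective (K A 0).subtype_injective
  rw [MonoidHom.map_closure, ← MonoidHom.range_eq_map, range_subtype, ← Set.range_comp]
  unfold K
  congr 1
  ext σ
  exact ⟨fun ⟨j, e⟩ => ⟨j, Nat.zero_le j, e⟩, fun ⟨j, _, e⟩ => ⟨j, e⟩⟩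

theorem kd_pres : Pres kd 1 :=
  ⟨fun c hc => kd_sat (permB_spec hA p1 c hc), fun c hc => kd_sat (permB_spec hA p2 c hc)⟩

theorem kd_fix (j : ℕ) : l2 kd j = kd j :=
  l2_fix (fun c hc => kd_sat (permB_spec hA p3 c hc)) (fun _ hj => Subtype.ext (gp_of_le hj)) j

/-- generators of the stabiliser of two points -/
def GF : List (List ℕ) := [[38], [40], [48], [42], [44], [48, 46, 49, 47, 48, 46], [50]]

/-- further equations -/
def eqG : List Eqn := [([16], []), ([37, 48, 36], [40]), ([48, 46, 49, 47, 48, 46], c3W),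
  ([38, 40, 39], [40]), ([40, 40, 41], [40]), ([42, 40, 43], [40]), ([44, 40, 45], [41]), ([46, 40, 47], [40]),
  ([48, 40, 49], [40]), ([50, 40, 51], [40])]

theorem pF : permB A 14 eqF = true := by decide +kernel

theorem pG : ∀ c ∈ eqG, Sat (gp A) c := permB_spec hA (by decide +kernel)

theorem neB : ∀ l ∈ neF, Nat.beq (lapp1 A l (Nat.shiftLeft 1 14602)) (lapp1 A [] (Nat.shiftLeft 1 14602)) = false := by
  decide +kernel

theorem kd_8 : kd 8 = 1 := Subtype.ext ((ew_one _ 8).symm.trans (pG ([16], []) (by decide)))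

theorem stab : StabIs A 0 0 19 := by
  refine ⟨by decide, fun σ hσ => (testBit_shl_one 0 _).1 (closedB_spec hA (by decide) (by decide +kernel) hσ),
    fun σ hσ h0 => ?_⟩
  rw [← mρ_range A P L] at hσ
  obtain ⟨τ, rfl⟩ := hσ
  have : closure {y | ∃ j < af2.length, md A P L (19 + j) = y} ≤ (K A 19).comap (mρ A P L) := by
    rw [closure_le]
    rintro _ ⟨j, -, rfl⟩
    exact gp_mem_K A (Nat.le_add_right _ _)
  exact this (mf.hK τ h0)

theorem max {Q : Subgroup (Perm ℕ)} (h1 : K A 19 ≤ Q) (h2 : Q ≤ K A 0) : Q = K A 19 ∨ Q = K A 0 :=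
  max_spec hA stab (r := r0) (r1 := r1M) (r2 := r2M) (gs := gsM) (by decide +kernel) h1 h2

theorem K_pm : K A 19 ≤ pm (gp A 20) := K_le fun j h1 h2 => by
  have e : ∀ j, ew (gp A) [2 * j, 40, 2 * j + 1] = gp A j * gp A 20 * (gp A j)⁻¹ := fun j => by
    rw [ew_cons, ew_cons, ew_cons, lpG_even, lpG_odd, lpG_even _ 20, ew_nil, mul_one, mul_assoc]
  have : (([2 * j, 40, 2 * j + 1], [40]) : Eqn) ∈ eqG ∨ (([2 * j, 40, 2 * j + 1], [41]) : Eqn) ∈ eqG := by
    have h3 : j < 26 := h2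
    interval_cases j <;> decide
  rcases this with h | h
  · exact Or.inl ((e j).symm.trans ((pG _ h).trans (ew_one _ 20)))
  · exact Or.inr ((e j).symm.trans ((pG _ h).trans (by rw [ew_cons, lpG_odd _ 20, ew_nil, mul_one])))

theorem pm_K {σ : Perm ℕ} (h : σ ∈ K A 0) (h' : σ ∈ pm (gp A 20)) : σ ∈ K A 19 := by
  rcases max (Q := pm (gp A 20) ⊓ K A 0) (le_inf K_pm (K_mono A (by decide))) inf_le_right with e | e
  · exact e ▸ ⟨h', h⟩
  have e1 : ew (gp A) [18, 40, 19] = gp A 9 * gp A 20 * (gp A 9)⁻¹ := by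
    rw [ew_cons, ew_cons, ew_cons, lpG_even _ 9, lpG_odd _ 9, lpG_even _ 20, ew_nil, mul_one, mul_assoc]
  have : gp A 9 ∈ pm (gp A 20) ⊓ K A 0 := e.symm ▸ gp_mem_K A (by decide)
  rcases this.1 with h | h
  · exact absurd (e1.trans (h.trans (ew_one _ 20).symm)) (ne_of_lapp1 hA (v := 1) (by decide +kernel))
  · exact absurd (e1.trans (h.trans (by rw [ew_cons, lpG_odd _ 20, ew_nil, mul_one])))
      (ne_of_lapp1 hA (b := [41]) (v := 1) (by decide +kernel))

theorem card19 : Nat.card (K A 19) = 90 * 1296 := by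
  have := card_eq_orbit_mul (K A 0) 0
  rw [orbCardB_spec hA (l := 11) (r := r0) (s := 15400) (by decide +kernel), stab.eq, mf.cK] at this
  omega

theorem two {X : Subgroup (Perm ℕ)} (hX : ∀ l ∈ genF, ew (gp A) l ∈ X) {σ : Perm ℕ} (h : σ ∈ K A 0)
    (h1 : Commute σ (gp A 20)) (h2 : Commute σ (gp A 24)) : σ ∈ X := by
  have s6 : gp A 18 0 = 6 := by
    rw [← testBit_shl_one, ← ew_one (gp A) 18, ← testBit_lapp1 hA, ← bit_eq]; decide +kernel
  have e : (gp A 18)⁻¹ * gp A 24 * gp A 18 = gp A 20 := by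
    have := pG ([37, 48, 36], [40]) (by decide)
    unfold Sat at this
    rwa [ew_one _ 20, ew_cons, ew_cons, lpG_odd _ 18, lpG_even _ 24, ew_one _ 18, ← mul_assoc] at this
  have m := gp_mem_K A (Nat.zero_le 18)
  have a : (gp A 18)⁻¹ * σ * gp A 18 ∈ K A 19 := pm_K (mul_mem (mul_mem (inv_mem m) h) m) (pm_of_comm (by
    rw [← e]
    show _ = _
    calc _ = (gp A 18)⁻¹ * (σ * gp A 24) * gp A 18 := by group
      _ = _ := by rw [h2.eq]; group))
  have b := stab.2.1 _ a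
  rw [Perm.mul_apply, Perm.mul_apply, Perm.inv_eq_iff_eq, s6] at b
  refine stab_le hA (l := 11) (r := r6) (by decide +kernel) card19 (gens := (tokF.map (ex GF)).map toP)
    (by decide +kernel) (lv := lvF) (by decide +kernel) (by decide +kernel)
    (toP_mem (by decide +kernel) fun w hw => ?_) σ (pm_K h (pm_of_comm h1)) b
  obtain ⟨tok, -, rfl⟩ := List.mem_map.1 hw
  refine ex_mem (fun l hl => ?_) tok
  by_cases c : l = [48, 46, 49, 47, 48, 46]
  · rw [c, show ew (gp A) [48, 46, 49, 47, 48, 46] = _ from pG (_, c3W) (by decide)]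
    exact hX _ (by decide)
  · exact hX l (by revert l; decide)

theorem orbB' : ∀ β ∈ B, ∃ σ ∈ K A 0, σ 0 = β := fun β hβ => by
  obtain ⟨σ, h1, j, h2, h3⟩ := reach_orb hA (kgens_mem (by decide) 0) r0 (Nat.shiftLeft 1 0) β
    (bit_eq _ _ ▸ allL_spec (p := bit (korb A 0 0 r0)) (by decide +kernel) β hβ)
  exact ⟨σ, h1, (testBit_shl_one _ _).1 h2 ▸ h3⟩

theorem inj {Δ : Type*} [Group Δ] (φ : K A 0 →* Δ) (h : φ (kd 9) ∉ pm (φ (kd 20))) : Function.Injective φ := by
  rcases max (Q := K A 19 ⊔ φ.ker.map (K A 0).subtype) le_sup_left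
    (sup_le (K_mono A (by decide)) (map_subtype_le _)) with e | e
  · rw [injective_iff_map_eq_one]
    intro n hn
    refine Subtype.ext (mf.fix _ n.2 fun β hβ => ?_)
    obtain ⟨σ, h1, rfl⟩ := orbB' β hβ
    have : (K A 0).subtype ((⟨σ, h1⟩ : K A 0)⁻¹ * n * ⟨σ, h1⟩) ∈ K A 19 :=
      e ▸ mem_sup_right (mem_map_of_mem _ (by rw [MonoidHom.mem_ker, map_mul, map_mul, hn]; simp))
    exact Perm.inv_eq_iff_eq.1 (stab.2.1 _ this)
  · have : K A 19 ⊔ φ.ker.map (K A 0).subtype ≤ ((pm (φ (kd 20))).comap φ).map (K A 0).subtype := by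
      refine sup_le (fun σ hσ => ⟨⟨σ, K_mono A (by decide) hσ⟩, pm_map φ ?_, rfl⟩)
        (map_mono fun n hn => mem_comap.2 (by rw [MonoidHom.mem_ker.1 hn]; exact one_mem _))
      exact (K_pm hσ).imp Subtype.ext Subtype.ext
    obtain ⟨y, h1, h2⟩ := this (e.symm ▸ gp_mem_K A (Nat.zero_le 9))
    exact absurd (show φ (kd 9) ∈ _ by rw [← show y = kd 9 from Subtype.ext h2]; exact h1) h

end M2

variable {G : Type*} [Group G] [Finite G] {t : G} {x : Fin 9 → G} {g : G} {i : ℕ}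

theorem twist' (h : Cov t x) (hp : Pres (al x g) i) (hi : i < 3) :
    i = 1 ∧ al x g 16 * al x g 16 = 1 ∧
      (∀ j < af2.length, al x g 16 * l2 (al x g) (19 + j) * al x g 16 = Spor.lpG (l2 (al x g)) (af2.getD j 0)) ∧
      pt (l2 (al x g)) (al x g 16) [[36], [36], [36]] = 1 := by
  set α := al x g with hα
  have := hp.normal hi
  have hN := card_bar ((M2.kd_pres.zero M2.kd_8 i).prod (hp.bar hi)) (Prod.ext M2.kd_8 bar_8)
  have := hN.1
  obtain ⟨φ, hφ⟩ := hom_of_le M2.kd_top (γ := l2 (bar α)) (D := gen (fun j => (M2.kd j, bar α j)) JH)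
    (fun j => by rw [← M2.kd_fix j, ← l2_prod]; exact l2_mem _ j) (M2.mf.cK ▸ hN.2)
  let q := QuotientGroup.mk' (zpowers (res α JH 8))
  have k1 : ∀ l, φ (ew M2.kd l) = q (ew (l2 (res α JH)) l) := fun l => by
    rw [hom_ew hφ, hom_ew (map_l2 q _)]; rfl
  have k2 : ∀ l, ((ew (l2 (res α JH)) l : gen α JH) : G) = ew (l2 α) l := fun l =>
    hom_ew (f := (gen α JH).subtype) (l2_res α) l
  have k8 : ((res α JH 8 : gen α JH) : G) = x 8 := res_val (by decide)
  have k3 : ∀ a b, φ (ew M2.kd a) = φ (ew M2.kd b) → ∃ e < 3, ew (l2 α) a = x 8 ^ e * ew (l2 α) b := by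
    intro a b e
    rw [k1, k1] at e
    obtain ⟨n, hn⟩ := (mem_powers_iff_mem_zpowers).2 (QuotientGroup.eq_iff_div_mem.1 e)
    have := congrArg Subtype.val (eq_div_iff_mul_eq'.1 hn)
    rw [coe_mul, coe_pow, k2, k2, k8] at this
    exact ⟨n % 3, Nat.mod_lt _ (by decide), by rw [← pow_eq_pow_mod n (h.cube 8), this]⟩
  have hinj : Function.Injective φ := M2.inj φ fun hm => by
    have e1 : φ (ew M2.kd [18, 40, 19]) = φ (M2.kd 9) * φ (M2.kd 20) * (φ (M2.kd 9))⁻¹ := by
      rw [ew_cons, ew_cons, ew_cons, lpG_even _ 9, lpG_odd _ 9, lpG_even _ 20, ew_nil, mul_one, map_mul, map_mul,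
        map_inv, mul_assoc]
    have e2 : ew (l2 α) [18, 40, 19] = ew α (18 :: ([18,20,19,23,20] ++ [19])) := by
      rw [ew_cons, ew_cons, ew_cons α, ew_append]; rfl
    have e3 : ∀ e, x 8 ^ e = ew α (wpow [16] e) := fun e => by rw [ew_wpow, ew_one _ 8]; rfl
    rcases hm with hm | hm
    · obtain ⟨e, b1, b2⟩ := k3 _ [40] (e1.trans (hm.trans (by rw [ew_one _ 20])))
      rw [e2, e3, ew_one _ 20, show l2 α 20 = ew α [18,20,19,23,20] from rfl, ← ew_append] at b2
      exact h.ne g (by decide +kernel) (by clear b2; revert e; decide +kernel) (p := 0) (by decide)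
        (by clear b2; revert e; decide +kernel) b2
    · obtain ⟨e, b1, b2⟩ := k3 _ [41] (e1.trans (hm.trans (by rw [ew_cons, lpG_odd _ 20, ew_nil, mul_one, map_inv])))
      rw [e2, e3, ew_cons _ 41, lpG_odd _ 20, ew_nil, mul_one, show l2 α 20 = ew α [18,20,19,23,20] from rfl,
        ← ew_wi, ← ew_append] at b2
      exact h.ne g (by decide +kernel) (by clear b2; revert e; decide +kernel) (p := 0) (by decide)
        (by clear b2; revert e; decide +kernel) b2
  refine twist h hp hi (fun c hc => ?_) (fun l hl hm => ?_) (fun y y1 y2 y3 => ?_)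
  · obtain ⟨e, -, he⟩ := k3 c.1 c.2 (congrArg φ (M2.kd_sat (permB_spec M2.hA M2.pF c hc)))
    exact ⟨e, he⟩
  · obtain ⟨n, hn⟩ := hm
    have : φ (ew M2.kd l) = φ (ew M2.kd []) := by
      rw [k1, ew_nil, map_one]
      exact (QuotientGroup.eq_one_iff _).2 ⟨n, Subtype.ext (by rw [k2, ← hn, ← k8]; rfl)⟩
    have := congrArg Subtype.val (hinj this)
    rw [M2.kd_ew, M2.kd_ew] at this
    exact ne_of_lapp1 M2.hA (M2.neB l hl) this
  · have yH : y ∈ gen α JH := gen_mono (by decide) (cent_le h hp ▸ mem_centralizer_singleton_iff.2 y1)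
    obtain ⟨σ, hσ⟩ : q ⟨y, yH⟩ ∈ φ.range := by
      have : gen (bar α) JH ≤ φ.range := gen_le fun j hj => ⟨_, (hφ j).trans (l2_H _ hj)⟩
      exact this (bar_top (α := α) ▸ mem_top _)
    have cm : ∀ j, Commute y (l2 α j) → Commute (σ : Perm ℕ) (gp M2.A j) := fun j c => by
      have : φ (σ * M2.kd j) = φ (M2.kd j * σ) := by
        rw [map_mul, map_mul, hσ, ← ew_one M2.kd j, k1, ew_one, ← map_mul, ← map_mul]
        exact congrArg q (Subtype.ext (by rw [coe_mul, coe_mul, l2_res]; exact c))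
      exact congrArg Subtype.val (hinj this)
    set Y := closure {z | ∃ l ∈ genF, ew (l2 α) l = z}
    obtain ⟨τ, h1, h2⟩ := M2.two (X := (((Y.subgroupOf (gen α JH)).map q).comap φ).map (K M2.A 0).subtype)
      (fun l hl => ⟨_, mem_comap.2 (k1 l ▸ mem_map_of_mem q (mem_subgroupOf.2
        (k2 l ▸ subset_closure ⟨l, hl, rfl⟩))), M2.kd_ew l⟩) σ.2 (cm 20 y2) (cm 24 y3)
    rw [show τ = σ from Subtype.ext h2, SetLike.mem_coe, mem_comap, hσ, ← mem_comap, comap_map_eq,
      QuotientGroup.ker_mk', sup_eq_left.2 (zpowers_le.2 (mem_subgroupOf.2 (k8 ▸ subset_closure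
        ⟨[38], by decide, (ew_one _ 19).trans (ew_one α 8)⟩)))] at h1
    exact h1

end Cfsg.Agent.Lib.Lyons
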