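import Cfsg.Agent.BS.S.Bender

set_option autoImplicit false

namespace Cfsg.Agent.Lib.Lyons

open Subgroup Cfsg.Agent.Lib.Invol

/-- General form: the centraliser of `t` is a 2-group unless `M` is everything. -/
theorem eq_top_or_two {Y : Type*} [Group Y] [Finite Y] {M : Subgroup Y} {t u : Y}
    (htM : t ∈ M) (ht2 : t * t = 1) (ht1 : t ≠ 1) (hC : centralizer {t} ≤ M)
    (hI : ∀ j ∈ M, j * j = 1 → j ≠ 1 → ∃ m ∈ M, m * t * m⁻¹ = j)
    (hgen : ∀ N : Subgroup Y, (∀ j ∈ M, j * j = 1 → j ∈ N) → M ≤ N)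
    (hu2 : u * u = 1) (hu1 : u ≠ 1) (hut : u ≠ t) (hc : Commute u t)
    (hO : ∀ N : Subgroup Y, N ≤ centralizer {t} → centralizer {t} ≤ normalizer (N : Set Y) →
      Odd (Nat.card N) → N = ⊥) :
    M = ⊤ ∨ IsPGroup 2 (centralizer ({t} : Set Y)) := by
  by_cases hM : M = ⊤
  · exact .inl hM
  right
  haveI : Fact (Nat.Prime 2) := ⟨Nat.prime_two⟩
  have o2 : ∀ {x : Y}, x * x = 1 → x ≠ 1 → orderOf x = 2 := fun h1 h2 =>
    orderOf_eq_prime (by rw [pow_two]; exact h1) h2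
  have sq : ∀ {x : Y}, orderOf x = 2 → x * x = 1 ∧ x ≠ 1 := fun {x} h =>
    ⟨by rw [← pow_two, ← h, pow_orderOf_eq_one], by rintro rfl; simp at h⟩
  have hse : Cfsg.IsStronglyEmbedded M := by
    refine isStronglyEmbedded_iff.2 ⟨hM, even_card_of_involution_mem htM (o2 ht2 ht1), ?_⟩
    intro g j hj hj2 hg
    obtain ⟨m, hm, rfl⟩ := hI j hj (sq hj2).1 (sq hj2).2
    have hj' : orderOf (g * (m * t * m⁻¹) * g⁻¹) = 2 := by rw [orderOf_conj', hj2]
    obtain ⟨m', hm', e⟩ := hI _ hg (sq hj').1 (sq hj').2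
    have : m'⁻¹ * g * m ∈ M := by
      apply hC
      rw [mem_centralizer_singleton_iff]
      calc m'⁻¹ * g * m * t = m'⁻¹ * (g * (m * t * m⁻¹) * g⁻¹) * (g * m) := by group
        _ = t * (m'⁻¹ * g * m) := by rw [← e]; group
    have := M.mul_mem (M.mul_mem hm' this) (M.inv_mem hm)
    simpa [mul_assoc] using this
  have huM : u ∈ M := hC (mem_centralizer_singleton_iff.2 hc.eq)
  obtain ⟨hodd, Q, D, t', s, r, h, c⟩ := Cfsg.Agent.BS.bender_quot hse
    ⟨u, huM, t, htM, o2 hu2 hu1, o2 ht2 ht1, hut, hc.eq⟩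
  set π := QuotientGroup.mk' M.normalCore with hπ
  have hMQ : M ≤ Q.comap π := by
    refine hgen _ fun j hj hj2 => ?_
    rw [mem_comap]
    by_cases h1 : π j = 1
    · rw [h1]; exact Q.one_mem
    · refine h.toA1s.toA1.invol_mem (mem_map_of_mem π hj) ?_
      exact orderOf_eq_prime (by rw [pow_two, ← map_mul, hj2, map_one]) h1
  have hN : M.normalCore ⊓ centralizer {t} = ⊥ := by
    refine hO _ inf_le_right (fun g hg => ?_) ?_
    · rw [mem_normalizer_iff]
      intro x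
      constructor
      · rintro ⟨h1, h2⟩
        have h3 : g * x * g⁻¹ ∈ centralizer ({t} : Set Y) :=
          mul_mem (mul_mem hg h2) (inv_mem hg)
        exact ⟨M.normalCore_normal.conj_mem x h1 g, h3⟩
      · rintro ⟨h1, h2⟩
        refine ⟨?_, ?_⟩
        · simpa [mul_assoc] using M.normalCore_normal.conj_mem _ h1 g⁻¹
        · have h3 : g⁻¹ * (g * x * g⁻¹) * g ∈ centralizer ({t} : Set Y) :=
            mul_mem (mul_mem (inv_mem hg) h2) hg
          simpa [mul_assoc] using h3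
    · exact Odd.of_dvd_nat hodd (card_dvd_of_le inf_le_left)
  let f : centralizer ({t} : Set Y) →* Q :=
    (π.comp (centralizer ({t} : Set Y)).subtype).codRestrict Q fun x => hMQ (hC x.2)
  refine c.two.of_injective f ((injective_iff_map_eq_one f).2 fun x hx => ?_)
  have h1 : π x = 1 := congrArg Subtype.val hx
  have h2 : (x : Y) ∈ M.normalCore ⊓ centralizer {t} :=
    ⟨(QuotientGroup.eq_one_iff _).1 h1, x.2⟩
  rw [hN] at h2
  exact Subtype.ext (mem_bot.1 h2)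

theorem eq_top_of_se {Y : Type*} [Group Y] [Finite Y] {M : Subgroup Y} {t u : Y}
    (htM : t ∈ M) (ht2 : t * t = 1) (ht1 : t ≠ 1) (hC : centralizer {t} ≤ M)
    (hI : ∀ j ∈ M, j * j = 1 → j ≠ 1 → ∃ m ∈ M, m * t * m⁻¹ = j)
    (hgen : ∀ N : Subgroup Y, (∀ j ∈ M, j * j = 1 → j ∈ N) → M ≤ N)
    (hu2 : u * u = 1) (hu1 : u ≠ 1) (hut : u ≠ t) (hc : Commute u t)
    (hO : ∀ N : Subgroup Y, N ≤ centralizer {t} → centralizer {t} ≤ normalizer (N : Set Y) →
      Odd (Nat.card N) → N = ⊥)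
    (hcard : Nat.card (centralizer ({t} : Set Y)) = 40320 ∨
      Nat.card (centralizer ({t} : Set Y)) = 39916800) : M = ⊤ := by
  haveI : Fact (Nat.Prime 2) := ⟨Nat.prime_two⟩
  refine (eq_top_or_two htM ht2 ht1 hC hI hgen hu2 hu1 hut hc hO).resolve_right fun h => ?_
  obtain ⟨n, hn⟩ := IsPGroup.iff_card.1 h
  have h3 : 3 ∣ 2 ^ n := by
    rw [← hn]
    rcases hcard with e | e <;> rw [e] <;> norm_num
  have := (Nat.prime_three.dvd_of_dvd_pow h3)
  omega

end Cfsg.Agent.Lib.Lyons
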