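import Cfsg.Agent.Lib.Lyons.Words
import Cfsg.Agent.Lib.Lyons.SE
import Cfsg.Agent.Lib.He.Gen

/-! The normaliser of `⟨x₈⟩` and the whole group are generated by the letters. -/

set_option autoImplicit false
set_option maxRecDepth 100000

namespace Cfsg.Agent.Lib.Lyons

open Cfsg.Agent.PG Cfsg.Agent.Spor Subgroup Equiv Cfsg.Agent.Lib.Invol
open Cfsg.Agent.Lib.He (Cj dih_ex ex_swap)
open Cfsg.Agent.Lib.Root.J1 (Iv)

theorem fuse {Y : Type*} [Group Y] [Finite Y] {M : Subgroup Y} {t : Y} (htM : t ∈ M) (ht : Iv t)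
    (hI : ∀ j ∈ M, Commute j t → Iv j → Cj M t j) {j : Y} (hj : j ∈ M) (j2 : Iv j) : Cj M t j := by
  by_cases ho : Odd (orderOf (t * j))
  · obtain ⟨k, e, -, hk⟩ := ex_swap ht j2 ho
    exact ⟨k, (hk M htM hj).1, e⟩
  obtain ⟨m, hm, m2, c1, c2, -⟩ := dih_ex htM hj ht j2 ho
  obtain ⟨k, hk, e⟩ := hI m (zpowers_le.2 (mul_mem htM hj) hm) c1 m2
  have h1 : Commute (k⁻¹ * j * k⁻¹⁻¹) t := by
    show _ = _
    calc _ = k⁻¹ * (j * (k * t * k⁻¹)) * k := by group
      _ = k⁻¹ * ((k * t * k⁻¹) * j) * k := by rw [e, c2.eq]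
      _ = _ := by group
  have := (hI _ (mul_mem (mul_mem (inv_mem hk) hj) (inv_mem (inv_mem hk))) h1 (j2.conj _)).conj hk
  simpa [mul_assoc] using this

theorem eq_top_of_tri {Y : Type*} [Group Y] [Finite Y] {M : Subgroup Y} {t u a b c : Y}
    (htM : t ∈ M) (ht : Iv t) (hC : centralizer {t} ≤ M)
    (hI : ∀ j ∈ M, Commute j t → Iv j → Cj M t j)
    (hu : Iv u) (hut : u ≠ t) (hc : Commute u t) (ha : a ∈ M) (hb : b ∈ M) (hcM : c ∈ M)
    (a2 : a * a = 1) (b2 : b * b = 1) (c2 : c * c = 1) (ab : (a * b) ^ 3 = 1) (bc : (b * c) ^ 3 = 1)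
    (ac : (a * c) ^ 2 = t) : M = ⊤ := by
  by_contra hM
  have : Fact (Nat.Prime 2) := ⟨Nat.prime_two⟩
  have sq : ∀ {x : Y}, orderOf x = 2 → Iv x := fun {x} h =>
    ⟨by rintro rfl; simp at h, by rw [← pow_two, ← h, pow_orderOf_eq_one]⟩
  have hse : Cfsg.IsStronglyEmbedded M := by
    refine isStronglyEmbedded_iff.2 ⟨hM, even_card_of_involution_mem htM ht.orderOf, ?_⟩
    intro g j hj hj2 hg
    obtain ⟨m, hm, rfl⟩ := fuse htM ht hI hj (sq hj2)
    obtain ⟨m', hm', e⟩ := fuse htM ht hI hg ((sq hj2).conj g)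
    have : m'⁻¹ * g * m ∈ M := by
      apply hC
      rw [mem_centralizer_singleton_iff]
      calc m'⁻¹ * g * m * t = m'⁻¹ * (g * (m * t * m⁻¹) * g⁻¹) * (g * m) := by group
        _ = t * (m'⁻¹ * g * m) := by rw [← e]; group
    have := M.mul_mem (M.mul_mem hm' this) (M.inv_mem hm)
    simpa [mul_assoc] using this
  have huM : u ∈ M := hC (mem_centralizer_singleton_iff.2 hc.eq)
  obtain ⟨hodd, Q, D, t', s, r, h, cc⟩ := Cfsg.Agent.BS.bender_quot hse
    ⟨u, huM, t, htM, hu.orderOf, ht.orderOf, hut, hc.eq⟩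
  set π := QuotientGroup.mk' M.normalCore with hπ
  have hQ : ∀ j ∈ M, j * j = 1 → π j ∈ Q := fun j hj hj2 => by
    by_cases h1 : π j = 1
    · rw [h1]; exact Q.one_mem
    · refine h.toA1s.toA1.invol_mem (mem_map_of_mem π hj) ?_
      exact orderOf_eq_prime (by rw [pow_two, ← map_mul, hj2, map_one]) h1
  have k : ∀ p ∈ M, ∀ q ∈ M, p * p = 1 → q * q = 1 → (p * q) ^ 3 = 1 → p * q ∈ M.normalCore := by
    intro p hp q hq p2 q2 h3
    obtain ⟨n, hn⟩ := cc.two ⟨π p * π q, mul_mem (hQ p hp p2) (hQ q hq q2)⟩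
    have h1 : (π (p * q)) ^ 2 ^ n = 1 := by rw [map_mul]; exact congrArg Subtype.val hn
    have h2 : (π (p * q)) ^ 3 = 1 := by rw [← map_pow, h3, map_one]
    have h4 := pow_gcd_eq_one.2 ⟨h1, h2⟩
    rw [Nat.Coprime.gcd_eq_one (Nat.Coprime.pow_left n (by norm_num)), pow_one] at h4
    exact (QuotientGroup.eq_one_iff _).1 h4
  have h5 : t ∈ M.normalCore := by
    have := mul_mem (k a ha b hb a2 b2 ab) (k b hb c hcM b2 c2 bc)
    rw [mul_assoc, ← mul_assoc b, b2, one_mul] at this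
    rw [← ac]; exact pow_mem this 2
  have := hodd.of_dvd_nat (orderOf_dvd_natCard _ h5)
  rw [ht.orderOf] at this
  exact absurd this (by decide)

theorem le_of_tri {G : Type*} [Group G] [Finite G] {H M : Subgroup G} {t u a b c : G} (hMH : M ≤ H)
    (htM : t ∈ M) (ht : Iv t) (hC : ∀ y ∈ H, Commute y t → y ∈ M)
    (hI : ∀ j ∈ M, Commute j t → Iv j → Cj M t j) (huM : u ∈ M)
    (hu : Iv u) (hut : u ≠ t) (hc : Commute u t) (ha : a ∈ M) (hb : b ∈ M) (hcM : c ∈ M)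
    (a2 : a * a = 1) (b2 : b * b = 1) (c2 : c * c = 1) (ab : (a * b) ^ 3 = 1) (bc : (b * c) ^ 3 = 1)
    (ac : (a * c) ^ 2 = t) : H ≤ M := by
  have iv : ∀ {y : H}, Iv y ↔ Iv (y : G) := fun {y} => by
    simp only [Iv, Ne, Subtype.ext_iff, coe_mul, coe_one]
  refine subgroupOf_eq_top.1 (eq_top_of_tri (M := M.subgroupOf H) (t := ⟨t, hMH htM⟩) (u := ⟨u, hMH huM⟩)
    (a := ⟨a, hMH ha⟩) (b := ⟨b, hMH hb⟩) (c := ⟨c, hMH hcM⟩) htM (iv.2 ht)
    (fun y hy => hC y y.2 (congrArg Subtype.val (mem_centralizer_singleton_iff.1 hy))) (fun j hj cj j2 => ?_)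
    (iv.2 hu) (fun e => hut (congrArg Subtype.val e)) (Subtype.ext hc) ha hb hcM (Subtype.ext a2)
    (Subtype.ext b2) (Subtype.ext c2) (Subtype.ext ab) (Subtype.ext bc) (Subtype.ext ac))
  obtain ⟨k, hk, e⟩ := hI j hj (congrArg Subtype.val cj) (iv.1 j2)
  exact ⟨⟨k, hMH hk⟩, hk, Subtype.ext e⟩

variable {G : Type*} [Group G] {t : G} {x : Fin 9 → G}

theorem gen_mem {α : ℕ → G} {J : List ℕ} {j : ℕ} (hj : j ∈ J) : α j ∈ gen α J := subset_closure ⟨j, hj, rfl⟩

theorem gen_ew {α : ℕ → G} {J l : List ℕ} (h : ∀ c ∈ l, c / 2 ∈ J) : ew α l ∈ gen α J :=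
  ew_mem fun c hc => gen_mem (h c hc)

theorem gen_mono {α : ℕ → G} {J K : List ℕ} (h : ∀ j ∈ J, j ∈ K) : gen α J ≤ gen α K :=
  closure_mono fun _ ⟨j, hj, e⟩ => ⟨j, h j hj, e⟩

/-- a word in the `a i` moving `p` to `k` -/
def mv (k p : ℕ) : List ℕ :=
  if p = k then [] else if p = 7 then [18 + 2 * k] else if p = 6 then [19 + 2 * k] else [19 + 2 * k, 18 + 2 * p]

set_option synthInstance.maxSize 1000 in
theorem mv_spec : ∀ k < 6, ∀ p < 8, k ≤ p → inC (mv k p) = true ∧ (∀ c ∈ mv k p, c / 2 ∈ [9, 10, 11, 12, 13, 14]) ∧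
    pw (mv k p) p = k ∧ ∀ q < 11, q < k ∨ 8 ≤ q → pw (mv k p) q = q := by decide +kernel

/-- the centraliser of `u` acts as `S₃` on `8, 9, 10` -/
def dL : List (List ℕ) := [[], [16], [17], [30], [16, 30], [17, 30]]

theorem dL_spec : ∀ p ∈ [8, 9, 10], ∀ q ∈ [8, 9, 10], ∀ r ∈ [8, 9, 10], p ≠ q → p ≠ r → q ≠ r →
    ∃ d ∈ dL, pw d p = 8 ∧ pw d q = 9 ∧ pw d r = 10 := by decide +kernel

theorem dL_inC : ∀ d ∈ dL, inC d = true := by decide +kernel

/-- conjugate word -/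
noncomputable def cw (c l : List ℕ) : List ℕ := c ++ (l ++ wi c)

theorem ew_cw (α : ℕ → G) (c l : List ℕ) : ew α (cw c l) = ew α c * ew α l * (ew α c)⁻¹ := by
  simp [cw, mul_assoc]

theorem perm_one {σ : Perm (Fin 11)} (hs : Perm.sign σ = 1) (h : ∀ q : Fin 11, (q : ℕ) < 6 ∨ 8 ≤ (q : ℕ) → σ q = q) :
    σ = 1 := by
  have k : ∀ p : Fin 11, p = 6 ∨ p = 7 → σ p = 6 ∨ σ p = 7 := fun p hp => by
    by_contra hn
    have := σ.injective (h (σ p) (by omega))
    omega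
  have ne : σ 6 ≠ σ 7 := fun e => absurd (σ.injective e) (by decide)
  obtain e | e := k 6 (.inl rfl)
  · have e' : σ 7 = 7 := (k 7 (.inr rfl)).resolve_left fun e' => ne (e.trans e'.symm)
    ext q
    by_cases h1 : (q : ℕ) < 6 ∨ 8 ≤ (q : ℕ)
    · rw [h q h1]; rfl
    · obtain rfl | rfl : q = 6 ∨ q = 7 := by omega
      exacts [congrArg _ e, congrArg _ e']
  · have e' : σ 7 = 6 := (k 7 (.inr rfl)).resolve_right fun e' => ne (e.trans e'.symm)
    have : σ = Equiv.swap 6 7 := by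
      ext q
      by_cases h1 : (q : ℕ) < 6 ∨ 8 ≤ (q : ℕ)
      · rw [h q h1, swap_apply_of_ne_of_ne (by omega) (by omega)]
      · obtain rfl | rfl : q = 6 ∨ q = 7 := by omega
        exacts [congrArg _ e, congrArg _ e']
    rw [this, Perm.sign_swap (by decide)] at hs
    exact absurd hs (by decide)

namespace Cov

variable (h : Cov t x) (g : G)
include h

theorem t_gen : t ∈ gen (al x g) [9, 10, 11, 12, 13, 14] := h.tW_eq g ▸ gen_ew (by decide)

theorem memA {π : centralizer ({t} : Set G) →* Perm (Fin 11)} (hp : Prj t π)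
    (h3 : ∀ (l : List ℕ) (hl : inC l = true) (p : Fin 11), (π ⟨ew (al x g) l, h.ew_mem g hl⟩ p : ℕ) = pw l p)
    (y : centralizer ({t} : Set G)) (hy : ∀ q : Fin 11, 8 ≤ (q : ℕ) → π y q = q) :
    (y : G) ∈ gen (al x g) [9, 10, 11, 12, 13, 14] := by
  have key : ∀ n ≤ 6, ∀ y : centralizer ({t} : Set G),
      (∀ q : Fin 11, (q : ℕ) < 6 - n ∨ 8 ≤ (q : ℕ) → π y q = q) → (y : G) ∈ gen (al x g) [9, 10, 11, 12, 13, 14] := by
    intro n
    induction n with
    | zero =>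
      intro _ y hy
      obtain e | e := (hp.ker y).1 (perm_one (hp.even y) hy) <;> rw [e]
      exacts [one_mem _, h.t_gen g]
    | succ n ih =>
      intro hn y hy
      obtain ⟨k, hk⟩ : ∃ k : Fin 11, (k : ℕ) = 5 - n := ⟨⟨5 - n, by omega⟩, rfl⟩
      have hp' : ¬ ((π y k : ℕ) < k ∨ 8 ≤ (π y k : ℕ)) := fun e => by
        have := (π y).injective (hy (π y k) (by omega))
        rw [this] at e
        omega
      obtain ⟨m1, m2, m3, m4⟩ := mv_spec k (by omega) (π y k) (by omega) (by omega)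
      have := ih (by omega) (⟨_, h.ew_mem g m1⟩ * y) fun q hq => by
        apply Fin.ext
        rw [map_mul, Perm.mul_apply, h3 _ m1]
        by_cases e : q = k
        · rw [e, m3]
        · have e' : (q : ℕ) ≠ k := fun e' => e (Fin.ext e')
          rw [hy q (by omega), m4 q q.2 (by omega)]
      exact (mul_mem_cancel_left (gen_ew m2)).1 this
  exact key 6 le_rfl y fun q hq => hy q (by omega)

theorem memA' {π : centralizer ({t} : Set G) →* Perm (Fin 11)} (hp : Prj t π)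
    (h3 : ∀ (l : List ℕ) (hl : inC l = true) (p : Fin 11), (π ⟨ew (al x g) l, h.ew_mem g hl⟩ p : ℕ) = pw l p)
    (y : centralizer ({t} : Set G)) (hy : ∀ q : Fin 11, 8 ≤ (q : ℕ) → 8 ≤ (π y q : ℕ)) :
    ∃ d ∈ dL, ew (al x g) d * y ∈ gen (al x g) [9, 10, 11, 12, 13, 14] := by
  have m : ∀ q : Fin 11, 8 ≤ (q : ℕ) → (π y q : ℕ) ∈ [8, 9, 10] := fun q hq => by
    have := hy q hq
    have := (π y q).2
    simp only [List.mem_cons, List.not_mem_nil]; omega
  have n : ∀ p q : Fin 11, p ≠ q → (π y p : ℕ) ≠ π y q := fun p q e e' => e ((π y).injective (Fin.ext e'))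
  obtain ⟨d, hd, d1, d2, d3⟩ := dL_spec _ (m 8 (by decide)) _ (m 9 (by decide)) _ (m 10 (by decide))
    (n _ _ (by decide)) (n _ _ (by decide)) (n _ _ (by decide))
  refine ⟨d, hd, h.memA g hp h3 (⟨_, h.ew_mem g (dL_inC d hd)⟩ * y) fun q hq => Fin.ext ?_⟩
  rw [map_mul, Perm.mul_apply, h3 _ (dL_inC d hd)]
  obtain rfl | rfl | rfl : q = 8 ∨ q = 9 ∨ q = 10 := by omega
  exacts [d1, d2, d3]

theorem u_facts : Iv (ew (al x g) uW) ∧ ew (al x g) uW ≠ t ∧ ew (al x g) uW ∈ centralizer ({t} : Set G) ∧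
    ∀ d ∈ dL, Commute (ew (al x g) d) (ew (al x g) uW) := by
  refine ⟨⟨h.ne g (l' := []) (p := 0) (by decide +kernel) (by decide +kernel) (by decide) (by decide +kernel), ?_⟩,
    ?_, h.ew_mem g (by decide +kernel), fun d hd => ?_⟩
  · rw [← ew_append]
    exact h.sat g (E := [(uW ++ uW, [])]) (by decide +kernel) _ List.mem_cons_self
  · rw [← h.tW_eq g]
    exact h.ne g (p := 0) (by decide +kernel) (by decide +kernel) (by decide) (by decide +kernel)
  · have := h.sat g (E := dL.map fun d => (d ++ uW, uW ++ d)) (by decide +kernel) _ (List.mem_map_of_mem hd)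
    simp only [Sat, ew_append] at this
    exact this

/-- the strongly-embedded argument for a subgroup containing the `a i` -/
theorem le_of [Finite G] {H M : Subgroup G} (hMH : M ≤ H) (hA : gen (al x g) [9, 10, 11, 12, 13, 14] ≤ M)
    (hC : ∀ y ∈ H, Commute y t → y ∈ M) (htu : Cj M t (ew (al x g) uW))
    (hI : ∀ j ∈ M, Commute j t → Iv j → j ≠ t → Cj M (ew (al x g) uW) j) : H ≤ M := by
  obtain ⟨u1, u2, u3, -⟩ := h.u_facts g
  have S := h.sat g (E := [((uW ++ tW) ++ (uW ++ tW), []), (cw [22, 18] uW ++ cw [22, 18] uW, []),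
    (cw [18] uW ++ cw [18] uW, []), (wpow ((uW ++ tW) ++ cw [22, 18] uW) 3, []),
    (wpow (cw [22, 18] uW ++ cw [18] uW) 3, []), (wpow ((uW ++ tW) ++ cw [18] uW) 2, tW)]) (by decide +kernel)
  simp only [List.forall_mem_cons, Sat, ew_wpow, ew_nil, h.tW_eq g] at S
  obtain ⟨s1, s2, s3, s4, s5, s6, -⟩ := S
  rw [ew_append] at s1 s2 s3 s4 s5 s6
  refine le_of_tri hMH (hA (h.t_gen g)) ⟨h.t1, h.t2⟩ hC (fun j hj c j2 => ?_) (hA (gen_ew (by decide))) u1 u2
    (mem_centralizer_singleton_iff.1 u3) (hA (gen_ew (by decide +kernel))) (hA (gen_ew (by decide +kernel)))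
    (hA (gen_ew (by decide +kernel))) s1 s2 s3 s4 s5 s6
  by_cases e : j = t
  · rw [e]; exact Cj.refl _ _
  · exact htu.trans (hI j hj c j2 e)

end Cov

theorem Pres.g_facts {g : G} {i : ℕ} (h : Cov t x) (hp : Pres (al x g) i) :
    g * g = 1 ∧ Commute g (x 8) ∧ g * t * g⁻¹ = ew (al x g) uW := by
  have e : Spor.lpG (al x g) 34 = g := lpG_even _ 17
  have e' : Spor.lpG (al x g) 16 = x 8 := lpG_even _ 8
  have s1 := hp.2 ([34, 34], []) (by simp [relG])
  have s2 := hp.2 ([34, 16, 34], [16]) (by simp [relG])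
  have s3 := hp.2 (34 :: tW ++ [34], uW) (by simp [relG])
  simp only [Sat, ew_cons, ew_append, e, e', ew_nil, mul_one, h.tW_eq g] at s1 s2 s3
  have gi : g⁻¹ = g := inv_eq_of_mul_eq_one_right s1
  refine ⟨s1, ?_, by rw [gi, ← s3]⟩
  show _ = _
  calc g * x 8 = g * (x 8 * g) * g := by rw [mul_assoc, mul_assoc, s1, mul_one]
    _ = _ := by rw [s2]

theorem top_eq [Finite G] {g : G} {i : ℕ} (h : Cov t x) (hp : Pres (al x g) i) :
    gen (al x g) [8, 9, 10, 11, 12, 13, 14, 15, 16, 17] = ⊤ := by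
  obtain ⟨-, -, g3⟩ := hp.g_facts h
  obtain ⟨u1, u2, u3, -⟩ := h.u_facts g
  have hC : centralizer {t} ≤ gen (al x g) [8, 9, 10, 11, 12, 13, 14, 15, 16, 17] := by
    rw [h.cent, closure_le]
    rintro _ ⟨j, rfl⟩
    let L : List (List ℕ) := [[19, 32, 18, 32], [21, 32, 18, 32], [23, 32, 18, 32], [32, 27, 18, 32],
      [32, 25, 18, 32], [32, 29, 18, 32], [32, 18, 32], [32, 19, 32], []]
    have S := h.sat g (E := (List.range 9).map fun j => ([2 * j], cw (L.getD j []) [16])) (by decide +kernel)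
      _ (List.mem_map_of_mem (List.mem_range.2 j.2))
    simp only [Sat, ew_cons, lpG_even, ew_nil, mul_one, al_x] at S
    rw [SetLike.mem_coe, S]
    exact gen_ew (by clear S; revert j; decide +kernel)
  refine eq_top_iff.2 (h.le_of g le_top (gen_mono (by decide)) (fun y _ c => hC (mem_centralizer_singleton_iff.2 c))
    ⟨g, gen_mem (j := 17) (by decide), g3⟩ fun j _ c j2 jt => ?_)
  obtain ⟨k, hk, e⟩ := h.conj_inv u3 u1.2 u1.1 u2 (mem_centralizer_singleton_iff.2 c) j2.2 j2.1 jt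
  exact ⟨k, hC hk, e⟩

theorem cent_le [Finite G] {g : G} {i : ℕ} (h : Cov t x) (hp : Pres (al x g) i) :
    centralizer {x 8} = gen (al x g) [8, 9, 10, 11, 12, 13, 14, 17] := by
  obtain ⟨g1, g2, g3⟩ := hp.g_facts h
  obtain ⟨u1, u2, u3, u4⟩ := h.u_facts g
  obtain ⟨π, hπ, h2, h3⟩ := h.prj_ew
  have e8 : Spor.lpG (al x g) 16 = x 8 := lpG_even _ 8
  have e8' : Spor.lpG (al x g) 17 = (x 8)⁻¹ := lpG_odd _ 8
  have hA : gen (al x g) [9, 10, 11, 12, 13, 14] ≤ centralizer {x 8} := by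
    refine (closure_le _).2 ?_
    rintro _ ⟨j, hj, rfl⟩
    have := hp.1 ([16, 2 * j], [2 * j, 16]) (by revert j; decide +kernel)
    simp only [Sat, ew_cons, e8, lpG_even, ew_nil, mul_one] at this
    exact mem_centralizer_singleton_iff.2 this.symm
  have hM : gen (al x g) [8, 9, 10, 11, 12, 13, 14, 17] ≤ centralizer {x 8} := by
    refine (closure_le _).2 ?_
    rintro _ ⟨j, hj, rfl⟩
    by_cases e : j = 8
    · rw [e]; exact mem_centralizer_singleton_iff.2 rfl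
    by_cases e' : j = 17
    · rw [e']; exact mem_centralizer_singleton_iff.2 g2
    exact hA (gen_mem (by simp only [List.mem_cons, List.not_mem_nil, or_false] at hj ⊢; omega))
  have hA' : gen (al x g) [9, 10, 11, 12, 13, 14] ≤ gen (al x g) [8, 9, 10, 11, 12, 13, 14, 17] :=
    gen_mono (by decide)
  have st : ∀ y : centralizer ({t} : Set G), Commute (y : G) (x 8) → ∀ q : Fin 11, 8 ≤ (q : ℕ) →
      8 ≤ (π y q : ℕ) ∧ π y (cy 8 q) = cy 8 (π y q) := by
    intro y hy q hq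
    have c : π y * cy 8 = cy 8 * π y := by
      rw [← h2 8 (h.mem 8), ← map_mul, ← map_mul]; exact congrArg π (Subtype.ext hy)
    have c' : π y (cy 8 q) = cy 8 (π y q) := by rw [← Perm.mul_apply, c, Perm.mul_apply]
    have f : ∀ q : Fin 11, cy 8 q = q ↔ ¬ 8 ≤ (q : ℕ) := by decide +kernel
    refine ⟨?_, c'⟩
    by_contra hn
    rw [(f _).2 hn] at c'
    exact (f q).1 ((π y).injective c') hq
  refine le_antisymm (h.le_of g hM hA' (fun y hy c => ?_) ⟨g, gen_mem (j := 17) (by decide), g3⟩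
    fun j hj c j2 jt => ?_) hM
  · have y8 : Commute y (x 8) := mem_centralizer_singleton_iff.1 hy
    obtain ⟨d, hd, e⟩ := h.memA' g hπ (h3 g) ⟨y, mem_centralizer_singleton_iff.2 c⟩ fun q hq => (st _ y8 q hq).1
    have e1 : ew (al x g) d ∈ centralizer {x 8} := (mul_mem_cancel_right hy).1 (hA e)
    have e2 : ∀ d ∈ dL, (∀ c ∈ d, c / 2 ∈ [8, 9, 10, 11, 12, 13, 14, 17]) ∨ (pw (d ++ [16]) 8 ≠ pw (16 :: d) 8 ∧
        inC (d ++ [16]) = true ∧ inC (16 :: d) = true) := by decide +kernel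
    refine (mul_mem_cancel_left (gen_ew ((e2 d hd).resolve_right fun e3 => ?_))).1 (hA' e)
    refine h.ne g e3.2.1 e3.2.2 (by decide) e3.1 ?_
    rw [ew_append, ew_cons, ew_cons, e8, ew_nil, mul_one]
    exact mem_centralizer_singleton_iff.1 e1
  · have hj' : j ∈ centralizer ({t} : Set G) := mem_centralizer_singleton_iff.2 c
    obtain ⟨k, hk, e⟩ := h.conj_inv u3 u1.2 u1.1 u2 hj' j2.2 j2.1 jt
    have s := st ⟨j, hj'⟩ (mem_centralizer_singleton_iff.1 (hM hj))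
    have jj : ∀ q, π ⟨j, hj'⟩ (π ⟨j, hj'⟩ q) = q := fun q => by
      rw [← Perm.mul_apply, ← map_mul, show (⟨j, hj'⟩ * ⟨j, hj'⟩ : centralizer ({t} : Set G)) = 1 from
        Subtype.ext j2.2, map_one, Perm.one_apply]
    have fx : ∀ q : Fin 11, 8 ≤ (q : ℕ) → π ⟨j, hj'⟩ q = q := by
      intro q hq
      have f : ∀ q r : Fin 11, 8 ≤ (q : ℕ) → 8 ≤ (r : ℕ) → r = q ∨ (r = cy 8 q ∧ cy 8 r ≠ q) ∨
        (8 ≤ (cy 8 q : ℕ) ∧ r = cy 8 (cy 8 q) ∧ cy 8 (cy 8 r) ≠ q) := by decide +kernel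
      obtain e1 | ⟨e1, e2⟩ | ⟨e0, e1, e2⟩ := f q _ hq (s q hq).1
      · exact e1
      · exact (e2 (by rw [← (s q hq).2, ← e1, jj])).elim
      · exact (e2 (by rw [← (s q hq).2, ← (s _ e0).2, ← e1, jj])).elim
    obtain ⟨d, hd, e1⟩ := h.memA' g hπ (h3 g) (⟨k, hk⟩⁻¹) fun q hq => by
      have e2 : π ⟨_, u3⟩ * π (⟨k, hk⟩⁻¹) = π (⟨k, hk⟩⁻¹) * π ⟨j, hj'⟩ := by
        rw [← map_mul, ← map_mul]
        refine congrArg π (Subtype.ext ?_)
        show _ * k⁻¹ = k⁻¹ * j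
        rw [← e]; group
      have e3 := congrArg (fun σ : Perm (Fin 11) => (σ q : ℕ)) e2
      simp only [Perm.mul_apply, fx q hq] at e3
      rw [h3 g uW (by decide +kernel)] at e3
      have f : ∀ p < 8, pw uW p ≠ p := by decide +kernel
      by_contra hn
      exact f _ (by omega) e3
    refine ⟨_, inv_mem (hA' e1), ?_⟩
    show (_ * k⁻¹)⁻¹ * _ * (_ * k⁻¹)⁻¹⁻¹ = j
    rw [← e]
    calc _ = k * ((ew (al x g) d)⁻¹ * (ew (al x g) uW * ew (al x g) d)) * k⁻¹ := by group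
      _ = _ := by rw [← (u4 d hd).eq]; group

theorem norm_eq [Finite G] {g : G} {i : ℕ} (h : Cov t x) (hp : Pres (al x g) i) :
    normalizer (zpowers (x 8) : Set G) = gen (al x g) [8, 9, 10, 11, 12, 13, 14, 15, 17] := by
  have hc := cent_le h hp
  have e8 : Spor.lpG (al x g) 16 = x 8 := lpG_even _ 8
  have e8' : Spor.lpG (al x g) 17 = (x 8)⁻¹ := lpG_odd _ 8
  have e15 : Spor.lpG (al x g) 30 = al x g 15 := lpG_even _ 15
  have s1 := hp.1 ([30, 30], []) (by decide +kernel)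
  have s2 := hp.1 ([30, 16, 30], [17]) (by decide +kernel)
  simp only [Sat, ew_cons, e8, e8', e15, ew_nil, mul_one] at s1 s2
  have hw : al x g 15 ∈ gen (al x g) [8, 9, 10, 11, 12, 13, 14, 15, 17] := gen_mem (by decide)
  generalize hw' : al x g 15 = w at s1 s2 hw
  have wi : w⁻¹ = w := inv_eq_of_mul_eq_one_right s1
  have s3 : w * x 8 * w⁻¹ = (x 8)⁻¹ := by rw [wi, mul_assoc, s2]
  have hM : centralizer {x 8} ≤ gen (al x g) [8, 9, 10, 11, 12, 13, 14, 15, 17] := hc ▸ gen_mono (by decide)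
  have nm : ∀ y : G, y * x 8 * y⁻¹ ∈ zpowers (x 8) → y ∈ normalizer (zpowers (x 8) : Set G) := fun y hy =>
    mem_normalizer_fintype fun n ⟨k, hk⟩ => by
      rw [← hk]; show y * x 8 ^ k * y⁻¹ ∈ zpowers (x 8)
      rw [← conj_zpow]; exact zpow_mem hy k
  refine le_antisymm (fun n hn => ?_) ((closure_le _).2 ?_)
  · obtain ⟨k, hk⟩ := mem_powers_iff_mem_zpowers.2 ((mem_normalizer_iff.1 hn (x 8)).1 (mem_zpowers _))
    simp only at hk
    rw [pow_eq_pow_mod k (h.cube 8)] at hk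
    have : k % 3 < 3 := Nat.mod_lt _ (by norm_num)
    generalize k % 3 = m at hk this
    interval_cases m
    · have h1 : x 8 = 1 := by simpa using hk.symm
      exact hM (mem_centralizer_singleton_iff.2 (by simp [h1]))
    · exact hM (mem_centralizer_singleton_iff.2 (by rw [pow_one] at hk; exact mul_inv_eq_iff_eq_mul.1 hk.symm))
    · have h1 : x 8 ^ 2 = (x 8)⁻¹ := eq_inv_of_mul_eq_one_left (by rw [← pow_succ]; exact h.cube 8)
      refine (mul_mem_cancel_left hw).1 (hM (mem_centralizer_singleton_iff.2 ?_))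
      rw [← mul_inv_eq_iff_eq_mul]
      calc _ = w * (n * x 8 * n⁻¹) * w⁻¹ := by group
        _ = _ := by rw [← hk, h1, ← conj_inv, s3, inv_inv]
  · rintro _ ⟨j, hj, rfl⟩
    by_cases e : j = 15
    · rw [e, hw']; exact nm _ (s3 ▸ inv_mem (mem_zpowers _))
    have : al x g j ∈ centralizer {x 8} :=
      hc ▸ gen_mem (by simp only [List.mem_cons, List.not_mem_nil, or_false] at hj ⊢; omega)
    exact nm _ (by rw [mem_centralizer_singleton_iff.1 this, mul_inv_cancel_right]; exact mem_zpowers _)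

end Cfsg.Agent.Lib.Lyons
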