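import Cfsg.Agent.Lib.Lyons.Words
import Cfsg.Agent.Lib.Lyons.DC

/-! The alphabets of the two double coset enumerations. -/

set_option autoImplicit false

namespace Cfsg.Agent.Lib.Lyons

open Cfsg.Agent.PG Cfsg.Agent.Spor Subgroup

variable {Γ : Type*} [Group Γ]

/-- letters `16, …, 23` of the first enumeration: `a, b, σ b, y, w, w y, t, u` -/
def def1 : List (List ℕ) := [aW, bW, sbW, yW, [30], 30 :: yW, tW, uW]

/-- conjugation by `g` on them -/
def af1 : List ℕ := [32, 36, 34, 39, 42, 40, 46, 44]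

/-- alphabet of the first enumeration -/
noncomputable def l1 (α : ℕ → Γ) (j : ℕ) : Γ :=
  if 9 ≤ j ∧ j ≤ 15 then α j else if 16 ≤ j then ew α (def1.getD (j - 16) []) else 1

/-- an element of `⟨a i, g⟩` -/
def rhoW : List ℕ := [19,34,18,20,34,24,34,26,34,21]

/-- letters `18, …, 25` of the second enumeration: `s₂` (lift of `(0 5)(1 6)(2 7)(3 4)`), `x`,
`x' = (0 1 2)`, `c₁ = (9 10)(3 4)`, `c₂ = (1 2)(3 4)`, `(3 4 5)`, `x'' = (5 6 7)`, `r = [ρ, t]` -/
noncomputable def def2 : List (List ℕ) := [[18,22,24,27,24,29,18,21], [16], [18,20,19,23,20],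
  [30,22,25,28,27,22], [20,23,20,25,26,25], [24,26,25,29,26], [28], rhoW ++ tW ++ wi rhoW ++ tW]

/-- conjugation by `s` on the letters `19, …, 25` -/
def af2 : List ℕ := [40, 38, 44, 42, 47, 48, 50]

/-- the generators of `N(⟨x⟩)` -/
def JH : List ℕ := [8, 9, 10, 11, 12, 13, 14, 15, 17]

/-- alphabet of the second enumeration -/
noncomputable def l2 (α : ℕ → Γ) (j : ℕ) : Γ :=
  if j ∈ JH then α j else if 18 ≤ j then ew α (def2.getD (j - 18) []) else 1

/-- `r₂ = q r q⁻¹`, `q = c₁ c₂` -/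
def r2W : List ℕ := [42, 44, 50, 45, 43]

/-- `c₃`, lift of `(6 7)(3 4)` -/
def c3W : List ℕ := [24, 27, 24]

/-- `r ^ a * r₂ ^ b` -/
def rW (a b : ℕ) : List ℕ := wpow [50] a ++ wpow r2W b

/-- conjugate of a word -/
noncomputable def cjW (c l : List ℕ) : List ℕ := c ++ l ++ wi c

/-- commutator of words -/
noncomputable def cmW (a b : List ℕ) : List ℕ := a ++ b ++ wi a ++ wi b

/-- a conjugating word -/
def hW : List ℕ := [21,35,18,23,25]

/-- `h (g p₀) h⁻¹` -/
def k1W : List ℕ := [46,43,50,46,50,42,51]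

/-- `h y h⁻¹` -/
def k2W : List ℕ := [46,43,51,46,42]

/-- equations of `McL:2` (alphabet `l2`) -/
noncomputable def eqF : List Eqn :=
  [([50,50,50], []), ([50,40], [40,50]), ([50,48], [48,50]), (50 :: r2W, r2W ++ [50]),
   (cjW [42] [50], rW 2 1), (cjW [42] r2W, rW 1 1), (cjW [44] [50], rW 2 2), (cjW [44] r2W, rW 2 1),
   (cjW c3W [50], rW 0 2), (cjW c3W r2W, rW 1 0), (cjW [36] [50], rW 1 2), (cjW [36] r2W, rW 0 2),
   (cjW hW (34 :: p0W), k1W), (cjW hW yW, k2W),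
   (cmW (tw 19 af2 k1W) (tw 19 af2 k2W), [40, 40])]

/-- `r`, `r₂` are independent in `McL:2` -/
def neF : List (List ℕ) := [rW 0 1, rW 0 2, rW 1 0, rW 1 1, rW 1 2, rW 2 0, rW 2 1, rW 2 2]

/-- generators of `N(x) ∩ N(x') ∩ N(x'')` -/
def genF : List (List ℕ) := [[38], [40], [48], [42], [44], c3W, [50]]

end Cfsg.Agent.Lib.Lyons
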