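import Cfsg.Agent.Lib.Lyons.Mod
import Cfsg.Agent.Lib.Lyons.W2
import Cfsg.Agent.Lib.Lyons.S1
import Cfsg.Agent.Lib.Lyons.Carm2

/-! General lemmas on the presentation and on the enumeration in a model. -/

set_option autoImplicit false
set_option maxRecDepth 100000

namespace Cfsg.Agent.Lib.Lyons

open Cfsg.Agent.PG Cfsg.Agent.Spor Subgroup Equiv

variable {Γ Δ : Type*} [Group Γ] [Group Δ]

theorem hom_of_le {S : Type*} [Group S] {δ : ℕ → S} (hδ : closure (Set.range δ) = ⊤) {γ : ℕ → Γ}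
    {D : Subgroup (S × Γ)} [Finite D] (hD : ∀ j, (δ j, γ j) ∈ D) (hc : Nat.card D ≤ Nat.card S) :
    ∃ φ : S →* Γ, ∀ j, φ (δ j) = γ j := by
  have hle : closure (Set.range fun j => (δ j, γ j)) ≤ D := (closure_le _).2 (by rintro _ ⟨j, rfl⟩; exact hD j)
  exact hom_of_bound hδ (finite_of_le hle) ((card_le_of_le hle).trans hc)

/-- the derived relators, one after the other -/
noncomputable def lemB (ok : List ℕ → List ℕ → Bool) (t : ℕ) (af : List ℕ) (rels : List (List (List ℕ)))
    (b : ℕ) (lems : List (List ℕ)) : Bool :=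
  andB (Nat.beq rels.length (Nat.add b lems.length)) <| allN lems.length fun k =>
    relB ok t af (rels.take (Nat.add b k)) (nthD [] rels (Nat.add b k)) (nthD [] lems k)

theorem rels_all {γ : ℕ → Γ} {s : Γ} {ok : List ℕ → List ℕ → Bool} {t : ℕ} {af : List ℕ} (h : Tw γ s ok t af)
    {rels : List (List (List ℕ))} {b : ℕ} {lems : List (List ℕ)} (hb : ∀ R ∈ rels.take b, pt γ s R = 1)
    (hc : lemB ok t af rels b lems = true) : ∀ R ∈ rels, pt γ s R = 1 := by
  unfold lemB at hc
  rw [andB_eq, Bool.and_eq_true] at hc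
  have hl : rels.length = b + lems.length := Nat.eq_of_beq_eq_true hc.1
  have key : ∀ k ≤ lems.length, ∀ R ∈ rels.take (b + k), pt γ s R = 1 := by
    intro k
    induction k with
    | zero => exact fun _ => hb
    | succ k ih =>
      intro hk R hR
      have h1 := relB_spec h (ih (by omega)) (allN_spec hc.2 k hk)
      rw [← add_assoc, List.take_succ_eq_append_getElem (by omega), List.mem_append, List.mem_singleton] at hR
      rcases hR with hR | hR
      · exact ih (by omega) R hR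
      · rw [nthD_eq, List.getD_eq_getElem _ _ (show Nat.add b k < rels.length by show b + k < _; omega)] at h1
        rw [hR]; exact h1
  have := key _ le_rfl
  rwa [← hl, List.take_length] at this

theorem card_ext {M : Subgroup Γ} [Finite M] {w : Γ} (hw : w * w = 1) (hn : ∀ m ∈ M, w * m * w ∈ M) :
    Finite ↥(M ⊔ zpowers w) ∧ Nat.card ↥(M ⊔ zpowers w) ≤ 2 * Nat.card M := by
  have hi : w⁻¹ = w := inv_eq_of_mul_eq_one_right hw
  let Y : Subgroup Γ :=
    { carrier := {y | y ∈ M ∨ y * w ∈ M}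
      one_mem' := Or.inl M.one_mem
      mul_mem' := by
        rintro a b (ha | ha) (hb | hb)
        · exact Or.inl (mul_mem ha hb)
        · exact Or.inr (by rw [mul_assoc]; exact mul_mem ha hb)
        · refine Or.inr ?_
          have := mul_mem ha (hn _ hb)
          rwa [show a * w * (w * b * w) = a * (w * w) * b * w by group, hw, mul_one] at this
        · refine Or.inl ?_
          have := mul_mem ha (hn _ hb)
          rwa [show a * w * (w * (b * w) * w) = a * (w * w) * b * (w * w) by group, hw, mul_one, mul_one] at this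
      inv_mem' := by
        rintro a (ha | ha)
        · exact Or.inl (inv_mem ha)
        · refine Or.inr ?_
          have := hn _ (inv_mem ha)
          rwa [mul_inv_rev, hi, ← mul_assoc, hw, one_mul] at this }
  have hY : M ⊔ zpowers w ≤ Y := sup_le (fun y hy => Or.inl hy) (zpowers_le.2 (Or.inr (hw ▸ M.one_mem)))
  let f : M ⊕ M → Y := Sum.elim (fun m => ⟨m, Or.inl m.2⟩)
    (fun m => ⟨m * w, Or.inr (by rw [mul_assoc, hw, mul_one]; exact m.2)⟩)
  have hf : Function.Surjective f := by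
    rintro ⟨y, hy | hy⟩
    · exact ⟨.inl ⟨y, hy⟩, rfl⟩
    · exact ⟨.inr ⟨_, hy⟩, Subtype.ext (show y * w * w = y by rw [mul_assoc, hw, mul_one])⟩
  have : Finite Y := Finite.of_surjective f hf
  refine ⟨finite_of_le hY, (card_le_of_le hY).trans ?_⟩
  have := Nat.card_le_card_of_surjective f hf
  rwa [Nat.card_sum, ← two_mul] at this

theorem lp0 (α : ℕ → Γ) (c : ℕ) (h : c % 2 = 0) : Spor.lpG α c = α (c / 2) := by
  unfold Spor.lpG; rw [if_neg (by omega)]

theorem lp1 (α : ℕ → Γ) (c : ℕ) (h : c % 2 = 1) : Spor.lpG α c = (α (c / 2))⁻¹ := by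
  unfold Spor.lpG; rw [if_pos h]

theorem ew_one (α : ℕ → Γ) (j : ℕ) : ew α [2 * j] = α j := by rw [ew_cons, lpG_even, ew_nil, mul_one]

theorem map_gen (f : Γ →* Δ) (α : ℕ → Γ) (J : List ℕ) : (gen α J).map f = gen (fun j => f (α j)) J := by
  unfold gen
  rw [MonoidHom.map_closure]
  congr 1
  ext y
  constructor
  · rintro ⟨_, ⟨j, hj, rfl⟩, rfl⟩; exact ⟨j, hj, rfl⟩
  · rintro ⟨j, hj, rfl⟩; exact ⟨_, ⟨j, hj, rfl⟩, rfl⟩

theorem gen_le {α : ℕ → Γ} {J : List ℕ} {Q : Subgroup Γ} (h : ∀ j ∈ J, α j ∈ Q) : gen α J ≤ Q :=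
  (closure_le _).2 (by rintro _ ⟨j, hj, rfl⟩; exact h j hj)

/-- the letters of `2·S₈` -/
def JN : List ℕ := [9, 10, 11, 12, 13, 14, 15]

theorem card_N {α : ℕ → Γ} (h : ∀ c ∈ relN, Sat α c) : Finite (gen α JN) ∧ Nat.card (gen α JN) ≤ 80640 := by
  have e : ∀ i : Fin 6, Spor.lpG α (2 * (9 + i)) = α (9 + i) := fun i => lpG_even _ _
  obtain ⟨f1, f2⟩ := carm_fin (fun i : Fin 6 => α (9 + i)) (ew α tW)
    (by rw [← ew_append]; exact h (tW ++ tW, []) (by decide +kernel))
    (fun i => by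
      have := h (tW ++ [2 * (9 + (i : ℕ))], 2 * (9 + (i : ℕ)) :: tW) (by revert i; decide +kernel)
      unfold Sat at this
      rwa [ew_append, ew_one, ew_cons, e] at this)
    (fun i => by
      have := h ([2 * (9 + i), 2 * (9 + i), 2 * (9 + i)], []) (by revert i; decide +kernel)
      simp only [Sat, ew_cons, e, ew_nil, mul_one] at this
      rw [pow_three]; exact this)
    (fun i j hij => by
      have := h ([2 * (9 + i), 2 * (9 + j), 2 * (9 + i), 2 * (9 + j)], tW) (by revert i j; decide +kernel)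
      unfold Sat at this
      rw [← this]
      simp only [ew_cons, e, ew_nil, mul_one, pow_two, mul_assoc])
  set M := closure (insert (ew α tW) (Set.range fun i : Fin 6 => α (9 + i))) with hM
  have m1 : ∀ j, 9 ≤ j → j < 15 → α j ∈ M := fun j h1 h2 =>
    subset_closure (Or.inr ⟨⟨j - 9, by omega⟩, by show α (9 + (j - 9)) = α j; congr 1; omega⟩)
  have e30 : Spor.lpG α 30 = α 15 := lpG_even _ 15
  have w2 : α 15 * α 15 = 1 := by
    have := h ([30, 30], []) (by decide +kernel)
    simpa only [Sat, ew_cons, e30, ew_nil, mul_one] using this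
  have wi' : (α 15)⁻¹ = α 15 := inv_eq_of_mul_eq_one_right w2
  have cj : ∀ i : Fin 6, α 15 * α (9 + i) * α 15 ∈ M := fun i => by
    obtain ⟨d, d1, d2, d3⟩ : ∃ d ∈ [19, 21, 27, 29, 23, 25], (9 ≤ d / 2 ∧ d / 2 < 15) ∧
      (([30, 2 * (9 + (i : ℕ)), 30], [d]) : Eqn) ∈ relN := by revert i; decide +kernel
    have := h _ d3
    simp only [Sat, ew_cons, e30, e, ew_nil, mul_one] at this
    rw [mul_assoc, this]
    have := ew_mem (γ := α) (Q := M) (l := [d]) fun c hc => by
      rw [List.mem_singleton.1 hc]; exact m1 _ d2.1 d2.2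
    rwa [ew_cons, ew_nil, mul_one] at this
  have hn : M ≤ M.comap (MulAut.conj (α 15)).toMonoidHom := by
    have k : ∀ j, 9 ≤ j → j < 15 → α j ∈ M.comap (MulAut.conj (α 15)).toMonoidHom := fun j h1 h2 => by
      have := cj ⟨j - 9, by omega⟩
      rw [show 9 + ((⟨j - 9, by omega⟩ : Fin 6) : ℕ) = j by show 9 + (j - 9) = j; omega] at this
      show α 15 * α j * (α 15)⁻¹ ∈ M
      rwa [wi']
    rw [hM, closure_le]
    rintro _ (rfl | ⟨i, rfl⟩)
    · exact ew_mem fun c hc => k _ (by revert c; decide) (by revert c; decide)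
    · exact k _ (by omega) (by omega)
  obtain ⟨g1, g2⟩ := card_ext (M := M) w2 fun m hm => by
    have : α 15 * m * (α 15)⁻¹ ∈ M := hn hm
    rwa [wi'] at this
  have hle : gen α JN ≤ M ⊔ zpowers (α 15) := gen_le fun j hj => by
    by_cases e : j = 15
    · rw [e]; exact mem_sup_right (mem_zpowers _)
    · exact mem_sup_left (m1 j (by revert j; decide) (by revert j; decide))
  refine ⟨finite_of_le hle, (card_le_of_le hle).trans (g2.trans ?_)⟩
  have : (6 + 2).factorial = 40320 := by decide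
  omega

theorem Pres.map {α : ℕ → Γ} {i : ℕ} (h : Pres α i) (f : Γ →* Δ) : Pres (fun j => f (α j)) i :=
  ⟨fun c hc => (h.1 c hc).map f, fun c hc => (h.2 c hc).map f⟩

theorem Pres.prod {α : ℕ → Γ} {β : ℕ → Δ} {i : ℕ} (h : Pres α i) (h' : Pres β i) :
    Pres (fun j => (α j, β j)) i :=
  ⟨fun c hc => (h.1 c hc).prod (h'.1 c hc), fun c hc => (h.2 c hc).prod (h'.2 c hc)⟩

theorem Pres.zero {α : ℕ → Γ} {i : ℕ} (h : Pres α i) (h8 : α 8 = 1) (k : ℕ) : Pres α k := by
  have e : ∀ n, ew α (wpow [16] n) = 1 := fun n => by rw [ew_wpow, ew_one α 8, h8, one_pow]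
  refine ⟨h.1, fun c hc => ?_⟩
  have h2 := h.2
  simp only [relG, List.forall_mem_cons] at h2
  obtain ⟨a0, a1, a2, a3, a4, a5, a6, a7, a8, a9, a10, -⟩ := h2
  simp only [relG, List.mem_cons, List.not_mem_nil, or_false] at hc
  rcases hc with rfl | rfl | rfl | rfl | rfl | rfl | rfl | rfl | rfl | rfl | rfl <;> try assumption
  · unfold Sat at a4 ⊢
    rw [a4, ew_append, ew_append, e, e]
  · unfold Sat at a5 ⊢
    rw [a5, ew_append, ew_append, e, e]

/-- the letters as members of the subgroup they generate -/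
noncomputable def res (α : ℕ → Γ) (J : List ℕ) (j : ℕ) : gen α J := if h : j ∈ J then ⟨α j, gen_mem h⟩ else 1

theorem res_val {α : ℕ → Γ} {J : List ℕ} {j : ℕ} (h : j ∈ J) : (res α J j : Γ) = α j := by
  unfold res; rw [dif_pos h]

theorem ew_res {α : ℕ → Γ} {J l : List ℕ} (h : ∀ c ∈ l, c / 2 ∈ J) : ((ew (res α J) l : gen α J) : Γ) = ew α l :=
  (map_ew (gen α J).subtype _ l).trans (ew_congr fun c hc => res_val (h c hc))

theorem res_top (α : ℕ → Γ) (J : List ℕ) : gen (res α J) J = ⊤ := by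
  apply map_injective (gen α J).subtype_injective
  rw [map_gen, ← MonoidHom.range_eq_map, range_subtype]
  exact le_antisymm (gen_le fun j _ => (res α J j).2) (gen_le fun j hj => by
    rw [← res_val (α := α) hj]; exact gen_mem (α := fun j => ((res α J j : gen α J) : Γ)) hj)

theorem Pres.res {α : ℕ → Γ} {i : ℕ} (h : Pres α i) (hi : i < 3) : Pres (res α JH) i := by
  have k : ∀ c : Eqn, (∀ d ∈ c.1, d / 2 ∈ JH) ∧ (∀ d ∈ c.2, d / 2 ∈ JH) → Sat α c → Sat (Lyons.res α JH) c :=
    fun c h1 h2 => Subtype.ext (by rw [ew_res h1.1, ew_res h1.2]; exact h2)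
  exact ⟨fun c hc => k c (by revert c; decide +kernel) (h.1 c hc),
    fun c hc => k c (by clear h k; revert c i; decide +kernel) (h.2 c hc)⟩

/-- elements that centralise or invert `x` -/
def pm (x : Γ) : Subgroup Γ where
  carrier := {g | g * x * g⁻¹ = x ∨ g * x * g⁻¹ = x⁻¹}
  one_mem' := Or.inl (by simp)
  mul_mem' := by
    intro a b ha hb
    have e : a * b * x * (a * b)⁻¹ = a * (b * x * b⁻¹) * a⁻¹ := by group
    have e' : a * x⁻¹ * a⁻¹ = (a * x * a⁻¹)⁻¹ := by group
    show _ ∨ _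
    rw [e]
    rcases hb with hb | hb <;> rw [hb]
    · exact ha
    · rw [e', inv_eq_iff_eq_inv, inv_inj]; exact Or.symm ha
  inv_mem' := by
    rintro a (ha | ha)
    · exact Or.inl (by conv_lhs => rw [← ha]
                       group)
    · refine Or.inr ?_
      have : x = (a * x * a⁻¹)⁻¹ := by rw [ha, inv_inv]
      conv_lhs => rw [this]
      group

theorem normal_of_pm {x : Γ} (h : pm x = ⊤) : (zpowers x).Normal := ⟨by
  rintro _ ⟨k, rfl⟩ g
  have : g ∈ pm x := h ▸ mem_top g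
  show g * x ^ k * g⁻¹ ∈ _
  rw [← conj_zpow]
  rcases this with e | e <;> rw [e]
  · exact zpow_mem (mem_zpowers x) k
  · exact zpow_mem (inv_mem (mem_zpowers x)) k⟩

theorem Pres.pm {α : ℕ → Γ} {i : ℕ} (h : Pres α i) : gen α JH ≤ pm (α 8) := gen_le fun j hj => by
  have e16 : Spor.lpG α 16 = α 8 := lpG_even _ 8
  have e17 : Spor.lpG α 17 = (α 8)⁻¹ := lpG_odd _ 8
  have e30 : Spor.lpG α 30 = α 15 := lpG_even _ 15
  have e34 : Spor.lpG α 34 = α 17 := lpG_even _ 17
  by_cases a : j = 8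
  · rw [a]; exact Or.inl (by group)
  by_cases b : j = 15
  · have s1 := h.1 ([30, 30], []) (by decide +kernel)
    have s2 := h.1 ([30, 16, 30], [17]) (by decide +kernel)
    simp only [Sat, ew_cons, e30, e16, e17, ew_nil, mul_one] at s1 s2
    rw [b]
    exact Or.inr (by rw [inv_eq_of_mul_eq_one_right s1, mul_assoc, s2])
  by_cases c : j = 17
  · have s1 := h.2 ([34, 34], []) (by simp [relG])
    have s2 := h.2 ([34, 16, 34], [16]) (by simp [relG])
    simp only [Sat, ew_cons, e34, e16, ew_nil, mul_one] at s1 s2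
    rw [c]
    exact Or.inl (by rw [inv_eq_of_mul_eq_one_right s1, mul_assoc, s2])
  · have s := h.1 ([16, 2 * j], [2 * j, 16]) (by revert j; decide +kernel)
    simp only [Sat, ew_cons, e16, lpG_even, ew_nil, mul_one] at s
    exact Or.inl (by rw [← s]; group)

theorem Pres.cube {α : ℕ → Γ} {i : ℕ} (h : Pres α i) : α 8 ^ 3 = 1 := by
  have e16 : Spor.lpG α 16 = α 8 := lpG_even _ 8
  have s := h.1 ([16, 16, 16], []) (by decide +kernel)
  simp only [Sat, ew_cons, e16, ew_nil, mul_one] at s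
  rw [pow_three]; exact s

theorem map_l1 (f : Γ →* Δ) (α : ℕ → Γ) (j : ℕ) : f (l1 α j) = l1 (fun j => f (α j)) j := by
  unfold l1; split_ifs
  · rfl
  · exact map_ew _ _ _
  · exact map_one f

theorem map_l2 (f : Γ →* Δ) (α : ℕ → Γ) (j : ℕ) : f (l2 α j) = l2 (fun j => f (α j)) j := by
  unfold l2; split_ifs
  · rfl
  · exact map_ew _ _ _
  · exact map_one f

theorem l1_prod (α : ℕ → Γ) (β : ℕ → Δ) (j : ℕ) : l1 (fun j => (α j, β j)) j = (l1 α j, l1 β j) :=
  Prod.ext (map_l1 (MonoidHom.fst Γ Δ) _ j) (map_l1 (MonoidHom.snd Γ Δ) _ j)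

theorem l2_prod (α : ℕ → Γ) (β : ℕ → Δ) (j : ℕ) : l2 (fun j => (α j, β j)) j = (l2 α j, l2 β j) :=
  Prod.ext (map_l2 (MonoidHom.fst Γ Δ) _ j) (map_l2 (MonoidHom.snd Γ Δ) _ j)

theorem getD_all {L : List (List ℕ)} {p : ℕ → Prop} (h : ∀ l ∈ L, ∀ c ∈ l, p c) (k : ℕ) : ∀ c ∈ L.getD k [], p c := by
  rw [← nthD_eq]
  rcases nthD_mem_or [] L k with e | e
  · rw [e]; intro c hc; cases hc
  · exact h _ e

theorem l1_mem (α : ℕ → Γ) (j : ℕ) : l1 α j ∈ gen α JN := by
  unfold l1; split_ifs with a b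
  · exact gen_mem (by obtain ⟨a1, a2⟩ := a; interval_cases j <;> decide)
  · exact gen_ew (getD_all (p := fun c => c / 2 ∈ JN) (by decide +kernel) _)
  · exact one_mem _

theorem l2_mem (α : ℕ → Γ) (j : ℕ) : l2 α j ∈ gen α JH := by
  unfold l2; split_ifs with a b
  · exact gen_mem a
  · exact gen_ew (getD_all (p := fun c => c / 2 ∈ JH) (by decide +kernel) _)
  · exact one_mem _

theorem l1_N (α : ℕ → Γ) {j : ℕ} (h : j ∈ JN) : l1 α j = α j := if_pos (by revert j; decide)

theorem l2_H (α : ℕ → Γ) {j : ℕ} (h : j ∈ JH) : l2 α j = α j := if_pos h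

theorem l2_res (α : ℕ → Γ) (j : ℕ) : ((l2 (res α JH) j : gen α JH) : Γ) = l2 α j := by
  unfold l2; split_ifs with a b
  · exact res_val a
  · exact ew_res (getD_all (p := fun c => c / 2 ∈ JH) (by decide +kernel) _)
  · rfl

/-- equations that say `l1 δ = δ` -/
def fx1 : List Eqn := (List.range 9).map (fun j => ([2 * j], [])) ++
  (List.range 8).map (fun j => ([2 * (16 + j)], def1.getD j []))

theorem l1_fix {α : ℕ → Γ} (h : ∀ c ∈ fx1, Sat α c) (h' : ∀ j, 24 ≤ j → α j = 1) (j : ℕ) : l1 α j = α j := by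
  unfold l1; split_ifs with a b
  · rfl
  · by_cases c : 24 ≤ j
    · rw [h' j c, List.getD_eq_default _ _ (show def1.length ≤ j - 16 by show 8 ≤ _; omega), ew_nil]
    · have := h ([2 * (16 + (j - 16))], def1.getD (j - 16) []) (List.mem_append_right _
        (List.mem_map.2 ⟨j - 16, List.mem_range.2 (by omega), rfl⟩))
      unfold Sat at this
      rw [← this, ew_one]; congr 1; omega
  · have := h ([2 * j], []) (List.mem_append_left _ (List.mem_map.2 ⟨j, List.mem_range.2 (by omega), rfl⟩))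
    unfold Sat at this
    rw [ew_one] at this; exact this.symm

/-- equations that say `l2 δ = δ` -/
noncomputable def fx2 : List Eqn := [0, 1, 2, 3, 4, 5, 6, 7, 16].map (fun j => ([2 * j], [])) ++
  (List.range 8).map (fun j => ([2 * (18 + j)], def2.getD j []))

theorem l2_fix {α : ℕ → Γ} (h : ∀ c ∈ fx2, Sat α c) (h' : ∀ j, 26 ≤ j → α j = 1) (j : ℕ) : l2 α j = α j := by
  unfold l2; split_ifs with a b
  · rfl
  · by_cases c : 26 ≤ j
    · rw [h' j c, List.getD_eq_default _ _ (show def2.length ≤ j - 18 by show 8 ≤ _; omega), ew_nil]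
    · have := h ([2 * (18 + (j - 18))], def2.getD (j - 18) []) (List.mem_append_right _
        (List.mem_map.2 ⟨j - 18, List.mem_range.2 (by omega), rfl⟩))
      unfold Sat at this
      rw [← this, ew_one]; congr 1; omega
  · have := h ([2 * j], []) (List.mem_append_left _ (List.mem_map.2 ⟨j, by
      have : j < 18 := by omega
      revert a; interval_cases j <;> decide, rfl⟩))
    unfold Sat at this
    rw [ew_one] at this; exact this.symm

theorem top_of_fix {α : ℕ → Γ} (h : closure (Set.range α) = ⊤) {Q : Subgroup Γ} (h' : ∀ j, α j ∈ Q) : Q = ⊤ :=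
  eq_top_iff.2 (h ▸ (closure_le _).2 (by rintro _ ⟨j, rfl⟩; exact h' j))

theorem card_of_top {Q : Subgroup Γ} (h : Q = ⊤) : Nat.card Γ = Nat.card Q := by rw [h, card_top]

/-- facts on a model -/
structure MF (A : List Net) (P : Par) (L : Lets) (t : ℕ) (af B zw : List ℕ) (k r m : ℕ) : Prop where
  cS : Nat.card (MS A P L) = m * k
  cK : Nat.card (K A 0) = m
  ker : (mρ A P L).ker = zpowers (ew (md A P L) zw)
  ord : orderOf (ew (md A P L) zw) = k
  fix : FixTriv (K A 0) {β | β ∈ B}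
  ok : ∀ a b, okM' A P L B r a b = true → ew (md A P L) a = ew (md A P L) b
  hK : ∀ σ, mρ A P L σ 0 = 0 → σ ∈ closure {y | ∃ j < af.length, md A P L (t + j) = y}

theorem mf_of {lg : ℕ} {A : List Net} {P : Par} {L : Lets} (hA : okA (2 ^ lg) A = true) (hL : Good P L)
    {t l k r0 s : ℕ} {r : Fin P.n} {af zw ss : List ℕ} {ws0 ws1 : List (List ℕ)} {lv0 lv1 : List (ℕ × ℕ × ℕ × ℕ)}
    (hS : Nat.card (MS A P L) ≤ lvProd lv0 * k) (k0 : 0 < k)
    (c1 : allL ws0 sm = true) (c2 : lbQ A l (ws0.map toP) lv0 [] = true)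
    (c3 : permB A lg [(zw, [])] = true) (c4 : rowB P L 0 P.n [(wpow zw k, [])] = true)
    (c5 : rowsN P L r ss zw k = true) (c6 : orbCardB A l 0 0 r0 s = true) (c7 : allL ws1 sm = true)
    (c8 : allL ws1 (inK t af) = true) (c9 : lbQ A l (ws1.map toP) lv1 [0] = true) (c10 : inK t af zw = true)
    (c11 : lvProd lv0 = s * lvProd lv1) : MF A P L t af (lv0.map Prod.fst) zw k r (lvProd lv0) := by
  have := MS_finite hA hL
  have z1 : ew (gp A) zw = 1 := permB_spec hA c3 _ List.mem_cons_self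
  have z2 : mρ A P L (ew (md A P L) zw) = 1 := (hom_ew (mρ_md A P L) zw).trans z1
  have z3 : ew (md A P L) zw ^ k = 1 := by
    refine MS_ext (by rw [map_pow, z2, one_pow, map_one]) ?_
    rw [← ew_wpow, hom_ew (mμ_md A P L), map_one]
    exact matB_spec hL c4 _ List.mem_cons_self
  have z4 := orderOf_rowsN hL (mμ_md A P L) c5 k0 z3
  obtain ⟨b1, b2, b3⟩ := ker_eq (md_top A P L) (mρ_md A P L) hS (lb_K hA c1 c2) z2 z4
  have b4 := fixTriv_K hA c1 c2 b2
  exact ⟨b1, b2, b3, z4, b4, okM_word hA hL (mρ_md A P L) (mμ_md A P L) b4 b3 k0 z3 c5,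
    stab_closure (md_top A P L) hA (mρ_md A P L) c6 c7 c8 c9 (b2.trans c11) b3 c10⟩

/-- all scripts of a double coset -/
noncomputable def repB (A : List Net) (P : Par) (L : Lets) (t : ℕ) (af B : List ℕ) (r O : ℕ)
    (rels : List (List (List ℕ))) (ds : List (List (List ℕ))) (R : DRep) : Bool :=
  andB (orbB A 0 O R) <| withOk A P L B r fun ok =>
    andB (allL R.ms (stB ok t af rels R.d)) (allL R.ks (cvB ok t af rels ds R.d))

theorem MF.dc {lg : ℕ} {A : List Net} {P : Par} {L : Lets} (hA : okA (2 ^ lg) A = true) (hL : Good P L)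
    (hl : A.length ≤ 128) {t k r m : ℕ} {af B zw : List ℕ} (h : MF A P L t af B zw k r m)
    (φ : MS A P L →* Γ) {γ : ℕ → Γ} (hφ : ∀ j, φ (md A P L j) = γ j) {s : Γ} (ss : s * s = 1)
    (htw : ∀ j < af.length, s * γ (t + j) * s = Spor.lpG γ (af.getD j 0))
    {rels : List (List (List ℕ))} {b : ℕ} (hb : ∀ R ∈ rels.take b, pt γ s R = 1) {lems : List (List ℕ)}
    (c1 : (withOk A P L B r fun ok => lemB ok t af rels b lems) = true) {O : ℕ} (c2 : closedB A 0 0 O = true)
    {reps : List DRep} (c3 : [] ∈ reps.map DRep.d)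
    (c4 : ∀ R ∈ reps, repB A P L t af B r O rels (reps.map DRep.d) R = true)
    {lvs : List (List (ℕ × ℕ × ℕ × ℕ) × Bool)} (c5 : lvs.length = reps.length) {l : ℕ}
    (c6 : ∀ q ∈ reps.zip lvs, lbD A l zw q.1 q.2 = true) :
    Finite ↥(φ.range ⊔ zpowers s) ∧
      Nat.card ↥(φ.range ⊔ zpowers s) ≤ ((lvs.map (lbN k)).map fun n => m * k / n).sum * (m * k) := by
  have := MS_finite hA hL
  obtain rfl : γ = fun j => φ (md A P L j) := funext fun j => (hφ j).symm
  have T : Tw (fun j => φ (md A P L j)) s (okM' A P L B r) t af := ⟨ss, htw, ok_map φ h.ok⟩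
  rw [withOk_eq] at c1
  have c4' : ∀ R ∈ reps, orbB A 0 O R = true ∧ allL R.ms (stB (okM' A P L B r) t af rels R.d) = true ∧
      allL R.ks (cvB (okM' A P L B r) t af rels (reps.map DRep.d) R.d) = true := fun R hR => by
    have := c4 R hR
    unfold repB at this
    rwa [withOk_eq, andB_eq, andB_eq, Bool.and_eq_true, Bool.and_eq_true] at this
  have z : mρ A P L (ew (md A P L) zw) = 1 := by
    rw [← MonoidHom.mem_ker, h.ker]; exact mem_zpowers _
  have := dc_card (md_top A P L) hA hl (mρ_md A P L) φ T c2 h.hK (rels_all T hb c1) c3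
    (fun R hR => (c4' R hR).1) (fun R hR => allL_spec (c4' R hR).2.1) (fun R hR => allL_spec (c4' R hR).2.2)
    (ns := lvs.map (lbN k)) (by rw [List.length_map, c5]) (h4_of hA (mρ_md A P L) z h.ord c6)
  rwa [h.cS] at this

end Cfsg.Agent.Lib.Lyons
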