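import Cfsg.Agent.Lib.Lyons.L2
import Cfsg.Agent.Lib.Lyons.FI
import Cfsg.Agent.Lib.Lyons.B
import Cfsg.Agent.S0454

/-! A simple group with an involution centraliser `2·A₁₁` is the Lyons group. -/

set_option autoImplicit false

namespace Cfsg.Agent.Lib.Lyons

open Cfsg.Agent.PG Cfsg.Agent.Spor Subgroup Equiv

variable {G H : Type*} [Group G] [Group H]

/-- generators that satisfy the presentation -/
structure Dat (α : ℕ → G) (s : G) : Prop where
  pres : Pres α 1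
  ss : s * s = 1
  tw : ∀ j < af2.length, s * l2 α (19 + j) * s = Spor.lpG (l2 α) (af2.getD j 0)
  rel : pt (l2 α) s [[36], [36], [36]] = 1

theorem exists_dat [Finite G] [IsSimpleGroup G] {t : G} (ht : orderOf t = 2)
    (hC : Cfsg.IsNonsplitDoubleCover (centralizer ({t} : Set G)) (alternatingGroup (Fin 11))) :
    ∃ (α : ℕ → G) (s : G), Dat α s ∧ gen α JH ⊔ zpowers s = ⊤ := by
  obtain ⟨x0, h0⟩ := exists_cov ht hC
  obtain ⟨x, g, i, h, hi, hp⟩ := exists_pres h0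
  obtain ⟨rfl, h1, h2, h3⟩ := twist' h hp hi
  refine ⟨al x g, al x g 16, ⟨hp, h1, h2, h3⟩, eq_top_iff.2 (top_eq h hp ▸ gen_le fun j hj => ?_)⟩
  by_cases e : j = 16
  · rw [e]; exact mem_sup_right (mem_zpowers _)
  · exact mem_sup_left (gen_mem (by revert j; decide))

theorem map_pt (f : G →* H) (γ : ℕ → G) (s : G) (L : List (List ℕ)) :
    f (pt γ s L) = pt (fun j => f (γ j)) (f s) L := by
  induction L with
  | nil => exact map_one f
  | cons a L ih => rw [pt_cons, pt_cons, map_mul, map_mul, ih, map_ew]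

theorem Dat.prod {α : ℕ → G} {s : G} {β : ℕ → H} {s' : H} (h : Dat α s) (h' : Dat β s') :
    Dat (fun j => (α j, β j)) (s, s') := by
  have e : l2 (fun j => (α j, β j)) = fun j => (l2 α j, l2 β j) := funext (l2_prod α β)
  refine ⟨h.pres.prod h'.pres, Prod.ext h.ss h'.ss, fun j hj => ?_, ?_⟩ <;> rw [e]
  · exact Prod.ext ((h.tw j hj).trans (map_lpG (MonoidHom.fst G H) (fun j => (l2 α j, l2 β j)) _).symm)
      ((h'.tw j hj).trans (map_lpG (MonoidHom.snd G H) (fun j => (l2 α j, l2 β j)) _).symm)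
  · exact Prod.ext ((map_pt (MonoidHom.fst G H) (fun j => (l2 α j, l2 β j)) (s, s') _).trans h.rel)
      ((map_pt (MonoidHom.snd G H) (fun j => (l2 α j, l2 β j)) (s, s') _).trans h'.rel)

theorem iso_of [IsSimpleGroup H] [Nontrivial G] (hc : Nat.card H = 51765179004000000) {α : ℕ → H} {s : H}
    (h : Dat α s) (ht : gen α JH ⊔ zpowers s = ⊤) {β : ℕ → G} {s' : G} (h' : Dat β s')
    (ht' : gen β JH ⊔ zpowers s' = ⊤) : Nonempty (H ≃* G) := by
  have d := h.prod h'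
  obtain ⟨f1, f2⟩ := card_ly d.pres d.ss d.tw d.rel
  obtain ⟨φ, hφ⟩ := hom_of_le (δ := fun j => if j ∈ JH then α j else s) (γ := fun j => if j ∈ JH then β j else s')
    (eq_top_iff.2 (ht ▸ sup_le (gen_le fun j hj => subset_closure ⟨j, if_pos hj⟩)
      (zpowers_le.2 (subset_closure ⟨16, rfl⟩))))
    (D := gen (fun j => (α j, β j)) JH ⊔ zpowers (s, s')) (fun j => by
      by_cases hj : j ∈ JH
      · simp only [if_pos hj]; exact mem_sup_left (gen_mem (α := fun j => (α j, β j)) hj)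
      · simp only [if_neg hj]; exact mem_sup_right (mem_zpowers _)) (hc ▸ f2)
  have hs : φ.range = ⊤ := eq_top_iff.2 (ht' ▸ sup_le (gen_le fun j hj => ⟨_, (hφ j).trans (if_pos hj)⟩)
    (zpowers_le.2 ⟨_, hφ 16⟩))
  rcases φ.normal_ker.eq_bot_or_eq_top with e | e
  · exact ⟨MulEquiv.ofBijective φ ⟨(MonoidHom.ker_eq_bot_iff φ).1 e, MonoidHom.range_eq_top.1 hs⟩⟩
  · obtain ⟨y, hy⟩ := exists_ne (1 : G)
    obtain ⟨z, rfl⟩ := MonoidHom.range_eq_top.1 hs y
    exact absurd (MonoidHom.mem_ker.1 (e ▸ mem_top z)) hy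

theorem exists_ly : ∃ L : Subgroup (Perm (Fin 8835156)), Nat.card L = 51765179004000000 ∧
    ∀ (G : Type*) [Group G] [Finite G] [IsSimpleGroup G] (t : G), orderOf t = 2 →
      Cfsg.IsNonsplitDoubleCover (centralizer ({t} : Set G)) (alternatingGroup (Fin 11)) → Nonempty (L ≃* G) := by
  obtain ⟨L, ⟨hs, hc⟩, -, -, u, hu, hC⟩ := Cfsg.Agent.S0454.result
  obtain ⟨α, s, h, ht⟩ := exists_dat hu hC
  refine ⟨L, hc, fun G _ _ _ t h1 h2 => ?_⟩
  obtain ⟨β, s', h', ht'⟩ := exists_dat h1 h2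
  exact iso_of hc h ht h' ht'

theorem iso_two [Finite G] [IsSimpleGroup G] [Finite H] [IsSimpleGroup H] {t : G} {u : H} (ht : orderOf t = 2)
    (hu : orderOf u = 2)
    (hG : Cfsg.IsNonsplitDoubleCover (centralizer ({t} : Set G)) (alternatingGroup (Fin 11)))
    (hH : Cfsg.IsNonsplitDoubleCover (centralizer ({u} : Set H)) (alternatingGroup (Fin 11))) :
    Nonempty (G ≃* H) := by
  obtain ⟨L, hc, h⟩ := exists_ly
  obtain ⟨e⟩ := h H u hu hH
  obtain ⟨α, s, h1, h2⟩ := exists_dat hu hH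
  obtain ⟨β, s', h3, h4⟩ := exists_dat ht hG
  obtain ⟨f⟩ := iso_of ((Nat.card_congr e.toEquiv).symm.trans hc) h1 h2 h3 h4
  exact ⟨f.symm⟩

end Cfsg.Agent.Lib.Lyons
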