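import Cfsg.Agent.Lib.Lyons.Gen
import Cfsg.Agent.Lib.Lyons.C1
import Cfsg.Agent.Lib.Lyons.M1n
import Cfsg.Agent.Lib.Lyons.M1m

/-! The presentation `Pres` defines a group of order at most `|3·McL:2|`. -/

set_option autoImplicit false
set_option maxRecDepth 100000

namespace Cfsg.Agent.Lib.Lyons

open Cfsg.Agent.PG Cfsg.Agent.Spor Subgroup Equiv

namespace M1

theorem p1 : permB A 8 (relN ++ fx1) = true := by decide +kernel

theorem p2 : rowB P L 0 P.n (relN ++ fx1) = true := by decide +kernel

theorem sat : ∀ c ∈ relN ++ fx1, Sat (md A P L) c := fun c hc =>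
  sat_md (permB_spec hA p1 c hc) (matB_spec good p2 c hc)

theorem fix (j : ℕ) : l1 (md A P L) j = md A P L j :=
  l1_fix (fun c hc => sat c (List.mem_append_right _ hc)) (fun _ hj => md_of_le A P L hj hj) j

theorem top : gen (md A P L) JN = ⊤ := top_of_fix (md_top A P L) fun j => fix j ▸ l1_mem _ j

theorem mf : MF A P L 16 af1 B [44] 2 0 40320 :=
  mf_of hA good (r := ⟨0, by decide⟩) (l := 5) (r0 := r0) (s := 210) (ss := [0, 1]) (ws0 := rep0.ms.map Prod.fst)
    (ws1 := rep1.ms.map Prod.fst) (lv0 := lv0) (lv1 := lv1)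
    ((card_of_top top).trans_le (card_N fun c hc => sat c (List.mem_append_left _ hc)).2) two_pos
    (by decide +kernel) (by decide +kernel) (by decide +kernel) (by decide +kernel) (by decide +kernel)
    (by decide +kernel) (by decide +kernel) (by decide +kernel) (by decide +kernel) (by decide +kernel)
    (by decide +kernel)

theorem c1 : (withOk A P L B 0 fun ok => lemB ok 16 af1 rels 4 lems) = true := by decide +kernel

theorem c4 : ∀ R ∈ reps, repB A P L 16 af1 B 0 (ivl 0 210) rels (reps.map DRep.d) R = true :=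
  allL_spec (by decide +kernel)

theorem c6 : ∀ q ∈ reps.zip lvs, lbD A 5 [44] q.1 q.2 = true := allL_spec (by decide +kernel)

end M1

variable {Γ : Type*} [Group Γ] {α : ℕ → Γ} {i : ℕ}

theorem ew_l1 (α : ℕ → Γ) {l : List ℕ} (h : ∀ c ∈ l, c / 2 ∈ JN) : ew (l1 α) l = ew α l :=
  ew_congr fun c hc => l1_N α (h c hc)

theorem card_bar (h : Pres α i) (h8 : α 8 = 1) : Finite (gen α JH) ∧ Nat.card (gen α JH) ≤ 1796256000 := by
  have h0 := (h.zero h8 0).2
  have hN := card_N (α := fun j => (md M1.A M1.P M1.L j, α j)) fun c hc =>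
    (M1.sat c (List.mem_append_left _ hc)).prod (h.1 c hc)
  have := hN.1
  obtain ⟨φ, hφ⟩ := hom_of_le (md_top M1.A M1.P M1.L) (γ := l1 α)
    (D := gen (fun j => (md M1.A M1.P M1.L j, α j)) JN)
    (fun j => by rw [← M1.fix j, ← l1_prod]; exact l1_mem _ j) (M1.mf.cS ▸ hN.2)
  simp only [relG, List.forall_mem_cons, Sat, List.cons_append, ew_cons, ew_append, ew_wpow, ew_wi, ew_nil, mul_one,
    show Spor.lpG α 34 = α 17 from lpG_even _ 17, pow_zero, one_mul] at h0
  obtain ⟨a0, a1, a2, -, a4, a5, a6, a7, a8, a9, a10, -⟩ := h0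
  have sw : ∀ {a b : Γ}, α 17 * (a * α 17) = b → α 17 * (b * α 17) = a := fun {a b} e => by
    rw [← e]
    calc _ = (α 17 * α 17) * a * (α 17 * α 17) := by group
      _ = a := by rw [a0, one_mul, mul_one]
  have e30 : ew α [30] = Spor.lpG α 30 := by rw [ew_cons, ew_nil, mul_one]
  obtain ⟨f1, f2⟩ := M1.mf.dc M1.hA M1.good (by decide) φ hφ a0 (fun j hj => by
      have hj' : j < 8 := hj
      rw [mul_assoc]
      interval_cases j
      · exact a1
      · exact a2
      · exact sw a2
      · exact a4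
      · exact (congrArg (fun z => α 17 * (z * α 17)) e30).trans (a5.trans (ew_cons α 30 yW).symm)
      · exact (congrArg (fun z => α 17 * (z * α 17)) (ew_cons α 30 yW)).trans ((sw a5).trans e30.symm)
      · exact a6
      · exact sw a6)
    (rels := M1.rels) (b := 4) (fun R hR => by
      have e : M1.rels.take 4 = [[p3W, p3W, p3W], [p5aW, p5aW, p5aW, p5aW, p5aW], [p5bW, p5bW, p5bW, p5bW, p5bW],
        [p5cW, p5cW, p5cW, p5cW, p5cW]] := by decide +kernel
      rw [e] at hR
      simp only [List.mem_cons, List.not_mem_nil, or_false] at hR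
      rcases hR with rfl | rfl | rfl | rfl
      · simp only [pt_cons, pt_nil, ew_l1 α (l := p3W) (by decide)]
        refine Eq.trans ?_ a7; simp only [pow_succ', pow_zero]
      · simp only [pt_cons, pt_nil, ew_l1 α (l := p5aW) (by decide)]
        refine Eq.trans ?_ a8; simp only [pow_succ', pow_zero]
      · simp only [pt_cons, pt_nil, ew_l1 α (l := p5bW) (by decide)]
        refine Eq.trans ?_ a9; simp only [pow_succ', pow_zero]
      · simp only [pt_cons, pt_nil, ew_l1 α (l := p5cW) (by decide)]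
        refine Eq.trans ?_ a10; simp only [pow_succ', pow_zero])
    M1.c1 (O := ivl 0 210) (by decide +kernel) (by decide +kernel) M1.c4 (by decide +kernel) M1.c6
  have hle : gen α JH ≤ φ.range ⊔ zpowers (α 17) := gen_le fun j hj => by
    by_cases a : j = 8
    · rw [a, h8]; exact one_mem _
    by_cases b : j = 17
    · rw [b]; exact mem_sup_right (mem_zpowers _)
    · exact mem_sup_left ⟨_, (hφ j).trans (l1_N α (by revert j; decide))⟩
  exact ⟨finite_of_le hle, (card_le_of_le hle).trans (f2.trans (le_of_eq (by decide +kernel)))⟩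

theorem Pres.normal (h : Pres α i) (hi : i < 3) : (zpowers (Lyons.res α JH 8)).Normal :=
  normal_of_pm (eq_top_iff.2 (res_top α JH ▸ (h.res hi).pm))

/-- the letters modulo `x` -/
noncomputable def bar (α : ℕ → Γ) [(zpowers (res α JH 8)).Normal] (j : ℕ) :
    gen α JH ⧸ zpowers (res α JH 8) := QuotientGroup.mk' _ (res α JH j)

theorem bar_8 [(zpowers (res α JH 8)).Normal] : bar α 8 = 1 := (QuotientGroup.eq_one_iff _).2 (mem_zpowers _)

theorem Pres.bar [(zpowers (Lyons.res α JH 8)).Normal] (h : Pres α i) (hi : i < 3) : Pres (bar α) i :=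
  (h.res hi).map (QuotientGroup.mk' _)

theorem bar_top [(zpowers (res α JH 8)).Normal] : gen (bar α) JH = ⊤ := by
  unfold bar
  rw [← map_gen, res_top, ← MonoidHom.range_eq_map, QuotientGroup.range_mk']

theorem card_full (h : Pres α i) (hi : i < 3) : Finite (gen α JH) ∧ Nat.card (gen α JH) ≤ 5388768000 := by
  have := h.normal hi
  obtain ⟨f1, f2⟩ := card_bar (h.bar hi) bar_8
  rw [← card_of_top bar_top] at f2
  rw [bar_top] at f1
  have : Finite (gen α JH ⧸ zpowers (res α JH 8)) := Finite.of_equiv _ topEquiv.toEquiv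
  have c3 := (h.res hi).cube
  have fo : IsOfFinOrder (res α JH 8) := isOfFinOrder_iff_pow_eq_one.2 ⟨3, by decide, c3⟩
  have : Finite (zpowers (res α JH 8)) := finite_zpowers.2 fo
  refine ⟨Finite.of_subgroup_quotient (zpowers (res α JH 8)), ?_⟩
  rw [card_eq_card_quotient_mul_card_subgroup (zpowers (res α JH 8)), Nat.card_zpowers]
  have := Nat.le_of_dvd (by decide) (orderOf_dvd_of_pow_eq_one c3)
  exact Nat.mul_le_mul f2 this

end Cfsg.Agent.Lib.Lyons
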