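import Cfsg.Agent.Lib.Lyons.L2b

/-! An upper bound for the order of the group generated by `3·McL:2` and `s`. -/

set_option autoImplicit false
set_option maxRecDepth 100000

namespace Cfsg.Agent.Lib.Lyons

open Cfsg.Agent.PG Cfsg.Agent.Spor Subgroup Equiv

variable {Γ : Type*} [Group Γ] {α : ℕ → Γ} {s : Γ}

theorem card_ly (h : Pres α 1) (ss : s * s = 1)
    (htw : ∀ j < af2.length, s * l2 α (19 + j) * s = Spor.lpG (l2 α) (af2.getD j 0))
    (hr : pt (l2 α) s [[36], [36], [36]] = 1) :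
    Finite ↥(gen α JH ⊔ zpowers s) ∧ Nat.card ↥(gen α JH ⊔ zpowers s) ≤ 51765179004000000 := by
  have hN := card_full (M2.pres.prod h) (by decide)
  have := hN.1
  obtain ⟨φ, hφ⟩ := hom_of_le (md_top M2.A M2.P M2.L) (γ := l2 α)
    (D := gen (fun j => (md M2.A M2.P M2.L j, α j)) JH)
    (fun j => by rw [← M2.fix j, ← l2_prod]; exact l2_mem _ j) (M2.mf.cS ▸ hN.2)
  obtain ⟨f1, f2⟩ := M2.mf.dc M2.hA M2.good (by decide) φ hφ ss htw (rels := M2.rels) (b := 1)
    (fun R hR => by rw [List.mem_singleton.1 hR]; exact hr)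
    M2.d1 (O := ivl 0 15400) (by decide +kernel) (by decide +kernel) M2.d4 (by decide +kernel) M2.d6
  have hle : gen α JH ⊔ zpowers s ≤ φ.range ⊔ zpowers s :=
    sup_le_sup_right (gen_le fun j hj => MonoidHom.mem_range.2 ⟨_, (hφ j).trans (l2_H α hj)⟩) _
  exact ⟨finite_of_le hle, (card_le_of_le hle).trans (f2.trans (le_of_eq (by decide +kernel)))⟩

end Cfsg.Agent.Lib.Lyons
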