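import Cfsg.Agent.Lib.Lyons.L1
import Cfsg.Agent.Lib.Lyons.C2
import Cfsg.Agent.Lib.Lyons.M2n
import Cfsg.Agent.Lib.Lyons.M2m

/-! The model of `3·McL:2`. -/

set_option autoImplicit false
set_option maxRecDepth 100000

namespace Cfsg.Agent.Lib.Lyons.M2

open Cfsg.Agent.PG Cfsg.Agent.Spor Cfsg.Agent.Lib.Lyons Subgroup Equiv

theorem p1 : permB A 14 relN = true := by decide +kernel

theorem p2 : permB A 14 (relG 1) = true := by decide +kernel

theorem p3 : permB A 14 fx2 = true := by decide +kernel

theorem q1 : rowB P L 0 P.n relN = true := by decide +kernel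

theorem q2 : rowB P L 0 P.n (relG 1) = true := by decide +kernel

theorem q3 : rowB P L 0 P.n fx2 = true := by decide +kernel

theorem pres : Pres (md A P L) 1 :=
  ⟨fun c hc => sat_md (permB_spec hA p1 c hc) (matB_spec good q1 c hc),
   fun c hc => sat_md (permB_spec hA p2 c hc) (matB_spec good q2 c hc)⟩

theorem fix (j : ℕ) : l2 (md A P L) j = md A P L j :=
  l2_fix (fun c hc => sat_md (permB_spec hA p3 c hc) (matB_spec good q3 c hc)) (fun _ hj => md_of_le A P L hj hj) j

theorem top : gen (md A P L) JH = ⊤ := top_of_fix (md_top A P L) fun j => fix j ▸ l2_mem _ j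

theorem c2 : lbQ A 11 ((rep0.ms.map Prod.fst).map toP) lv0 [] = true := by decide +kernel

theorem c9 : lbQ A 11 ((rep1.ms.map Prod.fst).map toP) lv1 [0] = true := by decide +kernel

theorem mf : MF A P L 19 af2 B [38] 3 0 1796256000 :=
  mf_of hA good (r := ⟨0, by decide⟩) (l := 11) (r0 := r0) (s := 15400) (ss := [0, 0, 0])
    (ws0 := rep0.ms.map Prod.fst) (ws1 := rep1.ms.map Prod.fst) (lv0 := lv0) (lv1 := lv1)
    ((card_of_top top).trans_le (card_full pres (by decide)).2) three_pos
    (by decide +kernel) c2 (by decide +kernel) (by decide +kernel) (by decide +kernel)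
    (by decide +kernel) (by decide +kernel) (by decide +kernel) c9 (by decide +kernel)
    (by decide +kernel)

end Cfsg.Agent.Lib.Lyons.M2
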