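import Cfsg.Agent.Lib.Lyons.L2a

/-! Checks of the scripts of the second enumeration. -/

set_option autoImplicit false
set_option maxRecDepth 100000
set_option Elab.async false

namespace Cfsg.Agent.Lib.Lyons.M2

open Cfsg.Agent.PG Cfsg.Agent.Spor Cfsg.Agent.Lib.Lyons Subgroup Equiv

theorem all_of {α : Type} {l : List α} {p : α → Bool} (h : ∀ a ∈ l, p a = true) : allL l p = true := by
  induction l with
  | nil => rfl
  | cons a l ih =>
    show andB (p a) (allL l p) = true
    rw [andB_eq, h a List.mem_cons_self, ih fun b hb => h b (List.mem_cons_of_mem _ hb)]; rfl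

theorem all_split {α : Type} {l : List α} {p : α → Bool} (n : ℕ) (h1 : ∀ a ∈ l.take n, p a = true)
    (h2 : ∀ a ∈ l.drop n, p a = true) : ∀ a ∈ l, p a = true := fun a ha => by
  rw [← List.take_append_drop n l, List.mem_append] at ha
  exact ha.elim (h1 a) (h2 a)

/-- some orbit representatives -/
noncomputable def kB (R : DRep) (l : List (List ℕ × List ℕ × ℕ × List ℕ)) : Bool :=
  withOk A P L B 0 fun ok => allL l (cvB ok 19 af2 rels (reps.map DRep.d) R.d)

theorem kB_spec {R : DRep} {l : List (List ℕ × List ℕ × ℕ × List ℕ)} (h : kB R l = true) :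
    ∀ a ∈ l, cvB (okM' A P L B 0) 19 af2 rels (reps.map DRep.d) R.d a = true := by
  unfold kB at h
  rw [withOk_eq] at h
  exact allL_spec h

theorem rep_of {R : DRep} (h1 : orbB A 0 (ivl 0 15400) R = true)
    (h2 : (withOk A P L B 0 fun ok => allL R.ms (stB ok 19 af2 rels R.d)) = true)
    (h3 : ∀ a ∈ R.ks, cvB (okM' A P L B 0) 19 af2 rels (reps.map DRep.d) R.d a = true) :
    repB A P L 19 af2 B 0 (ivl 0 15400) rels (reps.map DRep.d) R = true := by
  unfold repB
  rw [withOk_eq] at h2 ⊢
  rw [h1, h2, all_of h3]; rfl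

theorem d1 : (withOk A P L B 0 fun ok => lemB ok 19 af2 rels 1 lems) = true := by decide +kernel

theorem k0_0 : kB rep0 rep0.ks = true := by decide +kernel

theorem e0 : repB A P L 19 af2 B 0 (ivl 0 15400) rels (reps.map DRep.d) rep0 = true :=
  rep_of (by decide +kernel) (by decide +kernel) (kB_spec k0_0)

theorem k1_0 : kB rep1 rep1.ks = true := by decide +kernel

theorem e1 : repB A P L 19 af2 B 0 (ivl 0 15400) rels (reps.map DRep.d) rep1 = true :=
  rep_of (by decide +kernel) (by decide +kernel) (kB_spec k1_0)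

theorem k2_0 : kB rep2 (rep2.ks.take 7) = true := by decide +kernel

theorem k2_1 : kB rep2 (rep2.ks.drop 7) = true := by decide +kernel

theorem e2 : repB A P L 19 af2 B 0 (ivl 0 15400) rels (reps.map DRep.d) rep2 = true :=
  rep_of (by decide +kernel) (by decide +kernel) (all_split 7 (kB_spec k2_0) <| kB_spec k2_1)

theorem k3_0 : kB rep3 (rep3.ks.take 7) = true := by decide +kernel

theorem k3_1 : kB rep3 ((rep3.ks.drop 7).take 5) = true := by decide +kernel

theorem k3_2 : kB rep3 ((rep3.ks.drop 7).drop 5) = true := by decide +kernel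

theorem e3 : repB A P L 19 af2 B 0 (ivl 0 15400) rels (reps.map DRep.d) rep3 = true :=
  rep_of (by decide +kernel) (by decide +kernel) (all_split 7 (kB_spec k3_0) <| all_split 5 (kB_spec k3_1) <| kB_spec k3_2)

theorem k4_0 : kB rep4 (rep4.ks.take 6) = true := by decide +kernel

theorem k4_1 : kB rep4 ((rep4.ks.drop 6).take 5) = true := by decide +kernel

theorem k4_2 : kB rep4 (((rep4.ks.drop 6).drop 5).take 5) = true := by decide +kernel

theorem k4_3 : kB rep4 ((((rep4.ks.drop 6).drop 5).drop 5).take 7) = true := by decide +kernel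

theorem k4_4 : kB rep4 (((((rep4.ks.drop 6).drop 5).drop 5).drop 7).take 4) = true := by decide +kernel

theorem k4_5 : kB rep4 ((((((rep4.ks.drop 6).drop 5).drop 5).drop 7).drop 4).take 5) = true := by decide +kernel

theorem k4_6 : kB rep4 (((((((rep4.ks.drop 6).drop 5).drop 5).drop 7).drop 4).drop 5).take 4) = true := by decide +kernel

theorem k4_7 : kB rep4 (((((((rep4.ks.drop 6).drop 5).drop 5).drop 7).drop 4).drop 5).drop 4) = true := by decide +kernel

theorem e4 : repB A P L 19 af2 B 0 (ivl 0 15400) rels (reps.map DRep.d) rep4 = true :=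
  rep_of (by decide +kernel) (by decide +kernel) (all_split 6 (kB_spec k4_0) <| all_split 5 (kB_spec k4_1) <| all_split 5 (kB_spec k4_2) <| all_split 7 (kB_spec k4_3) <| all_split 4 (kB_spec k4_4) <| all_split 5 (kB_spec k4_5) <| all_split 4 (kB_spec k4_6) <| kB_spec k4_7)

theorem d4 : ∀ R ∈ reps, repB A P L 19 af2 B 0 (ivl 0 15400) rels (reps.map DRep.d) R = true := by
  simp only [reps, List.forall_mem_cons]
  exact ⟨e0, e1, e2, e3, e4, fun _ h => by cases h⟩

theorem d6 : ∀ q ∈ reps.zip lvs, lbD A 11 [38] q.1 q.2 = true := allL_spec (by decide +kernel)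

end Cfsg.Agent.Lib.Lyons.M2
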